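import Mathlib.RingTheory.SimpleModule.Basic
import Mathlib.GroupTheory.Subgroup.Center
import Mathlib.GroupTheory.GroupAction.Basic
import Mathlib.Tactic

set_option autoImplicit false
set_option linter.unusedSectionVars false

/-! Equivariant endomorphisms. -/

namespace H62.EPAlg

open Subgroup MulAction

universe u v

variable {H : Type u} [Group H] {V : Type v} [AddCommGroup V] [DistribMulAction H V]

/-- the ring generated by `T` -/
def A (V : Type v) [AddCommGroup V] [DistribMulAction H V] (T : Subgroup H) : Subring (AddMonoid.End V) :=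
  Subring.closure ((fun t : H => DistribMulAction.toAddMonoidEnd H V t) '' (T : Set H))

/-- the element of the ring given by an element of `T` -/
def el {T : Subgroup H} (t : T) : A V T := ⟨DistribMulAction.toAddMonoidEnd H V t, Subring.subset_closure ⟨t, t.2, rfl⟩⟩

theorem el_smul {T : Subgroup H} (t : T) (v : V) : (el t : A V T) • v = (t : H) • v := rfl

/-- a `T`-invariant subgroup as a submodule -/
def ofInv (T : Subgroup H) (S : AddSubgroup V) (hS : ∀ t ∈ T, ∀ s ∈ S, t • s ∈ S) : Submodule (A V T) V where
  carrier := S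
  add_mem' := S.add_mem
  zero_mem' := S.zero_mem
  smul_mem' := by
    rintro ⟨a, ha⟩ s hs
    show a s ∈ S
    induction ha using Subring.closure_induction generalizing s with
    | mem x hx =>
      obtain ⟨t, ht, rfl⟩ := hx
      exact hS t ht s hs
    | zero => exact S.zero_mem
    | one => exact hs
    | add x y _ _ hx hy => exact S.add_mem (hx hs) (hy hs)
    | neg x _ hx => exact S.neg_mem (hx hs)
    | mul x y _ _ hx hy => exact hx (hy hs)

/-- an equivariant map is linear -/
def toLin (T : Subgroup H) (f : V →+ V) (hf : ∀ t ∈ T, ∀ v, f (t • v) = t • f v) : V →ₗ[A V T] V where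
  toFun := f
  map_add' := f.map_add
  map_smul' := by
    rintro ⟨a, ha⟩ v
    show f (a v) = a (f v)
    induction ha using Subring.closure_induction generalizing v with
    | mem x hx =>
      obtain ⟨t, ht, rfl⟩ := hx
      exact hf t ht v
    | zero => exact f.map_zero
    | one => rfl
    | add x y _ _ hx hy =>
      show f (x v + y v) = x (f v) + y (f v)
      rw [f.map_add, hx, hy]
    | neg x _ hx =>
      show f (- x v) = - x (f v)
      rw [f.map_neg, hx]
    | mul x y _ _ hx hy =>
      show f (x (y v)) = x (y (f v))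
      rw [hx, hy]

/-- elements commuting with `T` act linearly -/
def cl (T : Subgroup H) (c : H) (hc : ∀ t ∈ T, c * t = t * c) : V →ₗ[A V T] V :=
  toLin T (DistribSMul.toAddMonoidHom V c) (fun t ht v => by
    show c • t • v = t • c • v
    rw [← mul_smul, hc t ht, mul_smul])

theorem cl_apply (T : Subgroup H) (c : H) (hc : ∀ t ∈ T, c * t = t * c) (v : V) : cl T c hc v = c • v := rfl

theorem cl_inj (T : Subgroup H) (c : H) (hc : ∀ t ∈ T, c * t = t * c) : Function.Injective (cl (V := V) T c hc) :=
  fun _ _ h => MulAction.injective c h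

variable (T C : Subgroup H) (hcomm : ∀ c ∈ C, ∀ t ∈ T, c * t = t * c)
  (hirr : ∀ S : AddSubgroup V, (∀ t ∈ T, ∀ s ∈ S, t • s ∈ S) → (∀ c ∈ C, ∀ s ∈ S, c • s ∈ S) → S = ⊥ ∨ S = ⊤)

include hirr hcomm in
/-- the translates of a nonzero submodule generate -/
theorem iSup_eq_top (D : Submodule (A V T) V) (hD : D ≠ ⊥) :
    ⨆ c : C, D.map (cl T c (hcomm c c.2)) = ⊤ := by
  set X := ⨆ c : C, D.map (cl T c (hcomm c c.2)) with hX
  have h1 : D ≤ X := by
    have : D.map (cl T (1 : C) (hcomm (1 : C) (1 : C).2)) = D := by
      ext v
      rw [Submodule.mem_map]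
      constructor
      · rintro ⟨w, hw, rfl⟩
        rw [cl_apply, Subgroup.coe_one, one_smul]; exact hw
      · intro hv
        exact ⟨v, hv, by rw [cl_apply, Subgroup.coe_one, one_smul]⟩
    calc D = D.map (cl T (1 : C) (hcomm (1 : C) (1 : C).2)) := this.symm
      _ ≤ X := le_iSup (fun c : C => D.map (cl T c (hcomm c c.2))) 1
  rcases hirr X.toAddSubgroup (fun t ht s hs => by
      have := X.smul_mem (el ⟨t, ht⟩) hs
      exact this) (fun c hc s hs => by
      have hs' : s ∈ X := hs
      show c • s ∈ X
      rw [hX] at hs'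
      induction hs' using Submodule.iSup_induction' with
      | mem d x hx =>
        obtain ⟨w, hw, rfl⟩ := hx
        have h2 : c • cl T d (hcomm d d.2) w = cl T (⟨c, hc⟩ * d : C) (hcomm _ (⟨c, hc⟩ * d : C).2) w := by
          rw [cl_apply, cl_apply, Subgroup.coe_mul, mul_smul]
        rw [h2]
        exact (le_iSup (fun c : C => D.map (cl T c (hcomm c c.2))) (⟨c, hc⟩ * d)) ⟨w, hw, rfl⟩
      | zero => rw [smul_zero]; exact X.zero_mem
      | add x y _ _ hx hy =>
        rw [smul_add]
        exact X.add_mem (hx (by assumption)) (hy (by assumption))) with h | h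
  · exfalso
    apply hD
    rw [eq_bot_iff]
    intro v hv
    have : v ∈ X.toAddSubgroup := h1 hv
    rw [h] at this
    exact this
  · rw [eq_top_iff]
    intro v _
    have : v ∈ X.toAddSubgroup := by rw [h]; trivial
    exact this

include hirr hcomm in
theorem semisimple [Finite V] : IsSemisimpleModule (A V T) V := by
  by_cases hV : Subsingleton V
  · have : Subsingleton (Submodule (A V T) V) := (Submodule.subsingleton_iff _).mpr hV
    exact (isSemisimpleModule_iff _ _).mpr Subsingleton.instComplementedLattice
  rw [not_subsingleton_iff_nontrivial] at hV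
  have hat : IsAtomic (Submodule (A V T) V) := inferInstance
  obtain h | ⟨W, hW, -⟩ := hat.eq_bot_or_exists_atom_le (⊤ : Submodule (A V T) V)
  · exact absurd h top_ne_bot
  have hWs : IsSimpleModule (A V T) W := isSimpleModule_iff_isAtom.mpr hW
  apply isSemisimpleModule_of_isSemisimpleModule_submodule' (p := fun c : C => W.map (cl T c (hcomm c c.2)))
  · intro c
    have e := Submodule.equivMapOfInjective (cl T c (hcomm c c.2)) (cl_inj T c (hcomm c c.2)) W
    exact IsSemisimpleModule.congr e.symm
  · exact iSup_eq_top T C hcomm hirr W hW.1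

end H62.EPAlg
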