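import Mathlib

set_option autoImplicit false

/-! An abelian group acting faithfully and irreducibly on an elementary abelian group. -/

namespace H62.IrrAbelian

open Function

/-- A finite group of automorphisms of a finite commutative domain over `ZMod p`. -/
theorem card_dvd_finrank {p : ℕ} [Fact p.Prime] {R K : Type*} [CommRing R] [IsDomain R] [Finite R]
    [Algebra (ZMod p) R] [Group K] (f : K →* (R ≃ₐ[ZMod p] R)) (hf : Injective f) :
    Nat.card K ∣ Module.finrank (ZMod p) R ∧ IsCyclic K := by
  have hfield : IsField R := Finite.isField_of_domain R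
  obtain ⟨F, hF, e, he⟩ : ∃ (F : Type _) (_ : Field F) (e : R ≃+* F), True :=
    ⟨R, hfield.toField, RingEquiv.refl R, trivial⟩
  let : Algebra (ZMod p) F := ((e : R →+* F).comp (algebraMap (ZMod p) R)).toAlgebra
  let e' : R ≃ₐ[ZMod p] F := AlgEquiv.ofRingEquiv (f := e) (fun r => rfl)
  have hfin : Finite F := Finite.of_equiv R e.toEquiv
  have h1 : Nat.card (F ≃ₐ[ZMod p] F) = Module.finrank (ZMod p) F := IsGalois.card_aut_eq_finrank (ZMod p) F
  have h2 : Module.finrank (ZMod p) F = Module.finrank (ZMod p) R := (LinearEquiv.finrank_eq e'.toLinearEquiv).symm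
  let g : K →* (F ≃ₐ[ZMod p] F) := (AlgEquiv.autCongr e').toMonoidHom.comp f
  have hg : Injective g := (AlgEquiv.autCongr e').injective.comp hf
  constructor
  · rw [← h2, ← h1]
    exact Subgroup.card_dvd_of_injective g hg
  · exact isCyclic_of_injective g hg

/-- The fixed subalgebra of the `p ^ i` power map. -/
def frob (p i : ℕ) [hp : Fact p.Prime] (R : Type*) [CommRing R] [Algebra (ZMod p) R] [Nontrivial R] :
    Subalgebra (ZMod p) R where
  carrier := {x | x ^ p ^ i = x}
  one_mem' := one_pow _
  mul_mem' := fun {a b} ha hb => by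
    change (a * b) ^ p ^ i = a * b
    rw [mul_pow, ha, hb]
  zero_mem' := zero_pow (pow_pos hp.out.pos i).ne'
  add_mem' := fun {a b} ha hb => by
    have hchar : CharP R p := charP_of_injective_algebraMap (algebraMap (ZMod p) R).injective p
    change (a + b) ^ p ^ i = a + b
    rw [add_pow_char_pow a b p i, ha, hb]
  algebraMap_mem' := fun r => by
    change (algebraMap (ZMod p) R r) ^ p ^ i = algebraMap (ZMod p) R r
    rw [← map_pow]
    congr 1
    induction i with
    | zero => simp
    | succ i ih => rw [pow_succ, pow_mul, ih, ZMod.pow_card]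

theorem card_le_of_pow {p : ℕ} [Fact p.Prime] {R : Type*} [CommRing R] [IsDomain R] [Finite R]
    (i : ℕ) (hpos : 0 < i) (hall : ∀ x : R, x ^ p ^ i = x) : Nat.card R ≤ p ^ i := by
  classical
  have hp : p.Prime := Fact.out
  have := Fintype.ofFinite R
  let P : Polynomial R := Polynomial.X ^ (p ^ i) - Polynomial.X
  have hlt : (1 : ℕ) < p ^ i := Nat.one_lt_pow hpos.ne' hp.one_lt
  have hdeg : P.natDegree = p ^ i := by
    rw [Polynomial.natDegree_sub_eq_left_of_natDegree_lt, Polynomial.natDegree_X_pow]
    rw [Polynomial.natDegree_X_pow, Polynomial.natDegree_X]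
    exact hlt
  have hP : P ≠ 0 := by
    intro h
    rw [h, Polynomial.natDegree_zero] at hdeg
    omega
  have hroots : (Finset.univ : Finset R) ⊆ P.roots.toFinset := by
    intro x _
    rw [Multiset.mem_toFinset, Polynomial.mem_roots hP]
    simp only [P, Polynomial.IsRoot.def, Polynomial.eval_sub, Polynomial.eval_pow, Polynomial.eval_X]
    rw [hall x, sub_self]
  have h5 := Finset.card_le_card hroots
  rw [Finset.card_univ] at h5
  rw [Nat.card_eq_fintype_card, ← hdeg]
  exact h5.trans ((Multiset.toFinset_card_le _).trans (Polynomial.card_roots' P))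

open scoped IsMulCommutative in
theorem main {p d : ℕ} [Fact p.Prime] {V M K : Type*} [AddCommGroup V] [Module (ZMod p) V] [Finite V]
    [Nontrivial V] [Group M] [Finite M] [Group K] (hM : ∀ a b : M, a * b = b * a)
    (hcard : Nat.card V = p ^ d) (ρ : M →* Module.End (ZMod p) V) (hρ : Injective ρ)
    (hirr : ∀ W : Submodule (ZMod p) V, (∀ m, ∀ w ∈ W, ρ m w ∈ W) → W = ⊥ ∨ W = ⊤)
    (σ : K →* Module.End (ZMod p) V) (hσ : Injective σ)
    (hnorm : ∀ k m, ∃ m', σ k * ρ m = ρ m' * σ k) (v : V) (hv : v ≠ 0) (hvK : ∀ k, σ k v = v) :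
    IsCyclic M ∧ Nat.card K ∣ d ∧ IsCyclic K ∧
      (∀ i, 0 < i → i < d → ¬ Nat.card M ∣ p ^ i - 1) := by
  classical
  have hcommS : ∀ a ∈ Set.range ρ, ∀ b ∈ Set.range ρ, a * b = b * a := by
    rintro _ ⟨a, rfl⟩ _ ⟨b, rfl⟩
    rw [← map_mul, ← map_mul, hM]
  have hEc := Algebra.isMulCommutative_adjoin (ZMod p) hcommS
  set E := Algebra.adjoin (ZMod p) (Set.range ρ) with hE
  have hfinEnd : Finite (Module.End (ZMod p) V) :=
    Finite.of_injective (fun f : Module.End (ZMod p) V => (f : V → V)) DFunLike.coe_injective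
  have hEfin : Finite E := inferInstance
  have hρE : ∀ m, ρ m ∈ E := fun m => Algebra.subset_adjoin ⟨m, rfl⟩
  -- elements of E commute with the ρ m
  have hcomm : ∀ a ∈ E, ∀ b ∈ E, a * b = b * a := fun a ha b hb =>
    congrArg Subtype.val (hEc.is_comm.comm ⟨a, ha⟩ ⟨b, hb⟩)
  -- nonzero elements are injective
  have hinj : ∀ a ∈ E, a ≠ 0 → ∀ w, a w = 0 → w = 0 := by
    intro a ha ha0 w hw
    rcases hirr (LinearMap.ker a) (by
      intro m w hw
      rw [LinearMap.mem_ker] at hw ⊢
      have := LinearMap.congr_fun (hcomm a ha (ρ m) (hρE m)) w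
      rw [Module.End.mul_apply, Module.End.mul_apply, hw, map_zero] at this
      exact this) with h | h
    · have : w ∈ LinearMap.ker a := hw
      rw [h] at this
      exact this
    · exact absurd (LinearMap.ker_eq_top.mp h) ha0
  have hnt : Nontrivial (Module.End (ZMod p) V) := inferInstance
  have hntE : Nontrivial E := inferInstance
  have hnzd : NoZeroDivisors E := by
    constructor
    intro a b hab
    by_cases ha : a = 0
    · left; exact ha
    · right
      have ha' : (a : Module.End (ZMod p) V) ≠ 0 := fun h => ha (Subtype.ext h)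
      apply Subtype.ext
      apply LinearMap.ext
      intro w
      apply hinj a a.2 ha'
      have := congrArg (fun z : E => (z : Module.End (ZMod p) V) w) hab
      exact this
  have hdom : IsDomain E := NoZeroDivisors.to_isDomain E
  -- evaluation at v
  let ev : E →ₗ[ZMod p] V :=
    { toFun := fun e => (e : Module.End (ZMod p) V) v
      map_add' := fun a b => rfl
      map_smul' := fun r a => rfl }
  have hevinj : Injective ev := by
    rw [← LinearMap.ker_eq_bot, LinearMap.ker_eq_bot']
    intro a ha
    by_contra hne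
    have ha' : (a : Module.End (ZMod p) V) ≠ 0 := fun h => hne (Subtype.ext h)
    exact hv (hinj a a.2 ha' v ha)
  have hevsurj : Surjective ev := by
    rw [← LinearMap.range_eq_top]
    rcases hirr (LinearMap.range ev) (by
      rintro m _ ⟨e, rfl⟩
      exact ⟨⟨ρ m, hρE m⟩ * e, rfl⟩) with h | h
    · exfalso
      have h1 : v ∈ LinearMap.range ev := ⟨1, rfl⟩
      rw [h] at h1
      exact hv h1
    · exact h
  have hEV : Nat.card E = Nat.card V := Nat.card_congr (Equiv.ofBijective ev ⟨hevinj, hevsurj⟩)
  have hfr : Module.finrank (ZMod p) E = d := by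
    have h1 := Module.natCard_eq_pow_finrank (K := ZMod p) (V := E)
    rw [Nat.card_zmod, hEV, hcard] at h1
    exact (Nat.pow_right_injective (Fact.out : p.Prime).two_le h1).symm
  -- M is cyclic
  let ρE : M →* E :=
    { toFun := fun m => ⟨ρ m, hρE m⟩
      map_one' := Subtype.ext (map_one ρ)
      map_mul' := fun a b => Subtype.ext (map_mul ρ a b) }
  have hρEinj : Injective ρE := fun a b h => hρ (congrArg Subtype.val h)
  have hcyc : IsCyclic M := isCyclic_of_injective_ringHom ρE hρEinj
  refine ⟨hcyc, ?_⟩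
  -- conjugation by K
  have hσinv : ∀ k, σ k * σ k⁻¹ = 1 := fun k => by rw [← map_mul, mul_inv_cancel, map_one]
  have hσinv' : ∀ k, σ k⁻¹ * σ k = 1 := fun k => by rw [← map_mul, inv_mul_cancel, map_one]
  let c : K → (Module.End (ZMod p) V →ₐ[ZMod p] Module.End (ZMod p) V) := fun k =>
    { toFun := fun x => σ k * x * σ k⁻¹
      map_one' := by rw [mul_one, hσinv]
      map_mul' := fun x y => by
        have : σ k * (x * y) * σ k⁻¹ = σ k * x * (σ k⁻¹ * σ k) * y * σ k⁻¹ := by
          rw [hσinv', mul_one]
          simp only [mul_assoc]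
        rw [this]
        simp only [mul_assoc]
      map_zero' := by rw [mul_zero, zero_mul]
      map_add' := fun x y => by rw [mul_add, add_mul]
      commutes' := fun r => by
        rw [← Algebra.commutes, mul_assoc, hσinv, mul_one] }
  have hcE : ∀ k, ∀ x ∈ E, c k x ∈ E := by
    intro k
    have : E ≤ E.comap (c k) := by
      rw [hE]
      apply Algebra.adjoin_le
      rintro _ ⟨m, rfl⟩
      obtain ⟨m', hm'⟩ := hnorm k m
      change σ k * ρ m * σ k⁻¹ ∈ E
      rw [hm', mul_assoc, hσinv, mul_one]
      exact hρE m'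
    exact this
  let cE : K → (E →ₐ[ZMod p] E) := fun k => ((c k).comp E.val).codRestrict E (fun x => hcE k x x.2)
  have hcEapp : ∀ k (x : E), ((cE k x : E) : Module.End (ZMod p) V) = σ k * x * σ k⁻¹ := fun k x => rfl
  let f : K →* (E ≃ₐ[ZMod p] E) :=
    { toFun := fun k => AlgEquiv.ofAlgHom (cE k) (cE k⁻¹)
        (by
          ext x : 1
          apply Subtype.ext
          rw [AlgHom.comp_apply, hcEapp, hcEapp, inv_inv, AlgHom.id_apply]
          have : σ k * (σ k⁻¹ * (x : Module.End (ZMod p) V) * σ k) * σ k⁻¹ = (σ k * σ k⁻¹) * x * (σ k * σ k⁻¹) := by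
            simp only [mul_assoc]
          rw [this, hσinv, one_mul, mul_one])
        (by
          ext x : 1
          apply Subtype.ext
          rw [AlgHom.comp_apply, hcEapp, hcEapp, inv_inv, AlgHom.id_apply]
          have : σ k⁻¹ * (σ k * (x : Module.End (ZMod p) V) * σ k⁻¹) * σ k = (σ k⁻¹ * σ k) * x * (σ k⁻¹ * σ k) := by
            simp only [mul_assoc]
          rw [this, hσinv', one_mul, mul_one])
      map_one' := by
        ext x : 1
        apply Subtype.ext
        change σ 1 * (x : Module.End (ZMod p) V) * σ 1⁻¹ = x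
        rw [inv_one, map_one, one_mul, mul_one]
      map_mul' := fun a b => by
        ext x : 1
        apply Subtype.ext
        change σ (a * b) * (x : Module.End (ZMod p) V) * σ (a * b)⁻¹ = σ a * (σ b * (x : Module.End (ZMod p) V) * σ b⁻¹) * σ a⁻¹
        rw [mul_inv_rev, map_mul, map_mul]
        simp only [mul_assoc] }
  have hfinj : Injective f := by
    rw [injective_iff_map_eq_one]
    intro k hk
    apply hσ
    rw [map_one]
    apply LinearMap.ext
    intro w
    obtain ⟨e, rfl⟩ := hevsurj w
    have h1 : σ k * (e : Module.End (ZMod p) V) * σ k⁻¹ = e := by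
      have := congrArg (fun z : E ≃ₐ[ZMod p] E => ((z e : E) : Module.End (ZMod p) V)) hk
      exact this
    change σ k ((e : Module.End (ZMod p) V) v) = (e : Module.End (ZMod p) V) v
    have h2 := LinearMap.congr_fun h1 v
    rw [Module.End.mul_apply, Module.End.mul_apply, hvK] at h2
    exact h2
  obtain ⟨h1, h2⟩ := card_dvd_finrank f hfinj
  rw [hfr] at h1
  refine ⟨h1, h2, ?_⟩
  intro i hpos hi hdvd
  have hp : p.Prime := Fact.out
  -- every element of E satisfies x ^ p ^ i = x
  have hgen : ∀ m : M, (ρE m) ^ p ^ i = ρE m := by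
    intro m
    obtain ⟨j, hj⟩ := hdvd
    have h3 : p ^ i = Nat.card M * j + 1 := by
      have : 0 < p ^ i := pow_pos hp.pos i
      omega
    rw [h3, pow_succ, pow_mul, ← map_pow, pow_card_eq_one', map_one, one_pow, one_mul]
  have hall : ∀ x : E, x ^ p ^ i = x := by
    have h5 : E ≤ (frob p i E).map E.val := by
      refine Algebra.adjoin_le ?_
      rintro _ ⟨m, rfl⟩
      exact ⟨ρE m, hgen m, rfl⟩
    intro x
    obtain ⟨y, hy, hyx⟩ := h5 x.2
    have : y = x := Subtype.ext hyx
    rw [← this]
    exact hy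
  have hle : Nat.card E ≤ p ^ i := card_le_of_pow i hpos hall
  rw [hEV, hcard] at hle
  exact absurd hle (not_le.mpr (Nat.pow_lt_pow_right hp.one_lt hi))

end H62.IrrAbelian
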