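import Cfsg.Agent.Lib.H62.EPAlg
import Cfsg.Agent.Lib.H62.IrrAbelian
import Cfsg.Agent.S0035
import Mathlib.GroupTheory.Solvable

set_option autoImplicit false
set_option linter.unusedSectionVars false

/-! Linear groups in characteristic two all of whose vector stabilizers are maximal. -/

namespace H62.EPMain

open Subgroup MulAction H62.EPAlg
open scoped commutatorElement

universe u v

variable {H : Type u} [Group H] [Finite H] {V : Type v} [AddCommGroup V] [DistribMulAction H V]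

/-- the vectors fixed by a subgroup -/
def fixS (V : Type v) [AddCommGroup V] [DistribMulAction H V] (D : Subgroup H) : AddSubgroup V where
  carrier := {v | ∀ x ∈ D, x • v = v}
  zero_mem' := fun x _ => smul_zero x
  add_mem' := fun {a b} ha hb x hx => by rw [smul_add, ha x hx, hb x hx]
  neg_mem' := fun {a} ha x hx => by rw [smul_neg, ha x hx]

theorem mem_fixS {D : Subgroup H} {v : V} : v ∈ fixS V D ↔ ∀ x ∈ D, x • v = v := Iff.rfl

/-- the hypotheses -/
structure Hyp (H : Type u) [Group H] [Finite H] (V : Type v) [AddCommGroup V] [DistribMulAction H V] : Prop where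
  faith : ∀ h : H, (∀ v : V, h • v = v) → h = 1
  two : ∀ v : V, v + v = 0
  irr : ∀ K : Subgroup H, K.Normal → K ≠ ⊥ → ∀ S : AddSubgroup V, (∀ k ∈ K, ∀ s ∈ S, k • s ∈ S) → S = ⊥ ∨ S = ⊤
  orb : ∀ K : Subgroup H, K.Normal → K ≠ ⊥ → ∀ (h : H) (v : V), ∃ k ∈ K, k • v = h • v
  max : ∀ v : V, v ≠ 0 → IsCoatom (stabilizer H v)
  nsol : ¬ Group.IsSolvable H
  odd : ∀ K : Subgroup H, Odd (Nat.card K) → Group.IsSolvable K

theorem Hyp.eq_bot_of_fix (hH : Hyp H V) {K D : Subgroup H} (hK : K.Normal) (hK0 : K ≠ ⊥)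
    (hD : ∀ k ∈ K, ∀ x ∈ D, k⁻¹ * x * k ∈ D) {w : V} (hw0 : w ≠ 0) (hw : ∀ x ∈ D, x • w = w) : D = ⊥ := by
  rcases hH.irr K hK hK0 (fixS V D) (by
    intro k hk s hs x hx
    have h1 := hs _ (hD k hk x hx)
    rw [mul_smul, mul_smul, inv_smul_eq_iff] at h1
    exact h1) with h | h
  · exfalso
    have : w ∈ fixS V D := hw
    rw [h] at this
    exact hw0 this
  · rw [eq_bot_iff]
    intro x hx
    rw [Subgroup.mem_bot]
    apply hH.faith
    intro v
    have : v ∈ fixS V D := by rw [h]; trivial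
    exact this x hx

theorem Hyp.eq_one_of_fix (hH : Hyp H V) {K : Subgroup H} (hK : K.Normal) (hK0 : K ≠ ⊥)
    {x : H} (hx : ∀ k ∈ K, x * k = k * x) {w : V} (hw0 : w ≠ 0) (hw : x • w = w) : x = 1 := by
  have h1 : zpowers x = ⊥ := hH.eq_bot_of_fix hK hK0 (by
    intro k hk y hy
    have h2 : Commute x k := hx k hk
    obtain ⟨n, rfl⟩ := mem_zpowers_iff.mp hy
    have h3 : k⁻¹ * x ^ n * k = x ^ n := by
      have h4 : x ^ n * k = k * x ^ n := (h2.zpow_left n)
      rw [mul_assoc, h4, inv_mul_cancel_left]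
    rw [h3]
    exact zpow_mem (mem_zpowers x) n) hw0 (by
    intro y hy
    have : y ∈ stabilizer H w := by
      have h5 : zpowers x ≤ stabilizer H w := by
        rw [zpowers_le]; exact hw
      exact h5 hy
    exact this)
  rw [zpowers_eq_bot] at h1
  exact h1

/-- decomposition `H = K H_w` -/
theorem Hyp.decomp (hH : Hyp H V) {K : Subgroup H} (hK : K.Normal) (hK0 : K ≠ ⊥) (w : V) (h : H) :
    ∃ k ∈ K, ∃ y : H, y • w = w ∧ h = k * y := by
  obtain ⟨k, hk, hkw⟩ := hH.orb K hK hK0 h w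
  refine ⟨k, hk, k⁻¹ * h, ?_, by group⟩
  rw [mul_smul, ← hkw, inv_smul_smul]

theorem exists_fixed (hH : Hyp H V) {T : Subgroup H} (hT : ¬ Odd (Nat.card T)) :
    ∃ t ∈ T, t ≠ 1 ∧ ∃ v : V, v ≠ 0 ∧ t • v = v := by
  rw [Nat.not_odd_iff_even, even_iff_two_dvd] at hT
  have : Fact (Nat.Prime 2) := ⟨Nat.prime_two⟩
  obtain ⟨t, ht⟩ := exists_prime_orderOf_dvd_card' (G := T) 2 hT
  have ht2 : (t : H) * t = 1 := by
    have := pow_orderOf_eq_one t
    rw [ht, pow_two] at this
    exact congrArg Subtype.val this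
  have ht1 : (t : H) ≠ 1 := by
    intro h
    have : t = 1 := Subtype.ext h
    rw [this, orderOf_one] at ht
    omega
  refine ⟨t, t.2, ht1, ?_⟩
  obtain ⟨v, hv⟩ : ∃ v : V, (t : H) • v ≠ v := by
    by_contra hcon
    push Not at hcon
    exact ht1 (hH.faith _ hcon)
  refine ⟨v + (t : H) • v, ?_, ?_⟩
  · intro h
    apply hv
    have h1 := hH.two v
    have h2 : (t : H) • v = -v := eq_neg_of_add_eq_zero_right h
    rw [h2]
    exact (eq_neg_of_add_eq_zero_left h1).symm
  · rw [smul_add, ← mul_smul, ht2, one_smul, add_comm]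

/-- minimal normal subgroups are not commutative -/
theorem Hyp.not_comm [Finite V] (hH : Hyp H V) {d : ℕ} (hcard : Nat.card V = 2 ^ d) {M : Subgroup H} (hM : M.Normal)
    (hM0 : M ≠ ⊥) (hV : Nontrivial V) : ¬ (∀ a ∈ M, ∀ b ∈ M, a * b = b * a) := by
  intro hc
  have : Fact (Nat.Prime 2) := ⟨Nat.prime_two⟩
  let _ : Module (ZMod 2) V := AddCommGroup.zmodModule (fun v => by rw [two_nsmul]; exact hH.two v)
  obtain ⟨w, hw⟩ := exists_ne (0 : V)
  let ρ : M →* Module.End (ZMod 2) V :=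
    { toFun := fun m => (DistribSMul.toAddMonoidHom V (m : H)).toZModLinearMap 2
      map_one' := by ext v; exact one_smul H v
      map_mul' := fun a b => by ext v; exact mul_smul (a : H) (b : H) v }
  have hρ : ∀ (m : M) (v : V), ρ m v = (m : H) • v := fun _ _ => rfl
  let σ : stabilizer H w →* Module.End (ZMod 2) V :=
    { toFun := fun m => (DistribSMul.toAddMonoidHom V (m : H)).toZModLinearMap 2
      map_one' := by ext v; exact one_smul H v
      map_mul' := fun a b => by ext v; exact mul_smul (a : H) (b : H) v }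
  have hσ : ∀ (m : stabilizer H w) (v : V), σ m v = (m : H) • v := fun _ _ => rfl
  have hinj : ∀ a b : H, (∀ v : V, a • v = b • v) → a = b := by
    intro a b h
    have : b⁻¹ * a = 1 := hH.faith _ (fun v => by rw [mul_smul, h, inv_smul_smul])
    exact (inv_mul_eq_one.mp this).symm
  have key := H62.IrrAbelian.main (p := 2) (d := d) (V := V) (M := M) (K := stabilizer H w)
    (fun a b => Subtype.ext (hc a a.2 b b.2)) hcard ρ
    (fun a b h => Subtype.ext (hinj _ _ fun v => by rw [← hρ, ← hρ, h]))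
    (by
      intro W hW
      rcases hH.irr M hM hM0 W.toAddSubgroup (fun k hk s hs => hW ⟨k, hk⟩ s hs) with h | h
      · left
        rw [eq_bot_iff]
        intro v hv
        have : v ∈ W.toAddSubgroup := hv
        rw [h] at this
        exact this
      · right
        rw [eq_top_iff]
        intro v _
        have : v ∈ W.toAddSubgroup := by rw [h]; trivial
        exact this) σ
    (fun a b h => Subtype.ext (hinj _ _ fun v => by rw [← hσ, ← hσ, h]))
    (by
      intro k m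
      refine ⟨⟨(k : H) * m * (k : H)⁻¹, hM.conj_mem _ m.2 _⟩, ?_⟩
      ext v
      show (k : H) • (m : H) • v = ((k : H) * m * (k : H)⁻¹) • (k : H) • v
      rw [mul_smul, inv_smul_smul, mul_smul]) w hw (fun k => k.2)
  apply hH.nsol
  have hcyc : IsCyclic (stabilizer H w) := key.2.2.1
  have hMsol : Group.IsSolvable M := by
    exact Group.isSolvable_of_comm (fun a b => Subtype.ext (hc a a.2 b b.2))
  have hQsol : Group.IsSolvable (H ⧸ M) := by
    apply Group.isSolvable_of_comm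
    intro a b
    obtain ⟨a, rfl⟩ := QuotientGroup.mk_surjective a
    obtain ⟨b, rfl⟩ := QuotientGroup.mk_surjective b
    obtain ⟨k, hk, y, hy, rfl⟩ := hH.decomp hM hM0 w a
    obtain ⟨k', hk', y', hy', rfl⟩ := hH.decomp hM hM0 w b
    have e1 : ((k * y : H) : H ⧸ M) = (y : H ⧸ M) := by
      rw [QuotientGroup.mk_mul, (QuotientGroup.eq_one_iff k).mpr hk, one_mul]
    have e2 : ((k' * y' : H) : H ⧸ M) = (y' : H ⧸ M) := by
      rw [QuotientGroup.mk_mul, (QuotientGroup.eq_one_iff k').mpr hk', one_mul]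
    rw [e1, e2, ← QuotientGroup.mk_mul, ← QuotientGroup.mk_mul]
    have h1 : (⟨y, hy⟩ : stabilizer H w) * ⟨y', hy'⟩ = ⟨y', hy'⟩ * ⟨y, hy⟩ := by
      have := hcyc.isMulCommutative
      exact mul_comm' _ _
    exact congrArg _ (congrArg Subtype.val h1)
  exact Group.isSolvable_of_ker_le_range M.subtype (QuotientGroup.mk' M)
    (by rw [QuotientGroup.ker_mk', Subgroup.range_subtype])

/-- `T` is a nontrivial subgroup normalized by `M` -/
def Inv (M T : Subgroup H) : Prop := T ≠ ⊥ ∧ T ≤ M ∧ ∀ m ∈ M, ∀ t ∈ T, m * t * m⁻¹ ∈ T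

theorem comm_of_min {M T : Subgroup H} (hT : Inv M T) (hmin : ∀ T' : Subgroup H, Inv M T' → T' ≤ T → T' = T)
    (hsol : Group.IsSolvable T) : ∀ a ∈ T, ∀ b ∈ T, a * b = b * a := by
  have hnt : Nontrivial T := (Subgroup.nontrivial_iff_ne_bot T).mpr hT.1
  have hlt := Group.IsSolvable.commutator_lt_top_of_nontrivial T
  have hle : ⁅T, T⁆ ≤ T := by
    rw [Subgroup.commutator_le]
    intro a ha b hb
    rw [commutatorElement_def]
    exact T.mul_mem (T.mul_mem (T.mul_mem ha hb) (T.inv_mem ha)) (T.inv_mem hb)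
  have hne : ⁅T, T⁆ ≠ T := by
    intro h
    apply hlt.ne
    apply Subgroup.map_injective T.subtype_injective
    rw [commutator_def, Subgroup.map_commutator, ← MonoidHom.range_eq_map, Subgroup.range_subtype, h]
  have hbot : ⁅T, T⁆ = ⊥ := by
    by_contra h
    apply hne
    apply hmin _ ⟨h, hle.trans hT.2.1, ?_⟩ hle
    intro m hm t ht
    have h1 : ⁅T, T⁆ ≤ (⁅T, T⁆).comap (MulAut.conj m).toMonoidHom := by
      rw [Subgroup.commutator_le]
      intro a ha b hb
      rw [Subgroup.mem_comap]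
      have : (MulAut.conj m).toMonoidHom ⁅a, b⁆ = ⁅m * a * m⁻¹, m * b * m⁻¹⁆ := by
        rw [map_commutatorElement]; rfl
      rw [this]
      exact Subgroup.commutator_mem_commutator (hT.2.2 m hm a ha) (hT.2.2 m hm b hb)
    exact h1 ht
  intro a ha b hb
  have h1 : ⁅a, b⁆ ∈ ⁅T, T⁆ := Subgroup.commutator_mem_commutator ha hb
  rw [hbot, Subgroup.mem_bot] at h1
  exact commutatorElement_eq_one_iff_mul_comm.mp h1

/-- conjugates -/
def cj (h : H) (T : Subgroup H) : Subgroup H := T.map (MulAut.conj h).toMonoidHom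

theorem mem_cj {h x : H} {T : Subgroup H} : x ∈ cj h T ↔ h⁻¹ * x * h ∈ T := by
  unfold cj
  rw [Subgroup.mem_map]
  constructor
  · rintro ⟨y, hy, rfl⟩
    have : h⁻¹ * ((MulAut.conj h).toMonoidHom y) * h = y := by
      show h⁻¹ * (h * y * h⁻¹) * h = y
      group
    rw [this]; exact hy
  · intro hx
    exact ⟨_, hx, by show h * (h⁻¹ * x * h) * h⁻¹ = x; group⟩

theorem mem_cj' {h y : H} {T : Subgroup H} (hy : y ∈ T) : h * y * h⁻¹ ∈ cj h T := by
  rw [mem_cj]
  have : h⁻¹ * (h * y * h⁻¹) * h = y := by group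
  rw [this]; exact hy

theorem cj_one (T : Subgroup H) : cj 1 T = T := by
  ext x; rw [mem_cj]; simp

theorem cj_mul (a b : H) (T : Subgroup H) : cj (a * b) T = cj a (cj b T) := by
  ext x
  rw [mem_cj, mem_cj, mem_cj]
  have : (a * b)⁻¹ * x * (a * b) = b⁻¹ * (a⁻¹ * x * a) * b := by group
  rw [this]

theorem inv_cj {M T : Subgroup H} (hM : M.Normal) (hT : Inv M T) (h : H) : Inv M (cj h T) := by
  refine ⟨?_, ?_, ?_⟩
  · intro h0
    apply hT.1
    rw [eq_bot_iff]
    intro x hx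
    have := mem_cj' (h := h) hx
    rw [h0, Subgroup.mem_bot, conj_eq_one_iff] at this
    exact this
  · intro x hx
    rw [mem_cj] at hx
    have := hM.conj_mem _ (hT.2.1 hx) h
    have e : h * (h⁻¹ * x * h) * h⁻¹ = x := by group
    rwa [e] at this
  · intro m hm t ht
    rw [mem_cj] at ht ⊢
    have h1 : h⁻¹ * m * h ∈ M := by
      have := hM.conj_mem _ hm h⁻¹
      simpa using this
    have h2 := hT.2.2 _ h1 _ ht
    have e : h⁻¹ * m * h * (h⁻¹ * t * h) * (h⁻¹ * m * h)⁻¹ = h⁻¹ * (m * t * m⁻¹) * h := by group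
    rwa [e] at h2

theorem min_cj {M T : Subgroup H} (hM : M.Normal) (hmin : ∀ T' : Subgroup H, Inv M T' → T' ≤ T → T' = T) (h : H) :
    ∀ T' : Subgroup H, Inv M T' → T' ≤ cj h T → T' = cj h T := by
  intro T' hT' hle
  have h1 : cj h⁻¹ T' ≤ T := by
    intro x hx
    rw [mem_cj] at hx
    have := hle hx
    rw [mem_cj] at this
    have e : h⁻¹ * (h⁻¹⁻¹ * x * h⁻¹) * h = x := by group
    rwa [e] at this
  have h2 := hmin _ (inv_cj hM hT' h⁻¹) h1
  rw [← h2, ← cj_mul, mul_inv_cancel, cj_one]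

/-- distinct minimal subgroups commute -/
theorem comm_of_ne {M T T' : Subgroup H} (hT : Inv M T) (hT' : Inv M T')
    (hmin : ∀ T'' : Subgroup H, Inv M T'' → T'' ≤ T → T'' = T)
    (hmin' : ∀ T'' : Subgroup H, Inv M T'' → T'' ≤ T' → T'' = T') (hne : T ≠ T') :
    ∀ a ∈ T, ∀ b ∈ T', a * b = b * a := by
  have hbot : T ⊓ T' = ⊥ := by
    by_contra h
    have h1 : Inv M (T ⊓ T') := ⟨h, inf_le_left.trans hT.2.1, fun m hm t ht =>
      ⟨hT.2.2 m hm t ht.1, hT'.2.2 m hm t ht.2⟩⟩
    apply hne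
    rw [← hmin _ h1 inf_le_left]
    exact hmin' _ h1 inf_le_right
  intro a ha b hb
  have h1 : a * b * a⁻¹ * b⁻¹ ∈ T ⊓ T' := by
    refine ⟨?_, ?_⟩
    · have := hT.2.2 b (hT'.2.1 hb) a⁻¹ (T.inv_mem ha)
      have e : a * b * a⁻¹ * b⁻¹ = a * (b * a⁻¹ * b⁻¹) := by group
      rw [e]; exact T.mul_mem ha this
    · exact T'.mul_mem (hT'.2.2 a (hT.2.1 ha) b hb) (T'.inv_mem hb)
  rw [hbot, Subgroup.mem_bot, mul_inv_eq_one, mul_inv_eq_iff_eq_mul] at h1
  exact h1

end H62.EPMain
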