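import Cfsg.Agent.Lib.H62.EPMain

set_option autoImplicit false
set_option linter.unusedSectionVars false

/-! Linear groups in characteristic two all of whose vector stabilizers are maximal: the socle is simple. -/

namespace H62.EPMain

open Subgroup MulAction H62.EPAlg
open scoped commutatorElement

universe u v

variable {H : Type u} [Group H] [Finite H] {V : Type v} [AddCommGroup V] [DistribMulAction H V]

/-- the conjugates of `T` under the stabilizer of a vector -/
theorem Hyp.cj_eq (hH : Hyp H V) {M T : Subgroup H} (hM : M.Normal) (hM0 : M ≠ ⊥) (hT : Inv M T) (w : V) (h : H) :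
    ∃ y : H, y • w = w ∧ cj h T = cj y T := by
  obtain ⟨m, hm, y, hy, rfl⟩ := hH.decomp hM hM0 w h
  refine ⟨y, hy, ?_⟩
  rw [cj_mul]
  have h1 := inv_cj hM hT y
  apply le_antisymm
  · intro x hx
    rw [mem_cj] at hx
    have := h1.2.2 m hm _ hx
    have e : m * (m⁻¹ * x * m) * m⁻¹ = x := by group
    rwa [e] at this
  · intro x hx
    rw [mem_cj]
    have := h1.2.2 m⁻¹ (M.inv_mem hm) x hx
    rwa [inv_inv] at this

/-- stabilizers in `T` are self-normalizing -/
theorem Hyp.self_norm (hH : Hyp H V) {M T : Subgroup H} (hM : M.Normal) (hM0 : M ≠ ⊥) (hT : Inv M T)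
    (hmin : ∀ T' : Subgroup H, Inv M T' → T' ≤ T → T' = T) {w : V} (hw : w ≠ 0) (hne : ∃ y ∈ T, y ≠ 1 ∧ y • w = w)
    {x : H} (hxT : x ∈ T) (hx : ∀ y ∈ T, y • w = w → (x * y * x⁻¹) • w = w) : x • w = w := by
  by_contra hxw
  let D : Subgroup H := ⨆ h : H, (cj h T ⊓ stabilizer H w)
  have hDw : D ≤ stabilizer H w := iSup_le fun h => inf_le_right
  have hD1 : T ⊓ stabilizer H w ≤ D := by
    have : cj 1 T ⊓ stabilizer H w ≤ D := le_iSup (fun h : H => cj h T ⊓ stabilizer H w) 1
    rwa [cj_one] at this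
  have hD0 : D ≠ ⊥ := by
    intro h
    obtain ⟨y, hy, hy1, hyw⟩ := hne
    have : y ∈ D := hD1 ⟨hy, hyw⟩
    rw [h, Subgroup.mem_bot] at this
    exact hy1 this
  -- the normalizer
  have key : ∀ g : H, (∀ h : H, ∀ y ∈ cj h T ⊓ stabilizer H w, g * y * g⁻¹ ∈ D) → ∀ y ∈ D, g * y * g⁻¹ ∈ D := by
    intro g hg y hy
    have h1 : D ≤ D.comap (MulAut.conj g).toMonoidHom := iSup_le fun h y hy => hg h y hy
    exact h1 hy
  have hNw : ∀ g : H, g • w = w → ∀ y ∈ D, g * y * g⁻¹ ∈ D := by
    intro g hgw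
    apply key
    intro h y hy
    have h2 : g * y * g⁻¹ ∈ cj (g * h) T ⊓ stabilizer H w := by
      refine ⟨?_, ?_⟩
      · rw [cj_mul]; exact mem_cj' hy.1
      · show (g * y * g⁻¹) • w = w
        rw [mul_smul, mul_smul]
        have h3 : g⁻¹ • w = w := by rw [inv_smul_eq_iff, hgw]
        have h4 : y • w = w := hy.2
        rw [h3, h4, hgw]
    exact (le_iSup (fun h : H => cj h T ⊓ stabilizer H w) (g * h)) h2
  have hNx : ∀ y ∈ D, x * y * x⁻¹ ∈ D := by
    apply key
    intro h y hy
    by_cases hh : cj h T = T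
    · apply hD1
      rw [hh] at hy
      exact ⟨T.mul_mem (T.mul_mem hxT hy.1) (T.inv_mem hxT), hx y hy.1 hy.2⟩
    · have h1 := comm_of_ne hT (inv_cj hM hT h) hmin (min_cj hM hmin h) (Ne.symm hh) x hxT y hy.1
      rw [h1, mul_inv_cancel_right]
      exact (le_iSup (fun h : H => cj h T ⊓ stabilizer H w) h) hy
  -- the normalizer as a subgroup
  let N : Subgroup H := Subgroup.normalizer (D : Set H)
  have hfin : ∀ g : H, (∀ y ∈ D, g * y * g⁻¹ ∈ D) → g ∈ N := by
    intro g hg
    have hDfin : Finite D := inferInstance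
    have hinj : Function.Injective (fun y : D => (⟨g * y * g⁻¹, hg y y.2⟩ : D)) := by
      intro a b hab
      have := congrArg Subtype.val hab
      exact Subtype.ext (by simpa using this)
    have hsurj := Finite.surjective_of_injective hinj
    rw [Subgroup.mem_normalizer_iff]
    intro y
    constructor
    · exact hg y
    · intro hy
      obtain ⟨z, hz⟩ := hsurj ⟨_, hy⟩
      have h5 : g * (z : H) * g⁻¹ = g * y * g⁻¹ := congrArg Subtype.val hz
      have h6 : (z : H) = y := by simpa using h5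
      rw [← h6]; exact z.2
  have hle : stabilizer H w ≤ N := fun g hg => hfin g (hNw g hg)
  have hlt : stabilizer H w < N := by
    refine lt_of_le_of_ne hle ?_
    intro h
    have : x ∈ N := hfin x hNx
    rw [← h] at this
    exact hxw this
  have htop : N = ⊤ := (hH.max w hw).2 N hlt
  have hDn : D.Normal := Subgroup.normalizer_eq_top_iff.mp htop
  apply hD0
  apply hH.eq_bot_of_fix hDn hD0 (K := D) ?_ hw (fun y hy => hDw hy)
  intro k hk y hy
  exact D.mul_mem (D.mul_mem (D.inv_mem hk) hy) hk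

/-- the main step -/
theorem Hyp.ti [Finite V] (hH : Hyp H V) {M T : Subgroup H} (hM : M.Normal) (hM0 : M ≠ ⊥) (hT : Inv M T)
    (hmin : ∀ T' : Subgroup H, Inv M T' → T' ≤ T → T' = T)
    (hgen : M ≤ T ⊔ (M ⊓ centralizer (T : Set H))) {h₀ : H} (hh₀ : cj h₀ T ≠ T) {w : V} (hw : w ≠ 0)
    (hne : ∃ y ∈ T, y ≠ 1 ∧ y • w = w)
    (hminw : ∀ w' : V, w' ≠ 0 → (∃ y ∈ T, y ≠ 1 ∧ y • w' = w') → (∀ y ∈ T, y • w' = w' → y • w = w) →
      ∀ y ∈ T, y • w = w → y • w' = w')
    {t : H} (ht : t ∈ T) (htw : t • w ≠ w) {x : H} (hx : x ∈ T) (hxw : x • w = w) (hxt : x • t • w = t • w) :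
    x = 1 := by
  by_contra hx1
  set C := M ⊓ centralizer (T : Set H) with hC
  have hcomm : ∀ c ∈ C, ∀ t ∈ T, c * t = t * c := fun c hc t ht =>
    ((Subgroup.mem_centralizer_iff.mp hc.2) t ht).symm
  have hirr : ∀ S : AddSubgroup V, (∀ t ∈ T, ∀ s ∈ S, t • s ∈ S) → (∀ c ∈ C, ∀ s ∈ S, c • s ∈ S) → S = ⊥ ∨ S = ⊤ := by
    intro S h1 h2
    apply hH.irr M hM hM0
    intro k hk s hs
    have h3 := hgen hk
    let P : Subgroup H :=
      { carrier := {g | (∀ s ∈ S, g • s ∈ S) ∧ ∀ s ∈ S, g⁻¹ • s ∈ S}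
        one_mem' := ⟨fun s hs => by rwa [one_smul], fun s hs => by rwa [inv_one, one_smul]⟩
        mul_mem' := fun {a b} ha hb => ⟨fun s hs => by rw [mul_smul]; exact ha.1 _ (hb.1 s hs),
          fun s hs => by rw [mul_inv_rev, mul_smul]; exact hb.2 _ (ha.2 s hs)⟩
        inv_mem' := fun {a} ha => ⟨ha.2, by rw [inv_inv]; exact ha.1⟩ }
    have h4 : T ⊔ C ≤ P := sup_le
      (fun g hg => ⟨h1 g hg, h1 _ (T.inv_mem hg)⟩) (fun g hg => ⟨h2 g hg, h2 _ (C.inv_mem hg)⟩)
    exact (h4 h3).1 s hs
  have hss : IsSemisimpleModule (A V T) V := semisimple T C hcomm hirr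
  let S : Submodule (A V T) V := Submodule.span (A V T) {w}
  have hwS : w ∈ S := Submodule.mem_span_singleton_self w
  -- `S` is proper
  have hStop : S ≠ ⊤ := by
    intro hS
    obtain ⟨y, hyw, hy⟩ := hH.cj_eq hM hM0 hT w h₀
    obtain ⟨q, hqT, hq1, hqw⟩ := hne
    have h1 : y * q * y⁻¹ ∈ cj h₀ T := by rw [hy]; exact mem_cj' hqT
    have h2 : ∀ t ∈ T, (y * q * y⁻¹) * t = t * (y * q * y⁻¹) := fun t ht =>
      (comm_of_ne hT (inv_cj hM hT h₀) hmin (min_cj hM hmin h₀) (Ne.symm hh₀) t ht _ h1).symm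
    have h3 : (y * q * y⁻¹) • w = w := by
      rw [mul_smul, mul_smul]
      have : y⁻¹ • w = w := by rw [inv_smul_eq_iff, hyw]
      rw [this, hqw, hyw]
    have h4 : y * q * y⁻¹ = 1 := by
      apply hH.faith
      intro v
      have h5 : v ∈ S := by rw [hS]; trivial
      have h6 : cl T (y * q * y⁻¹) h2 v = v := by
        have h7 : S ≤ LinearMap.eqLocus (cl (V := V) T (y * q * y⁻¹) h2) LinearMap.id := by
          rw [Submodule.span_le]
          rintro _ rfl
          exact h3
        exact h7 h5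
      exact h6
    rw [conj_eq_one_iff] at h4
    exact hq1 h4
  obtain ⟨S', hSS'⟩ := exists_isCompl S
  have hS'0 : S' ≠ ⊥ := by
    rintro rfl
    apply hStop
    have := hSS'.sup_eq_top
    rwa [sup_bot_eq] at this
  let p1 : V →ₗ[A V T] S := Submodule.projectionOnto S S' hSS'
  let p2 : V →ₗ[A V T] S' := Submodule.projectionOnto S' S hSS'.symm
  have hp1w : p1 w = ⟨w, hwS⟩ := Submodule.projectionOnto_apply_left hSS' ⟨w, hwS⟩
  have hp1S' : ∀ s : S', p1 s = 0 := fun s => Submodule.projectionOnto_apply_right hSS' s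
  have hp2w : p2 w = 0 := Submodule.projectionOnto_apply_right hSS'.symm ⟨w, hwS⟩
  have hp2S' : ∀ s : S', p2 s = s := fun s => Submodule.projectionOnto_apply_left hSS'.symm s
  have hTlin1 : ∀ y (hy : y ∈ T) (v : V), p1 (y • v) = (el ⟨y, hy⟩ : A V T) • p1 v := fun y hy v =>
    p1.map_smul (el ⟨y, hy⟩ : A V T) v
  have hTlin2 : ∀ y (hy : y ∈ T) (v : V), p2 (y • v) = (el ⟨y, hy⟩ : A V T) • p2 v := fun y hy v =>
    p2.map_smul (el ⟨y, hy⟩ : A V T) v
  set u : V := t • w with hu
  -- all elements of `Q` fix the second components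
  have hfix : ∀ c ∈ C, ∀ q ∈ T, q • w = w → p2 (c • (q • u - u)) = 0 := by
    intro c hc q hq hqw
    set w' : V := w + (p2 (c • u) : V) with hw'
    have hp1w' : p1 w' = ⟨w, hwS⟩ := by rw [hw', map_add, hp1w, hp1S', add_zero]
    have hp2w' : p2 w' = p2 (c • u) := by rw [hw', map_add, hp2w, hp2S', zero_add]
    have hw'0 : w' ≠ 0 := by
      intro h
      rw [h, map_zero] at hp1w'
      exact hw (congrArg Subtype.val hp1w').symm
    have hsub : ∀ y ∈ T, y • w' = w' → y • w = w := by
      intro y hy hyw'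
      have h1 := congrArg p1 hyw'
      rw [hTlin1 y hy, hp1w'] at h1
      exact congrArg Subtype.val h1
    have hcu : x • (p2 (c • u) : V) = p2 (c • u) := by
      have h1 : x • c • u = c • u := by
        rw [← mul_smul, ← hcomm c hc x hx, mul_smul, hxt]
      have h2 := congrArg p2 h1
      rw [hTlin2 x hx] at h2
      exact congrArg Subtype.val h2
    have hxw' : x • w' = w' := by rw [hw', smul_add, hxw, hcu]
    have hqw' := hminw w' hw'0 ⟨x, hx, hx1, hxw'⟩ hsub q hq hqw
    have h3 := congrArg p2 hqw'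
    rw [hTlin2 q hq, hp2w', ← hTlin2 q hq] at h3
    rw [smul_sub, map_sub, ← mul_smul, hcomm c hc q hq, mul_smul, h3, sub_self]
  -- hence `Q` fixes `u`
  have hQu : ∀ q ∈ T, q • w = w → q • u = u := by
    intro q hq hqw
    by_contra hqu
    let D : Submodule (A V T) V := Submodule.span (A V T) {q • u - u}
    have hD : D ≠ ⊥ := by
      intro h
      rw [Submodule.span_singleton_eq_bot] at h
      exact hqu (sub_eq_zero.mp h)
    have h1 := iSup_eq_top T C hcomm hirr D hD
    have h2 : (⨆ c : C, D.map (cl T c (hcomm c c.2))) ≤ LinearMap.ker p2 := by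
      apply iSup_le
      intro c
      rw [Submodule.map_le_iff_le_comap, Submodule.span_le]
      rintro _ rfl
      exact hfix c c.2 q hq hqw
    rw [h1] at h2
    apply hS'0
    rw [eq_bot_iff]
    intro s hs
    have h3 : p2 s = 0 := h2 trivial
    rw [hp2S' ⟨s, hs⟩] at h3
    exact congrArg Subtype.val h3
  -- so `t` normalizes `Q`
  apply htw
  have h5 : t⁻¹ • w = w := by
    apply hH.self_norm hM hM0 hT hmin hw hne (T.inv_mem ht)
    intro y hy hyw
    have := hQu y hy hyw
    rw [inv_inv, mul_smul, mul_smul, inv_smul_eq_iff]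
    exact this
  rw [inv_smul_eq_iff] at h5
  exact h5.symm

theorem exists_min_normal (h : Nontrivial H) : ∃ M : Subgroup H, M.Normal ∧ M ≠ ⊥ ∧
    ∀ N : Subgroup H, N.Normal → N ≠ ⊥ → N ≤ M → N = M := by
  have hfin : {N : Subgroup H | N.Normal ∧ N ≠ ⊥}.Finite := Set.toFinite _
  obtain ⟨M, hM⟩ := hfin.exists_minimal ⟨⊤, inferInstance, top_ne_bot⟩
  exact ⟨M, hM.1.1, hM.1.2, fun N hN hN0 hle => le_antisymm hle (hM.2 ⟨hN, hN0⟩ hle)⟩

theorem exists_min_inv {M : Subgroup H} (hM0 : M ≠ ⊥) : ∃ T : Subgroup H, Inv M T ∧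
    ∀ T' : Subgroup H, Inv M T' → T' ≤ T → T' = T := by
  have hfin : {N : Subgroup H | Inv M N}.Finite := Set.toFinite _
  obtain ⟨T, hT⟩ := hfin.exists_minimal ⟨M, hM0, le_rfl, fun m hm t ht => M.mul_mem (M.mul_mem hm ht) (M.inv_mem hm)⟩
  exact ⟨T, hT.1, fun N hN hle => le_antisymm hle (hT.2 hN hle)⟩

theorem main [Finite V] (hH : Hyp H V) {d : ℕ} (hcard : Nat.card V = 2 ^ d) (hV : Nontrivial V) :
    ∃ T : Subgroup H, T.Normal ∧ IsSimpleGroup T ∧ ¬ IsMulCommutative T ∧ centralizer (T : Set H) = ⊥ := by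
  classical
  have hnt : Nontrivial H := by
    by_contra h
    rw [not_nontrivial_iff_subsingleton] at h
    exact hH.nsol (Group.isSolvable_of_comm (fun a b => Subsingleton.elim _ _))
  obtain ⟨M, hM, hM0, hMmin⟩ := exists_min_normal hnt
  obtain ⟨T, hT, hTmin⟩ := exists_min_inv hM0
  have hMnc := hH.not_comm hcard hM hM0 hV
  -- the conjugates of `T` generate `M`
  have hgenM : M ≤ ⨆ h : H, cj h T := by
    have hn : (⨆ h : H, cj h T).Normal := by
      constructor
      intro n hn g
      have h1 : (⨆ h : H, cj h T) ≤ (⨆ h : H, cj h T).comap (MulAut.conj g).toMonoidHom := by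
        apply iSup_le
        intro h y hy
        have h2 : g * y * g⁻¹ ∈ cj (g * h) T := by rw [cj_mul]; exact mem_cj' hy
        exact (le_iSup (fun h : H => cj h T) (g * h)) h2
      exact h1 hn
    have h0 : (⨆ h : H, cj h T) ≠ ⊥ := by
      intro h
      apply hT.1
      rw [eq_bot_iff, ← h]
      have : cj 1 T ≤ ⨆ h : H, cj h T := le_iSup (fun h : H => cj h T) 1
      rwa [cj_one] at this
    exact (hMmin _ hn h0 (iSup_le fun h => (inv_cj hM hT h).2.1)).ge
  -- `T` is not commutative
  have hTnc : ¬ (∀ a ∈ T, ∀ b ∈ T, a * b = b * a) := by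
    intro hc
    apply hMnc
    have hall : ∀ h h' : H, ∀ a ∈ cj h T, ∀ b ∈ cj h' T, a * b = b * a := by
      intro h h' a ha b hb
      by_cases he : cj h T = cj h' T
      · rw [← he] at hb
        rw [mem_cj] at ha hb
        have h1 := hc _ ha _ hb
        have e1 : h⁻¹ * a * h * (h⁻¹ * b * h) = h⁻¹ * (a * b) * h := by group
        have e2 : h⁻¹ * b * h * (h⁻¹ * a * h) = h⁻¹ * (b * a) * h := by group
        rw [e1, e2] at h1
        simpa using h1
      · exact comm_of_ne (inv_cj hM hT h) (inv_cj hM hT h') (min_cj hM hTmin h) (min_cj hM hTmin h') he a ha b hb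
    have h1 : ∀ h : H, (⨆ h' : H, cj h' T) ≤ centralizer (cj h T : Set H) := fun h => iSup_le fun h' b hb => by
      rw [Subgroup.mem_centralizer_iff]
      intro a ha
      exact hall h h' a ha b hb
    have h2 : (⨆ h : H, cj h T) ≤ centralizer ((⨆ h' : H, cj h' T : Subgroup H) : Set H) := by
      apply iSup_le
      intro h a ha
      rw [Subgroup.mem_centralizer_iff]
      intro b hb
      exact ((Subgroup.mem_centralizer_iff.mp (h1 h hb)) a ha).symm
    intro a ha b hb
    exact ((Subgroup.mem_centralizer_iff.mp (h2 (hgenM ha))) b (hgenM hb)).symm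
  have hTodd : ¬ Odd (Nat.card T) := fun h => hTnc (comm_of_min hT hTmin (hH.odd T h))
  -- the centralizer is trivial
  have hcent : centralizer (M : Set H) = ⊥ := by
    by_contra hne
    obtain ⟨t, ht, ht1, v, hv, htv⟩ := exists_fixed hH hTodd
    apply ht1
    have hn : (centralizer (M : Set H)).Normal := inferInstance
    exact hH.eq_one_of_fix hn hne (fun k hk => (Subgroup.mem_centralizer_iff.mp hk) t (hT.2.1 ht)) hv htv
  by_cases hTn : ∀ h : H, cj h T = T
  · -- `T = M` is normal
    have hTnor : T.Normal := by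
      constructor
      intro n hn g
      have := mem_cj' (h := g) hn
      rwa [hTn] at this
    have hTM : T = M := hMmin T hTnor hT.1 hT.2.1
    refine ⟨M, hM, ?_, ?_, hcent⟩
    · have hMnt : Nontrivial M := (Subgroup.nontrivial_iff_ne_bot M).mpr hM0
      refine { exists_pair_ne := hMnt.exists_pair_ne, eq_bot_or_eq_top_of_normal := ?_ }
      intro N hN
      by_cases hN0 : N = ⊥
      · exact Or.inl hN0
      · right
        have h1 : Inv M (N.map M.subtype) := by
          refine ⟨?_, Subgroup.map_subtype_le N, ?_⟩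
          · intro h
            apply hN0
            exact (Subgroup.map_eq_bot_iff_of_injective N M.subtype_injective).mp h
          · rintro m hm _ ⟨n, hn, rfl⟩
            exact ⟨⟨m, hm⟩ * n * ⟨m, hm⟩⁻¹, hN.conj_mem n hn _, rfl⟩
        have h2 := hTmin _ h1 (by rw [hTM]; exact Subgroup.map_subtype_le N)
        rw [hTM] at h2
        apply Subgroup.map_injective M.subtype_injective
        rw [h2, ← MonoidHom.range_eq_map, Subgroup.range_subtype]
    · intro h
      apply hMnc
      intro a ha b hb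
      exact congrArg Subtype.val (mul_comm' (⟨a, ha⟩ : M) ⟨b, hb⟩)
  · exfalso
    push Not at hTn
    obtain ⟨h₀, hh₀⟩ := hTn
    have hgen : M ≤ T ⊔ (M ⊓ centralizer (T : Set H)) := by
      refine hgenM.trans (iSup_le fun h => ?_)
      by_cases he : cj h T = T
      · rw [he]; exact le_sup_left
      · refine le_trans ?_ le_sup_right
        intro a ha
        refine ⟨(inv_cj hM hT h).2.1 ha, ?_⟩
        show a ∈ centralizer (T : Set H)
        rw [Subgroup.mem_centralizer_iff]
        intro b hb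
        exact comm_of_ne hT (inv_cj hM hT h) hTmin (min_cj hM hTmin h) (Ne.symm he) b hb a ha
    -- choose `w`
    obtain ⟨t, ht, ht1, v, hv, htv⟩ := exists_fixed hH hTodd
    let F : V → ℕ := fun w => Nat.card (T ⊓ stabilizer H w : Subgroup H)
    have hWfin : {w : V | w ≠ 0 ∧ ∃ y ∈ T, y ≠ 1 ∧ y • w = w}.Finite := Set.toFinite _
    obtain ⟨w, ⟨hw0, hwne⟩, hwmin⟩ := Set.exists_min_image _ F hWfin ⟨v, hv, t, ht, ht1, htv⟩
    have hminw : ∀ w' : V, w' ≠ 0 → (∃ y ∈ T, y ≠ 1 ∧ y • w' = w') → (∀ y ∈ T, y • w' = w' → y • w = w) →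
        ∀ y ∈ T, y • w = w → y • w' = w' := by
      intro w' h1 h2 h3 y hy hyw
      have h4 : (T ⊓ stabilizer H w' : Subgroup H) ≤ T ⊓ stabilizer H w := fun z hz => ⟨hz.1, h3 z hz.1 hz.2⟩
      have h5 : F w ≤ F w' := hwmin w' ⟨h1, h2⟩
      have h6 := Subgroup.eq_of_le_of_card_ge h4 h5
      have h7 : y ∈ (T ⊓ stabilizer H w : Subgroup H) := ⟨hy, hyw⟩
      rw [← h6] at h7
      exact h7.2
    have hTI : ∀ t ∈ T, t • w ≠ w → ∀ x ∈ T, x • w = w → x • t • w = t • w → x = 1 := fun t ht htw x hx hxw hxt =>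
      hH.ti hM hM0 hT hTmin hgen hh₀ hw0 hwne hminw ht htw hx hxw hxt
    -- Frobenius complement
    let Q : Subgroup T := (stabilizer H w).subgroupOf T
    have hQ0 : Q ≠ ⊥ := by
      obtain ⟨y, hy, hy1, hyw⟩ := hwne
      intro h
      have : (⟨y, hy⟩ : T) ∈ Q := hyw
      rw [h, Subgroup.mem_bot] at this
      exact hy1 (congrArg Subtype.val this)
    have hQ1 : Q ≠ ⊤ := by
      intro h
      apply hT.1
      have h1 : ∀ x ∈ T, x • w = w := by
        intro x hx
        have : (⟨x, hx⟩ : T) ∈ Q := by rw [h]; trivial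
        exact this
      apply hH.eq_bot_of_fix hM hM0 ?_ hw0 h1
      intro k hk x hx
      have := hT.2.2 k⁻¹ (M.inv_mem hk) x hx
      rwa [inv_inv] at this
    have hfrob : Cfsg.IsFrobeniusComplement Q := by
      refine ⟨hQ0, hQ1, ?_⟩
      intro g hg
      rw [eq_bot_iff]
      rintro x ⟨hx, hx'⟩
      rw [Subgroup.mem_bot]
      apply Subtype.ext
      have hxw : (x : H) • w = w := hx
      obtain ⟨y, hy, hyx⟩ := hx'
      have hyw : (y : H) • w = w := hy
      have hx2 : (x : H) = g * y * (g : H)⁻¹ := by rw [← hyx]; rfl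
      apply hTI g g.2 hg x x.2 hxw
      rw [hx2, mul_smul, mul_smul, inv_smul_smul, hyw]
    obtain ⟨K, -, hKn, hKc⟩ := Cfsg.Agent.S0035.result Q hfrob
    -- `K` is invariant
    by_cases hK0 : K = ⊥
    · rw [hK0] at hKc
      exact hQ1 (Subgroup.isComplement'_bot_left.mp hKc)
    · have hKi : Inv M (K.map T.subtype) := by
        refine ⟨?_, (Subgroup.map_subtype_le K).trans hT.2.1, ?_⟩
        · intro h
          exact hK0 ((Subgroup.map_eq_bot_iff_of_injective K T.subtype_injective).mp h)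
        · -- the normalizer contains `T` and the centralizer
          have h1 : M ≤ Subgroup.normalizer ((K.map T.subtype : Subgroup H) : Set H) := by
            refine hgen.trans (sup_le ?_ ?_)
            · intro t ht
              rw [Subgroup.mem_normalizer_iff]
              intro x
              constructor
              · rintro ⟨k, hk, rfl⟩
                exact ⟨⟨t, ht⟩ * k * ⟨t, ht⟩⁻¹, hKn.conj_mem k hk _, rfl⟩
              · rintro ⟨k, hk, hkx⟩
                refine ⟨⟨t, ht⟩⁻¹ * k * ⟨t, ht⟩⁻¹⁻¹, hKn.conj_mem k hk _, ?_⟩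
                show t⁻¹ * (k : H) * t⁻¹⁻¹ = x
                have : (k : H) = t * x * t⁻¹ := hkx
                rw [this]; group
            · intro c hc
              rw [Subgroup.mem_normalizer_iff]
              intro x
              have hcx : ∀ k : T, c * k * c⁻¹ = k := by
                intro k
                rw [← (Subgroup.mem_centralizer_iff.mp hc.2) k k.2, mul_inv_cancel_right]
              constructor
              · rintro ⟨k, hk, rfl⟩
                exact ⟨k, hk, (hcx k).symm⟩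
              · rintro ⟨k, hk, hkx⟩
                refine ⟨k, hk, ?_⟩
                have h2 : (k : H) = c * x * c⁻¹ := hkx
                have h3 := hcx k
                have h4 : c * (k : H) * c⁻¹ = c * x * c⁻¹ := h3.trans h2
                exact mul_left_cancel (mul_right_cancel h4)
          intro m hm x hx
          exact ((Subgroup.mem_normalizer_iff.mp (h1 hm)) x).mp hx
      have hKT := hTmin _ hKi (Subgroup.map_subtype_le K)
      have hKtop : K = ⊤ := by
        apply Subgroup.map_injective T.subtype_injective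
        rw [hKT, ← MonoidHom.range_eq_map, Subgroup.range_subtype]
      rw [hKtop] at hKc
      exact hQ0 (Subgroup.isComplement'_top_left.mp hKc)

end H62.EPMain
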