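import Mathlib

set_option autoImplicit false

/-! A finite nonabelian simple group has no partition-like structure with self-normalizing
centralizers. -/

namespace H62.PartSimple

open Subgroup

variable {T : Type*} [Group T] [Finite T]

theorem not_isPGroup [IsSimpleGroup T] (hc : ¬ ∀ a b : T, a * b = b * a) (p : ℕ) [Fact p.Prime] :
    ¬ IsPGroup p T := by
  intro h
  have h1 : Subgroup.center T ≠ ⊥ := h.bot_lt_center.ne'
  have h2 : Subgroup.center T = ⊤ :=
    (IsSimpleGroup.eq_bot_or_eq_top_of_normal (Subgroup.center T) inferInstance).resolve_left h1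
  apply hc
  intro a b
  have : b ∈ Subgroup.center T := by rw [h2]; trivial
  exact Subgroup.mem_center_iff.mp this a

/-- Burnside's transfer theorem for a simple group. -/
theorem burnside [IsSimpleGroup T] (hc : ¬ ∀ a b : T, a * b = b * a) (p : ℕ) [Fact p.Prime]
    (P : Sylow p T) (hP : (P : Subgroup T) ≠ ⊥)
    (hN : ∀ x : T, (∀ y ∈ P, x * y * x⁻¹ ∈ P) → ∀ y ∈ P, x * y = y * x) : False := by
  have hle : normalizer (P : Set T) ≤ centralizer (P : Set T) := by
    intro x hx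
    rw [Subgroup.mem_centralizer_iff]
    intro y hy
    exact (hN x (fun z hz => (Subgroup.mem_normalizer_iff.mp hx z).mp hz) y hy).symm
  have hcomp := MonoidHom.ker_transferSylow_isComplement' P hle
  rcases IsSimpleGroup.eq_bot_or_eq_top_of_normal (MonoidHom.transferSylow P hle).ker inferInstance with h | h
  · rw [h] at hcomp
    have h1 : (P : Subgroup T) = ⊤ := Subgroup.isComplement'_bot_left.mp hcomp
    apply not_isPGroup hc p
    intro x
    have hx : x ∈ (P : Subgroup T) := by rw [h1]; trivial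
    obtain ⟨k, hk⟩ := P.isPGroup' ⟨x, hx⟩
    exact ⟨k, congrArg Subtype.val hk⟩
  · rw [h] at hcomp
    exact hP (Subgroup.isComplement'_top_left.mp hcomp)

/-- A self-normalizing `p`-subgroup is a Sylow subgroup. -/
theorem exists_sylow_eq (p : ℕ) [Fact p.Prime] (Q : Subgroup T) (hQ : IsPGroup p Q)
    (hN : ∀ x : T, (∀ y ∈ Q, x * y * x⁻¹ ∈ Q) → x ∈ Q) : ∃ P : Sylow p T, (P : Subgroup T) = Q := by
  obtain ⟨P, hP⟩ := hQ.exists_le_sylow
  refine ⟨P, le_antisymm ?_ hP⟩
  by_contra hcon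
  have hne : Q.subgroupOf P ≠ ⊤ := by
    intro h
    rw [Subgroup.subgroupOf_eq_top] at h
    exact hcon h
  have hnil : Group.IsNilpotent P := P.isPGroup'.isNilpotent
  have hnc : NormalizerCondition P := Group.normalizerCondition_of_isNilpotent
  have hlt := hnc _ (lt_top_iff_ne_top.mpr hne)
  obtain ⟨x, hx1, hx2⟩ := SetLike.exists_of_lt hlt
  apply hx2
  rw [Subgroup.mem_subgroupOf]
  apply hN
  intro y hy
  have hy' : (⟨y, hP hy⟩ : P) ∈ Q.subgroupOf P := hy
  have := (Subgroup.mem_normalizer_iff.mp hx1 _).mp hy'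
  exact this

theorem pow_orderOf_coprime {G : Type*} [Group G] {z y : G} (hc : Commute z y)
    (hcop : (orderOf z).Coprime (orderOf y)) : ∃ m : ℕ, (z * y) ^ m = z := by
  obtain ⟨m, hm⟩ := exists_pow_eq_self_of_coprime hcop.symm
  refine ⟨orderOf y * m, ?_⟩
  rw [hc.mul_pow, pow_mul y, pow_orderOf_eq_one, one_pow, mul_one, pow_mul]
  exact hm

theorem exists_prime_order_pow {G : Type*} [Group G] [Finite G] {w : G} (p : ℕ)
    (hd : p ∣ orderOf w) : ∃ i : ℕ, orderOf (w ^ i) = p := by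
  obtain ⟨k, hk⟩ := hd
  have hk0 : k ≠ 0 := by
    rintro rfl
    rw [mul_zero] at hk
    exact (orderOf_pos w).ne' hk
  refine ⟨k, ?_⟩
  rw [orderOf_pow_of_dvd hk0 ⟨p, by rw [hk, mul_comm]⟩, hk, Nat.mul_div_cancel _ (Nat.pos_of_ne_zero hk0)]

/-- the abstract structure -/
structure Part (S : Type*) (κ : T → S) : Prop where
  pow : ∀ (t : T) (i : ℕ), t ^ i ≠ 1 → κ (t ^ i) = κ t
  cent : ∀ a b : T, a ≠ 1 → b ≠ 1 → κ a = κ b → ∀ x, x * a = a * x → x * b = b * x
  conj : ∀ t x : T, t ≠ 1 → κ (x * t * x⁻¹) = κ t → x * t = t * x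
  self : ∀ t x : T, t ≠ 1 → (∀ y, y * t = t * y → (x * y * x⁻¹) * t = t * (x * y * x⁻¹)) → x * t = t * x

variable {S : Type*} {κ : T → S}

theorem Part.coprime (h : Part S κ) {z y : T} (hz : z ≠ 1) (hy : y ≠ 1) (hc : z * y = y * z)
    (hcop : (orderOf z).Coprime (orderOf y)) : κ y = κ z := by
  obtain ⟨m, hm⟩ := pow_orderOf_coprime hc hcop
  obtain ⟨k, hk⟩ := pow_orderOf_coprime hc.symm hcop.symm
  have h1 := h.pow (z * y) m (by rw [hm]; exact hz)
  have h2 := h.pow (y * z) k (by rw [hk]; exact hy)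
  rw [hm] at h1
  rw [hk] at h2
  rw [h1, h2, hc]

/-- If the centralizer of a `p`-element is not a `p`-group it is abelian. -/
theorem Part.step1 (h : Part S κ) {p : ℕ} [hp : Fact p.Prime] {z : T} (hz : z ≠ 1)
    (hzp : ∃ k, orderOf z = p ^ k) (hn : ¬ IsPGroup p (centralizer {z})) (w : T) (hw : w ≠ 1)
    (hwz : w * z = z * w) : κ w = κ z := by
  obtain ⟨k, hk⟩ := hzp
  -- an element of prime order r ≠ p
  obtain ⟨y, hyc, r, hr, hrp, hyr⟩ : ∃ y : T, y * z = z * y ∧ ∃ r : ℕ, r.Prime ∧ r ≠ p ∧ orderOf y = r := by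
    by_contra hcon
    push Not at hcon
    apply hn
    rw [IsPGroup.iff_card]
    have h0 : Nat.card (centralizer {z}) ≠ 0 := Nat.card_pos.ne'
    refine ⟨_, Nat.eq_prime_pow_of_unique_prime_dvd h0 ?_⟩
    intro q hq hqd
    by_contra hqp
    have : Fact q.Prime := ⟨hq⟩
    obtain ⟨s, hs⟩ := exists_prime_orderOf_dvd_card' q hqd
    exact hcon s (Subgroup.mem_centralizer_singleton_iff.mp s.2) q hq hqp (by rw [Subgroup.orderOf_coe, hs])
  have hy1 : y ≠ 1 := by
    rintro rfl
    rw [orderOf_one] at hyr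
    exact hr.one_lt.ne hyr
  have hpr : (orderOf z).Coprime (orderOf y) := by
    rw [hk, hyr]
    exact Nat.Coprime.pow_left k ((Nat.coprime_primes hp.out hr).mpr hrp.symm)
  have hyz : κ y = κ z := h.coprime hz hy1 hyc.symm hpr
  -- a power of w of prime order
  obtain ⟨s, hs, hsd⟩ := Nat.exists_prime_and_dvd (show orderOf w ≠ 1 by rwa [Ne, orderOf_eq_one_iff])
  obtain ⟨i, hi⟩ := exists_prime_order_pow s hsd
  have hwi : w ^ i ≠ 1 := by
    intro h1
    rw [h1, orderOf_one] at hi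
    exact hs.one_lt.ne hi
  rw [← h.pow w i hwi]
  have hcz : (w ^ i) * z = z * (w ^ i) := (Commute.pow_left hwz i : Commute (w ^ i) z)
  by_cases hsp : s = p
  · subst hsp
    have hcy : (w ^ i) * y = y * (w ^ i) := h.cent z y hz hy1 hyz.symm _ hcz
    rw [← hyz]
    apply h.coprime hy1 hwi hcy.symm
    rw [hi, hyr]
    exact (Nat.coprime_primes hr hs).mpr hrp
  · apply h.coprime hz hwi hcz.symm
    rw [hk, hi]
    exact Nat.Coprime.pow_left k ((Nat.coprime_primes hp.out hs).mpr (fun h => hsp h.symm))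

theorem Part.step3 (h : Part S κ) [IsSimpleGroup T] (hc : ¬ ∀ a b : T, a * b = b * a)
    {p : ℕ} [hp : Fact p.Prime] (P : Sylow p T) {z : T} (hz : z ≠ 1) (hzP : z ∈ P)
    (hzc : ∀ y ∈ P, y * z = z * y) : centralizer {z} = (P : Subgroup T) := by
  have hzp : ∃ k, orderOf z = p ^ k := by
    obtain ⟨k, hk⟩ := IsPGroup.iff_orderOf.mp P.isPGroup' ⟨z, hzP⟩
    exact ⟨k, by rw [← hk, Subgroup.orderOf_mk]⟩
  have hle : (P : Subgroup T) ≤ centralizer {z} := fun y hy =>
    Subgroup.mem_centralizer_singleton_iff.mpr (hzc y hy)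
  have hpg : IsPGroup p (centralizer {z}) := by
    by_contra hn
    have h1 := h.step1 hz hzp hn
    apply burnside hc p P (by
      intro hbot
      rw [← SetLike.mem_coe, ← Sylow.coe_coe] at hzP
      have : z ∈ (P : Subgroup T) := hzP
      rw [hbot, Subgroup.mem_bot] at this
      exact hz this)
    intro x hx y hy
    -- x centralizes z
    have h2 : x * z = z * x := by
      apply h.conj z x hz
      apply h1
      · intro h3
        rw [mul_inv_eq_one, mul_eq_left] at h3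
        exact hz h3
      · exact hzc _ (hx z hzP)
    by_cases hy1 : y = 1
    · rw [hy1, mul_one, one_mul]
    · exact h.cent z y hz hy1 (h1 y hy1 (hzc y hy)).symm x h2
  exact P.is_maximal' hpg hle

theorem exists_center_elt {p : ℕ} [hp : Fact p.Prime] (P : Sylow p T) (hP : (P : Subgroup T) ≠ ⊥) :
    ∃ z ∈ P, z ≠ 1 ∧ ∀ y ∈ P, y * z = z * y := by
  have hnt : Nontrivial P := by
    rw [← Subgroup.nontrivial_iff_ne_bot] at hP
    exact hP
  have h1 := P.isPGroup'.bot_lt_center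
  obtain ⟨z, hz, hz1⟩ := SetLike.exists_of_lt h1
  refine ⟨z, z.2, ?_, ?_⟩
  · intro h
    exact hz1 (Subgroup.mem_bot.mpr (Subtype.ext h))
  · intro y hy
    exact congrArg Subtype.val (Subgroup.mem_center_iff.mp hz ⟨y, hy⟩)

theorem Part.step4 (h : Part S κ) [IsSimpleGroup T] (hc : ¬ ∀ a b : T, a * b = b * a)
    {p : ℕ} [hp : Fact p.Prime] {x : T} (hx : x ≠ 1) (hxp : ∃ k, orderOf x = p ^ k) :
    ∃ P : Sylow p T, (P : Subgroup T) = centralizer {x} := by
  have hpg : IsPGroup p (centralizer {x}) := by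
    by_contra hn
    have hz : IsPGroup p (zpowers x) := by
      obtain ⟨k, hk⟩ := hxp
      apply IsPGroup.of_card (n := k)
      rw [Nat.card_zpowers, hk]
    obtain ⟨P, hP⟩ := hz.exists_le_sylow
    have hxP : x ∈ P := hP (mem_zpowers x)
    obtain ⟨z, hzP, hz1, hzc⟩ := exists_center_elt P (by
      intro hbot
      have : x ∈ (P : Subgroup T) := hxP
      rw [hbot, Subgroup.mem_bot] at this
      exact hx this)
    have h1 := h.step3 hc P hz1 hzP hzc
    have h2 := h.step1 hx hxp hn z hz1 (hzc x hxP).symm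
    apply hn
    have h3 : centralizer {x} ≤ (P : Subgroup T) := by
      rw [← h1]
      intro w hw
      rw [Subgroup.mem_centralizer_singleton_iff] at hw ⊢
      exact h.cent x z hx hz1 h2.symm w hw
    exact P.isPGroup'.to_le h3
  apply exists_sylow_eq p _ hpg
  intro y hy
  rw [Subgroup.mem_centralizer_singleton_iff]
  apply h.self x y hx
  intro w hw
  exact Subgroup.mem_centralizer_singleton_iff.mp (hy w (Subgroup.mem_centralizer_singleton_iff.mpr hw))

theorem Part.step5 (h : Part S κ) [IsSimpleGroup T] (hc : ¬ ∀ a b : T, a * b = b * a)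
    {p : ℕ} [hp : Fact p.Prime] (P : Sylow p T) (hP : (P : Subgroup T) ≠ ⊥) :
    (normalizer (P : Set T) = (P : Subgroup T)) ∧ ¬ ∀ a ∈ P, ∀ b ∈ P, a * b = b * a := by
  obtain ⟨z, hzP, hz1, hzc⟩ := exists_center_elt P hP
  have h1 := h.step3 hc P hz1 hzP hzc
  have h2 : ∀ x : T, (∀ y ∈ P, x * y * x⁻¹ ∈ P) → x ∈ P := by
    intro x hx
    have : x ∈ centralizer {z} := by
      rw [Subgroup.mem_centralizer_singleton_iff]
      apply h.self z x hz1
      intro y hy
      have hyP : y ∈ (P : Subgroup T) := by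
        rw [← h1]; exact Subgroup.mem_centralizer_singleton_iff.mpr hy
      have := hx y hyP
      have h3 : x * y * x⁻¹ ∈ centralizer {z} := by rw [h1]; exact this
      exact Subgroup.mem_centralizer_singleton_iff.mp h3
    rw [h1] at this
    exact this
  constructor
  · apply le_antisymm
    · intro x hx
      exact h2 x (fun y hy => (Subgroup.mem_normalizer_iff.mp hx y).mp hy)
    · exact Subgroup.le_normalizer
  · intro hab
    apply burnside hc p P hP
    intro x hx y hy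
    exact hab x (h2 x hx) y hy

theorem sq_mul_center_le {p : ℕ} [hp : Fact p.Prime] {P : Type*} [Group P] [Finite P] (hP : IsPGroup p P)
    (hab : ¬ ∀ a b : P, a * b = b * a) : p ^ 2 * Nat.card (Subgroup.center P) ≤ Nat.card P := by
  rw [← (Subgroup.center P).card_mul_index, mul_comm]
  apply Nat.mul_le_mul_left
  obtain ⟨k, hk⟩ := IsPGroup.index hP (Subgroup.center P)
  rw [hk]
  apply Nat.pow_le_pow_right hp.out.pos
  by_contra hlt
  apply hab
  have hcyc : IsCyclic (P ⧸ Subgroup.center P) := by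
    have hcard : Nat.card (P ⧸ Subgroup.center P) = p ^ k := hk
    have : k = 0 ∨ k = 1 := by omega
    rcases this with rfl | rfl
    · rw [pow_zero] at hcard
      have := (Nat.card_eq_one_iff_unique.mp hcard).1
      exact isCyclic_of_subsingleton
    · rw [pow_one] at hcard
      exact isCyclic_of_prime_card hcard
  exact fun a b => (MonoidHom.isMulCommutative_of_isCyclic_of_ker_le_center
    (QuotientGroup.mk' (Subgroup.center P)) (by rw [QuotientGroup.ker_mk'])).is_comm.comm a b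

/-- central elements of Sylow `p`-subgroups -/
def U (T : Type*) [Group T] (p : ℕ) : Set T := {w | w ≠ 1 ∧ ∃ P : Sylow p T, w ∈ P ∧ ∀ y ∈ P, y * w = w * y}

theorem Part.step8 (h : Part S κ) [IsSimpleGroup T] (hc : ¬ ∀ a b : T, a * b = b * a)
    {p : ℕ} [hp : Fact p.Prime] (hpd : p ∣ Nat.card T) : p ^ 2 * ((U T p).ncard + 1) ≤ Nat.card T := by
  classical
  have : Fintype (Sylow p T) := Fintype.ofFinite _
  have hne : ∀ P : Sylow p T, (P : Subgroup T) ≠ ⊥ := fun P => P.ne_bot_of_dvd_card hpd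
  have hZ : ∀ P : Sylow p T, p ^ 2 * (({w | w ∈ P ∧ ∀ y ∈ P, y * w = w * y} : Set T) \ {1}).ncard + p ^ 2
      ≤ Nat.card P := by
    intro P
    have h1 := (h.step5 hc P (hne P)).2
    have h2 := sq_mul_center_le (P := P) P.isPGroup' (fun hab => h1 (fun a ha b hb =>
      congrArg Subtype.val (hab ⟨a, ha⟩ ⟨b, hb⟩)))
    have h3 : ({w | w ∈ P ∧ ∀ y ∈ P, y * w = w * y} : Set T).ncard = Nat.card (Subgroup.center P) := by
      apply Nat.card_congr
      exact
        { toFun := fun w => ⟨⟨w.1, w.2.1⟩, Subgroup.mem_center_iff.mpr (fun y => Subtype.ext (w.2.2 y y.2))⟩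
          invFun := fun w => ⟨w.1.1, w.1.2, fun y hy => congrArg Subtype.val (Subgroup.mem_center_iff.mp w.2 ⟨y, hy⟩)⟩
          left_inv := fun w => rfl
          right_inv := fun w => rfl }
    have h4 : (1 : T) ∈ ({w | w ∈ P ∧ ∀ y ∈ P, y * w = w * y} : Set T) :=
      ⟨P.one_mem, fun y _ => by rw [mul_one, one_mul]⟩
    have h5 := Set.ncard_sdiff_singleton_add_one h4 (Set.toFinite _)
    calc p ^ 2 * (({w | w ∈ P ∧ ∀ y ∈ P, y * w = w * y} : Set T) \ {1}).ncard + p ^ 2
        = p ^ 2 * ((({w | w ∈ P ∧ ∀ y ∈ P, y * w = w * y} : Set T) \ {1}).ncard + 1) := by ring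
      _ = p ^ 2 * Nat.card (Subgroup.center P) := by rw [h5, h3]
      _ ≤ Nat.card P := h2
  have hsub : U T p ⊆ ⋃ P : Sylow p T, (({w | w ∈ P ∧ ∀ y ∈ P, y * w = w * y} : Set T) \ {1}) := by
    rintro w ⟨hw, P, hwP, hwc⟩
    rw [Set.mem_iUnion]
    exact ⟨P, ⟨hwP, hwc⟩, hw⟩
  have h1 : (U T p).ncard ≤ ∑ P : Sylow p T, (({w | w ∈ P ∧ ∀ y ∈ P, y * w = w * y} : Set T) \ {1}).ncard := by
    refine (Set.ncard_le_ncard hsub (Set.toFinite _)).trans ?_
    exact Set.ncard_iUnion_le_of_fintype _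
  obtain ⟨P₀⟩ : Nonempty (Sylow p T) := inferInstance
  have h2 : ∑ P : Sylow p T, Nat.card P = Nat.card T := by
    have h3 : ∀ P : Sylow p T, Nat.card P = Nat.card P₀ := fun P =>
      Nat.card_congr (P.equiv P₀).toEquiv
    rw [Finset.sum_congr rfl (fun P _ => h3 P), Finset.sum_const, Finset.card_univ, smul_eq_mul,
      ← Nat.card_eq_fintype_card, P₀.card_eq_index_normalizer, (h.step5 hc P₀ (hne P₀)).1, mul_comm]
    exact (P₀ : Subgroup T).card_mul_index
  have h3 : p ^ 2 * (U T p).ncard + p ^ 2 * Fintype.card (Sylow p T) ≤ Nat.card T := by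
    calc p ^ 2 * (U T p).ncard + p ^ 2 * Fintype.card (Sylow p T)
        ≤ p ^ 2 * ∑ P : Sylow p T, (({w | w ∈ P ∧ ∀ y ∈ P, y * w = w * y} : Set T) \ {1}).ncard
          + p ^ 2 * Fintype.card (Sylow p T) := Nat.add_le_add_right (Nat.mul_le_mul_left _ h1) _
      _ = ∑ P : Sylow p T, (p ^ 2 * (({w | w ∈ P ∧ ∀ y ∈ P, y * w = w * y} : Set T) \ {1}).ncard + p ^ 2) := by
          rw [Finset.sum_add_distrib, Finset.mul_sum, Finset.sum_const, Finset.card_univ, smul_eq_mul,
            mul_comm (p ^ 2) (Fintype.card _)]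
      _ ≤ ∑ P : Sylow p T, Nat.card P := Finset.sum_le_sum (fun P _ => hZ P)
      _ = Nat.card T := h2
  have h4 : 1 ≤ Fintype.card (Sylow p T) := Fintype.card_pos_iff.mpr ⟨P₀⟩
  calc p ^ 2 * ((U T p).ncard + 1) = p ^ 2 * (U T p).ncard + p ^ 2 * 1 := by ring
    _ ≤ p ^ 2 * (U T p).ncard + p ^ 2 * Fintype.card (Sylow p T) :=
        Nat.add_le_add_left (Nat.mul_le_mul_left _ h4) _
    _ ≤ Nat.card T := h3

theorem sum_inv_sq (M : ℕ) : ∑ k ∈ Finset.Icc 2 (M + 1), (1 : ℚ) / (k : ℚ) ^ 2 ≤ 1 - 1 / ((M : ℚ) + 1) := by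
  induction M with
  | zero => simp
  | succ M ih =>
    rw [Finset.sum_Icc_succ_top (by omega)]
    have h1 : (0 : ℚ) < (M : ℚ) + 1 := by positivity
    have h2 : (0 : ℚ) < (M : ℚ) + 1 + 1 := by positivity
    have h3 : (1 : ℚ) / (((M + 1 + 1 : ℕ)) : ℚ) ^ 2 ≤ 1 / ((M : ℚ) + 1) - 1 / ((M : ℚ) + 1 + 1) := by
      push_cast
      rw [div_sub_div _ _ h1.ne' h2.ne', div_le_div_iff₀ (by positivity) (by positivity)]
      nlinarith
    push_cast at h3 ⊢
    linarith

/-- **No nonabelian simple group carries such a structure.** -/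
theorem Part.false (h : Part S κ) [IsSimpleGroup T] (hc : ¬ ∀ a b : T, a * b = b * a) : False := by
  classical
  set n := Nat.card T with hn
  have hcov : (Set.univ \ {1} : Set T) ⊆ ⋃ p ∈ (Nat.card T).primeFactors, U T p := by
    rintro w ⟨-, hw⟩
    have hw1 : w ≠ 1 := hw
    obtain ⟨p, hp, hpd⟩ := Nat.exists_prime_and_dvd (show orderOf w ≠ 1 by rwa [Ne, orderOf_eq_one_iff])
    have := Fact.mk hp
    obtain ⟨i, hi⟩ := exists_prime_order_pow p hpd
    have hwi : w ^ i ≠ 1 := by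
      intro h1
      rw [h1, orderOf_one] at hi
      exact hp.one_lt.ne hi
    obtain ⟨P, hP⟩ := h.step4 hc hwi ⟨1, by rw [hi, pow_one]⟩
    have hwP : w ∈ (P : Subgroup T) := by
      rw [hP, Subgroup.mem_centralizer_singleton_iff]
      exact (Commute.self_pow w i)
    obtain ⟨k, hk⟩ := IsPGroup.iff_orderOf.mp P.isPGroup' ⟨w, hwP⟩
    obtain ⟨Q, hQ⟩ := h.step4 hc hw1 ⟨k, by rw [← hk, Subgroup.orderOf_mk]⟩
    rw [Set.mem_iUnion₂]
    refine ⟨p, Nat.mem_primeFactors.mpr ⟨hp, hpd.trans (orderOf_dvd_natCard w), Nat.card_pos.ne'⟩,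
      hw1, Q, ?_, ?_⟩
    · have : w ∈ (Q : Subgroup T) := by
        rw [hQ, Subgroup.mem_centralizer_singleton_iff]
      exact this
    · intro y hy
      have : y ∈ (Q : Subgroup T) := hy
      rw [hQ, Subgroup.mem_centralizer_singleton_iff] at this
      exact this
  have h1 : (Set.univ \ {1} : Set T).ncard = n - 1 := by
    rw [Set.ncard_sdiff_singleton_of_mem (Set.mem_univ _), Set.ncard_univ]
  have h2 : (n - 1 : ℕ) ≤ ∑ p ∈ (Nat.card T).primeFactors, (U T p).ncard := by
    rw [← h1]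
    refine (Set.ncard_le_ncard hcov (Set.toFinite _)).trans ?_
    exact Finset.set_ncard_biUnion_le _ _
  have hn0 : 0 < n := Nat.card_pos
  have hbound : ∀ p ∈ (Nat.card T).primeFactors, ((U T p).ncard : ℚ) ≤ n * (1 / (p : ℚ) ^ 2) - 1 := by
    intro p hp
    have hpp := Nat.prime_of_mem_primeFactors hp
    have := Fact.mk hpp
    have h3 := h.step8 hc (Nat.dvd_of_mem_primeFactors hp)
    have h4 : ((p : ℚ) ^ 2) * (((U T p).ncard : ℚ) + 1) ≤ n := by exact_mod_cast h3
    have h5 : (0 : ℚ) < (p : ℚ) ^ 2 := by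
      have : (0 : ℚ) < p := by exact_mod_cast hpp.pos
      positivity
    rw [mul_one_div, le_sub_iff_add_le, le_div_iff₀ h5, mul_comm]
    exact h4
  have hsum : ((n : ℚ) - 1) ≤ ∑ p ∈ (Nat.card T).primeFactors, ((n : ℚ) * (1 / (p : ℚ) ^ 2) - 1) := by
    refine le_trans ?_ (Finset.sum_le_sum hbound)
    have : ((n - 1 : ℕ) : ℚ) ≤ ((∑ p ∈ (Nat.card T).primeFactors, (U T p).ncard : ℕ) : ℚ) := by
      exact_mod_cast h2
    rw [Nat.cast_sub hn0] at this
    push_cast at this
    exact this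
  -- at least one prime
  have hnt : Nontrivial T := inferInstance
  have hn1 : 1 < n := Finite.one_lt_card
  have hcardp : 1 ≤ (Nat.card T).primeFactors.card := by
    rw [Nat.one_le_iff_ne_zero, Finset.card_ne_zero, Nat.nonempty_primeFactors]
    exact hn1
  rw [Finset.sum_sub_distrib, ← Finset.mul_sum, Finset.sum_const, nsmul_eq_mul, mul_one] at hsum
  have hsum2 : ∑ p ∈ (Nat.card T).primeFactors, (1 : ℚ) / (p : ℚ) ^ 2 ≤
      ∑ k ∈ Finset.Icc 2 (n + 1), (1 : ℚ) / (k : ℚ) ^ 2 := by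
    apply Finset.sum_le_sum_of_subset_of_nonneg
    · intro p hp
      rw [Finset.mem_Icc]
      have := Nat.le_of_mem_primeFactors hp
      exact ⟨(Nat.prime_of_mem_primeFactors hp).two_le, by omega⟩
    · intro i _ _
      positivity
  have h3 := sum_inv_sq n
  have h4 : (0 : ℚ) < 1 / ((n : ℚ) + 1) := by positivity
  have h5 : ∑ p ∈ (Nat.card T).primeFactors, (1 : ℚ) / (p : ℚ) ^ 2 < 1 := by linarith
  have h6 : (1 : ℚ) ≤ ((Nat.card T).primeFactors.card : ℚ) := by exact_mod_cast hcardp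
  have h7 : (0 : ℚ) < n := by exact_mod_cast hn0
  nlinarith

end H62.PartSimple
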