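import Cfsg.Agent.Lib.H62.ExtPrim
import Cfsg.Agent.Lib.H62.PrimGroup
import Cfsg.Agent.Lib.H62.PartSimple

set_option autoImplicit false

/-! Extremely primitive groups do not have two commuting transitive simple subgroups. -/

namespace H62.HSType

open MulAction

variable {G Ω : Type*} [Group G] [MulAction G Ω]

/-- The diagonal homomorphism `T₁ → G_α`. -/
theorem exists_delta (T₁ T₂ : Subgroup G) (hcomm : ∀ a ∈ T₁, ∀ b ∈ T₂, a * b = b * a)
    [IsPretransitive T₂ Ω] (α : Ω) (reg2 : ∀ b ∈ T₂, ∀ ω : Ω, b • ω = ω → b = 1) :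
    ∃ δ : T₁ →* G, (∀ t, δ t • α = α) ∧ (∀ t, ∃ s ∈ T₂, δ t = t * s) ∧
      (∀ (t : T₁) (s : G), s ∈ T₂ → ((t : G) * s) • α = α → (t : G) * s = δ t) := by
  have hex : ∀ t : T₁, ∃ s : T₂, ((t : G) * s) • α = α := by
    intro t
    obtain ⟨s, hs⟩ := exists_smul_eq T₂ α ((t : G)⁻¹ • α)
    refine ⟨s, ?_⟩
    have hs' : (s : G) • α = (t : G)⁻¹ • α := hs
    rw [mul_smul, hs', smul_inv_smul]
  choose σ hσ using hex
  have huniq : ∀ (t : T₁) (s : G), s ∈ T₂ → ((t : G) * s) • α = α → (t : G) * s = t * σ t := by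
    intro t s hs h
    have h1 : (t : G) • (s • α) = (t : G) • ((σ t : G) • α) := by
      rw [← mul_smul, ← mul_smul, h, hσ]
    have h2 := smul_left_cancel _ h1
    have h3 : (σ t : G)⁻¹ * s = 1 := by
      apply reg2 _ (T₂.mul_mem (T₂.inv_mem (σ t).2) hs) α
      rw [mul_smul, h2, inv_smul_smul]
    rw [inv_mul_eq_one] at h3
    rw [h3]
  refine ⟨MonoidHom.mk' (fun t => (t : G) * σ t) ?_, hσ, fun t => ⟨σ t, (σ t).2, rfl⟩, huniq⟩
  intro a b
  symm
  have e : (a : G) * σ a * (b * σ b) = ((a * b : T₁) : G) * ((σ a : G) * σ b) := by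
    change (a : G) * σ a * (b * σ b) = (a * b) * ((σ a : G) * σ b)
    rw [mul_assoc, ← mul_assoc (σ a : G) b (σ b), ← hcomm b b.2 (σ a) (σ a).2]
    simp only [mul_assoc]
  rw [e]
  apply huniq
  · exact T₂.mul_mem (σ a).2 (σ b).2
  · rw [← e, mul_smul, hσ b, hσ a]

theorem false_of_two [Finite G] [Finite Ω] [FaithfulSMul G Ω] [IsPreprimitive G Ω]
    (hH : ∀ α : Ω, stabilizer G α ≠ ⊥)
    (hep : ∀ (α : Ω) (ω : Ω), IsPreprimitive (stabilizer G α) (orbit (stabilizer G α) ω))
    (T₁ T₂ : Subgroup G) (hcomm : ∀ a ∈ T₁, ∀ b ∈ T₂, a * b = b * a)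
    [IsPretransitive T₁ Ω] [IsPretransitive T₂ Ω] (hs : IsSimpleGroup T₁)
    (hnc : ¬ ∀ a ∈ T₁, ∀ b ∈ T₁, a * b = b * a)
    (hperm : ∀ g : G, ((∀ t ∈ T₁, g * t * g⁻¹ ∈ T₁) ∧ (∀ t ∈ T₂, g * t * g⁻¹ ∈ T₂)) ∨
      ((∀ t ∈ T₁, g * t * g⁻¹ ∈ T₂) ∧ (∀ t ∈ T₂, g * t * g⁻¹ ∈ T₁))) (α : Ω) : False := by
  have hcomm' : ∀ b ∈ T₂, ∀ a ∈ T₁, b * a = a * b := fun b hb a ha => (hcomm a ha b hb).symm
  have reg1 : ∀ a ∈ T₁, ∀ ω : Ω, a • ω = ω → a = 1 := fun a ha ω h =>
    H62.PrimGroup.eq_one_of_centralizes (Δ := Ω) T₂ (fun b hb => hcomm a ha b hb) h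
  have reg2 : ∀ b ∈ T₂, ∀ ω : Ω, b • ω = ω → b = 1 := fun b hb ω h =>
    H62.PrimGroup.eq_one_of_centralizes (Δ := Ω) T₁ (fun a ha => hcomm' b hb a ha) h
  obtain ⟨δ, hδα, hδ2, hδu⟩ := exists_delta T₁ T₂ hcomm α reg2
  -- action of δ by conjugation
  have hδconj : ∀ x t : T₁, δ x * t * (δ x)⁻¹ = ((x * t * x⁻¹ : T₁) : G) := by
    intro x t
    obtain ⟨s, hs, hxs⟩ := hδ2 x
    rw [hxs, mul_inv_rev, mul_assoc (x : G) s t, ← hcomm t t.2 s hs]
    change (x : G) * (t * s) * (s⁻¹ * (x : G)⁻¹) = x * t * (x : G)⁻¹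
    group
  have hδact : ∀ x t : T₁, δ x • ((t : G) • α) = ((x * t * x⁻¹ : T₁) : G) • α := by
    intro x t
    rw [← hδconj, mul_smul, mul_smul, inv_smul_eq_iff.mpr (hδα x).symm]
  have hreg' : ∀ a b : T₁, (a : G) • α = (b : G) • α → a = b := by
    intro a b h
    have h1 : (b : G)⁻¹ * a = 1 := by
      apply reg1 _ (T₁.mul_mem (T₁.inv_mem b.2) a.2) α
      rw [mul_smul, h, inv_smul_smul]
    rw [inv_mul_eq_one] at h1
    exact Subtype.ext h1.symm
  let κ : T₁ → Subgroup G := fun t => stabilizer G α ⊓ stabilizer G ((t : G) • α)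
  have hmemδ : ∀ x t : T₁, δ x ∈ κ t ↔ x * t = t * x := by
    intro x t
    constructor
    · rintro ⟨-, h⟩
      have h1 : δ x • ((t : G) • α) = (t : G) • α := h
      rw [hδact] at h1
      have := hreg' _ _ h1
      exact mul_inv_eq_iff_eq_mul.mp this
    · intro h
      refine ⟨hδα x, ?_⟩
      change δ x • ((t : G) • α) = (t : G) • α
      rw [hδact, h, mul_inv_cancel_right]
  have hmove : ∀ t : T₁, t ≠ 1 → (t : G) • α ≠ α := fun t ht h => ht (Subtype.ext (reg1 t t.2 α h))
  have hmax : ∀ t : T₁, t ≠ 1 → ∀ M : Subgroup G, κ t ≤ M → M ≤ stabilizer G α →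
      M = κ t ∨ M = stabilizer G α := fun t ht M h1 h2 =>
    H62.ExtPrim.two_pt_maximal (H62.ExtPrim.exists_moves (hH α) (hmove t ht)) (hep α ((t : G) • α)) M h1 h2
  have hκne : ∀ t : T₁, t ≠ 1 → κ t ≠ stabilizer G α := by
    intro t ht h
    obtain ⟨g, hg, hmv⟩ := H62.ExtPrim.exists_moves (hH α) (hmove t ht)
    rw [← h] at hg
    exact hmv hg.2
  -- centralizers are not normal
  have hnn : ∀ t : T₁, t ≠ 1 → ¬ ∀ y c : T₁, c * t = t * c → (y * c * y⁻¹) * t = t * (y * c * y⁻¹) := by
    intro t ht hcon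
    have hn : (Subgroup.centralizer {t}).Normal := by
      constructor
      intro c hc y
      rw [Subgroup.mem_centralizer_singleton_iff] at hc ⊢
      exact hcon y c hc
    have htm : t ∈ Subgroup.centralizer {t} := by
      rw [Subgroup.mem_centralizer_singleton_iff]
    rcases hs.eq_bot_or_eq_top_of_normal _ hn with h | h
    · rw [h, Subgroup.mem_bot] at htm
      exact ht htm
    · have hcen : t ∈ Subgroup.center T₁ := by
        rw [Subgroup.mem_center_iff]
        intro g
        have : g ∈ Subgroup.centralizer {t} := by rw [h]; trivial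
        exact Subgroup.mem_centralizer_singleton_iff.mp this
      rcases hs.eq_bot_or_eq_top_of_normal (Subgroup.center T₁) inferInstance with h2 | h2
      · rw [h2, Subgroup.mem_bot] at hcen
        exact ht hcen
      · apply hnc
        intro a ha b hb
        have : (⟨b, hb⟩ : T₁) ∈ Subgroup.center T₁ := by rw [h2]; trivial
        exact congrArg Subtype.val (Subgroup.mem_center_iff.mp this ⟨a, ha⟩)
  have hpart : H62.PartSimple.Part (T := T₁) (Subgroup G) κ := by
    refine ⟨?_, ?_, ?_, ?_⟩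
    · intro t i hti
      have ht : t ≠ 1 := by
        rintro rfl
        exact hti (one_pow i)
      have hle : κ t ≤ κ (t ^ i) := by
        rintro h ⟨hα, hω⟩
        refine ⟨hα, ?_⟩
        have hα' : h • α = α := hα
        have hα'' : h⁻¹ • α = α := inv_smul_eq_iff.mpr hα'.symm
        have hω' : h • ((t : G) • α) = (t : G) • α := hω
        have h1 : (h * t * h⁻¹) • α = (t : G) • α := by rw [mul_smul, mul_smul, hα'', hω']
        have h2 : (h * (t : G) ^ i * h⁻¹) • α = (t : G) ^ i • α := by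
          rcases hperm h with ⟨hp, -⟩ | ⟨hp, -⟩
          · have h3 := hreg' ⟨h * t * h⁻¹, hp t t.2⟩ t h1
            have h4 : h * t * h⁻¹ = t := congrArg Subtype.val h3
            rw [← conj_pow, h4]
          · set u := h * (t : G) * h⁻¹ with hu
            have hu2 : u ∈ T₂ := hp t t.2
            have hc : Commute (t : G)⁻¹ u := hcomm _ (T₁.inv_mem t.2) u hu2
            have h3 : ((t : G)⁻¹ * u) ^ i • α = α := by
              have h4 : (t : G)⁻¹ * u ∈ stabilizer G α := by
                rw [mem_stabilizer_iff, mul_smul, h1, inv_smul_smul]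
              exact (stabilizer G α).pow_mem h4 i
            rw [hc.mul_pow, mul_smul, inv_pow, inv_smul_eq_iff] at h3
            rw [← conj_pow, h3]
        change h • ((((t ^ i : T₁) : G)) • α) = (((t ^ i : T₁) : G)) • α
        rw [Subgroup.coe_pow]
        rw [mul_smul, mul_smul, hα''] at h2
        exact h2
      rcases hmax t ht (κ (t ^ i)) hle inf_le_left with h | h
      · exact h
      · exact absurd h (hκne _ hti)
    · intro a b _ _ hab x hxa
      rw [← hmemδ, ← hab, hmemδ]
      exact hxa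
    · intro t x ht hκ
      -- δ x normalizes κ t
      have hdn : δ x ∈ Subgroup.normalizer (κ t : Set G) ⊓ stabilizer G α := by
        refine ⟨?_, hδα x⟩
        apply Subgroup.mem_normalizer_fintype
        rintro k ⟨hk1, hk2⟩
        have hk2' : k • ((t : G) • α) = (t : G) • α := hk2
        have h1 : δ x * k * (δ x)⁻¹ ∈ κ (x * t * x⁻¹) := by
          refine ⟨?_, ?_⟩
          · exact Subgroup.mul_mem _ (Subgroup.mul_mem _ (hδα x) hk1) (Subgroup.inv_mem _ (hδα x))
          · change (δ x * k * (δ x)⁻¹) • (((x * t * x⁻¹ : T₁) : G) • α) = ((x * t * x⁻¹ : T₁) : G) • α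
            rw [← hδact, mul_smul, inv_smul_smul, mul_smul, hk2']
        rw [hκ] at h1
        exact h1
      have hle : κ t ≤ Subgroup.normalizer (κ t : Set G) ⊓ stabilizer G α :=
        le_inf Subgroup.le_normalizer inf_le_left
      rcases hmax t ht _ hle inf_le_right with h | h
      · rw [h] at hdn
        exact (hmemδ x t).mp hdn
      · exfalso
        apply hnn t ht
        intro y c hc
        rw [← hmemδ]
        have hy : δ y ∈ Subgroup.normalizer (κ t : Set G) ⊓ stabilizer G α := by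
          rw [h]; exact hδα y
        have := (Subgroup.mem_normalizer_iff.mp hy.1 (δ c)).mp ((hmemδ c t).mpr hc)
        rw [map_mul, map_mul, map_inv]
        exact this
    · intro t x ht hx
      let B : Subgroup G := (Subgroup.centralizer {t}).map δ
      have hδinj : Function.Injective δ := by
        rw [injective_iff_map_eq_one]
        intro a ha
        obtain ⟨s, hs, has⟩ := hδ2 a
        rw [has] at ha
        have h1 : (a : G) = s⁻¹ := eq_inv_of_mul_eq_one_left ha
        -- a is in T₁ ∩ T₂, hence fixes...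
        have h2 : ∀ b : T₁, b * a = a * b := by
          intro b
          apply Subtype.ext
          change (b : G) * a = a * b
          rw [h1]
          exact hcomm b b.2 _ (T₂.inv_mem hs)
        by_contra hne
        apply hnn a hne
        intro y c hc
        exact h2 _
      have hBmem : ∀ y : T₁, δ y ∈ B ↔ y * t = t * y := by
        intro y
        constructor
        · rintro ⟨z, hz, hzy⟩
          rw [← hδinj hzy]
          exact Subgroup.mem_centralizer_singleton_iff.mp hz
        · intro hy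
          exact ⟨y, Subgroup.mem_centralizer_singleton_iff.mpr hy, rfl⟩
      have hdn : δ x ∈ Subgroup.normalizer (B : Set G) ⊓ stabilizer G α := by
        refine ⟨?_, hδα x⟩
        apply Subgroup.mem_normalizer_fintype
        rintro _ ⟨c, hc, rfl⟩
        have hc' := Subgroup.mem_centralizer_singleton_iff.mp hc
        have h1 := (hBmem (x * c * x⁻¹)).mpr (hx c hc')
        rw [map_mul, map_mul, map_inv] at h1
        exact h1
      have hle : κ t ≤ Subgroup.normalizer (B : Set G) ⊓ stabilizer G α := by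
        refine le_inf ?_ inf_le_left
        intro k hk
        apply Subgroup.mem_normalizer_fintype
        rintro _ ⟨c, hc, rfl⟩
        have hc' := Subgroup.mem_centralizer_singleton_iff.mp hc
        have hk2 : k * δ c * k⁻¹ ∈ κ t :=
          Subgroup.mul_mem _ (Subgroup.mul_mem _ hk ((hmemδ c t).mpr hc')) (Subgroup.inv_mem _ hk)
        -- it is δ of something
        obtain ⟨s, hs, hcs⟩ := hδ2 c
        have hex : ∃ c' : T₁, k * δ c * k⁻¹ = δ c' := by
          have e : k * δ c * k⁻¹ = (k * c * k⁻¹) * (k * s * k⁻¹) := by rw [hcs]; group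
          have hfix : (k * δ c * k⁻¹) • α = α := hk2.1
          rcases hperm k with ⟨hp1, hp2⟩ | ⟨hp1, hp2⟩
          · refine ⟨⟨k * c * k⁻¹, hp1 c c.2⟩, ?_⟩
            rw [e] at hfix ⊢
            exact hδu ⟨k * c * k⁻¹, hp1 c c.2⟩ _ (hp2 s hs) hfix
          · refine ⟨⟨k * s * k⁻¹, hp2 s hs⟩, ?_⟩
            have e2 : k * δ c * k⁻¹ = (k * s * k⁻¹) * (k * c * k⁻¹) := by
              rw [e]
              exact hcomm' _ (hp1 c c.2) _ (hp2 s hs)
            rw [e2] at hfix ⊢
            exact hδu ⟨k * s * k⁻¹, hp2 s hs⟩ _ (hp1 c c.2) hfix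
        obtain ⟨c', hc'2⟩ := hex
        rw [hc'2] at hk2
        change k * δ c * k⁻¹ ∈ B
        rw [hc'2, hBmem]
        exact (hmemδ c' t).mp hk2
      rcases hmax t ht _ hle inf_le_right with h | h
      · rw [h] at hdn
        exact (hmemδ x t).mp hdn
      · exfalso
        apply hnn t ht
        intro y c hc
        rw [← hBmem]
        have hy : δ y ∈ Subgroup.normalizer (B : Set G) ⊓ stabilizer G α := by
          rw [h]; exact hδα y
        have := (Subgroup.mem_normalizer_iff.mp hy.1 (δ c)).mp ((hBmem c).mpr hc)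
        rw [map_mul, map_mul, map_inv]
        exact this
  exact hpart.false (fun hall => hnc (fun a ha b hb => congrArg Subtype.val (hall ⟨a, ha⟩ ⟨b, hb⟩)))

end H62.HSType
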