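import Mathlib
import Cfsg.Agent.Lib.H98.Moebius
import Cfsg.Agent.Lib.H98.DicksonPGL

/-! Numbers of elements of a given order in `PGL₂(q)`, `q` odd. -/

set_option autoImplicit false

namespace H62.Nse

open MulAction Matrix OnePoint H98.Moebius

section gen

/-- a free action: the order of the group divides the order of the set -/
theorem dvd_of_free {U X : Type*} [Group U] [Finite U] [Finite X] [MulAction U X]
    (h : ∀ (u : U) (x : X), u • x = x → u = 1) : Nat.card U ∣ Nat.card X := by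
  classical
  have h1 : Nat.card X = Nat.card (Quotient (MulAction.orbitRel U X)) * Nat.card U := by
    rw [← Nat.card_prod]
    refine Nat.card_congr ((MulAction.selfEquivSigmaOrbits' U X).trans ?_)
    refine (Equiv.sigmaCongrRight (fun ω => ?_)).trans (Equiv.sigmaEquivProd _ _)
    refine (Equiv.ofBijective (fun u : U => (⟨u • (ω.out : X), ?_⟩ : ω.orbit)) ⟨?_, ?_⟩).symm
    · rw [MulAction.orbitRel.Quotient.orbit_eq_orbit_out _ Quotient.out_eq']
      exact MulAction.mem_orbit _ _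
    · intro u v huv
      have h2 : u • (ω.out : X) = v • (ω.out : X) := congrArg Subtype.val huv
      have h3 : (v⁻¹ * u) • (ω.out : X) = (ω.out : X) := by
        rw [mul_smul, h2, inv_smul_smul]
      have h4 := h _ _ h3
      exact (inv_mul_eq_one.mp h4).symm
    · rintro ⟨y, hy⟩
      rw [MulAction.orbitRel.Quotient.orbit_eq_orbit_out _ Quotient.out_eq'] at hy
      obtain ⟨u, hu⟩ := hy
      exact ⟨u, Subtype.ext hu⟩
  rw [h1]
  exact dvd_mul_left _ _

/-- a subgroup acting semiregularly by conjugation on the elements of order `n` -/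
theorem dvd_orderCount {G : Type*} [Group G] [Finite G] (U : Subgroup G) (n : ℕ)
    (h : ∀ u ∈ U, ∀ x : G, orderOf x = n → u * x = x * u → u = 1) :
    Nat.card U ∣ Nat.card {g : G // orderOf g = n} := by
  let _ : MulAction U {g : G // orderOf g = n} :=
    { smul := fun u x => ⟨(u : G) * x.1 * (u : G)⁻¹,
        ((MulAut.conj (u : G)).orderOf_eq x.1).trans x.2⟩
      one_smul := fun x => Subtype.ext (by
        show ((1 : U) : G) * x.1 * ((1 : U) : G)⁻¹ = x.1
        simp)
      mul_smul := fun u v x => Subtype.ext (by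
        show ((u * v : U) : G) * x.1 * ((u * v : U) : G)⁻¹ = (u : G) * ((v : G) * x.1 * (v : G)⁻¹) * (u : G)⁻¹
        simp [mul_assoc]) }
  apply dvd_of_free
  intro u x hux
  have h1 : (u : G) * x.1 * (u : G)⁻¹ = x.1 := congrArg Subtype.val hux
  have h2 : (u : G) * x.1 = x.1 * (u : G) := by
    rw [mul_inv_eq_iff_eq_mul] at h1
    exact h1
  exact Subtype.ext (h _ u.2 _ x.2 h2)

end gen

variable {F : Type*} [Field F]

section invol

theorem mk_eq_iff (g h : GL (Fin 2) F) :
    (ProjGenLinGroup.mk g : ProjGenLinGroup (Fin 2) F) = ProjGenLinGroup.mk h ↔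
      ∃ u : F, u ≠ 0 ∧ h 0 0 = g 0 0 * u ∧ h 0 1 = g 0 1 * u ∧ h 1 0 = g 1 0 * u ∧ h 1 1 = g 1 1 * u := by
  rw [ProjGenLinGroup.mk_eq_mk_iff]
  constructor
  · rintro ⟨u, rfl⟩
    refine ⟨u, u.ne_zero, ?_, ?_, ?_, ?_⟩ <;>
    · rw [Units.val_mul, Matrix.GeneralLinearGroup.coe_scalar]
      simp [Matrix.mul_apply, Fin.sum_univ_two, Matrix.scalar]
  · rintro ⟨u, hu, h1, h2, h3, h4⟩
    refine ⟨Units.mk0 u hu, ?_⟩
    apply Units.ext
    rw [Units.val_mul, Matrix.GeneralLinearGroup.coe_scalar]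
    ext i j
    fin_cases i <;> fin_cases j <;> simp [Matrix.mul_apply, Fin.sum_univ_two, Matrix.scalar, h1, h2, h3, h4]

/-- matrices of involutions moving `∞` -/
noncomputable def psiGL (w : F) (c : Fˣ) : GL (Fin 2) F :=
  Matrix.GeneralLinearGroup.mkOfDetNeZero !![w, (c : F) - w ^ 2; 1, -w] (by
    rw [Matrix.det_fin_two_of]
    have : w * -w - ((c : F) - w ^ 2) * 1 = -(c : F) := by ring
    rw [this]
    exact neg_ne_zero.mpr c.ne_zero)

theorem coe_psiGL (w : F) (c : Fˣ) : ((psiGL w c : GL (Fin 2) F) : Matrix (Fin 2) (Fin 2) F) =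
    !![w, (c : F) - w ^ 2; 1, -w] := rfl

noncomputable def psi (w : F) (c : Fˣ) : ProjGenLinGroup (Fin 2) F := ProjGenLinGroup.mk (psiGL w c)

theorem psi_inj {w w' : F} {c c' : Fˣ} (h : psi w c = psi w' c') : w = w' ∧ c = c' := by
  rw [psi, psi, mk_eq_iff] at h
  obtain ⟨u, hu, h1, h2, h3, h4⟩ := h
  rw [coe_psiGL, coe_psiGL] at h1 h2 h3 h4
  simp only [Matrix.of_apply, Matrix.cons_val', Matrix.cons_val_zero, Matrix.cons_val_one,
    Matrix.cons_val_fin_one] at h1 h2 h3 h4
  have hu1 : u = 1 := by rw [h3, one_mul]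
  subst hu1
  rw [mul_one] at h1 h2
  refine ⟨h1.symm, ?_⟩
  rw [h1] at h2
  exact Units.ext (sub_left_injective h2).symm

theorem psi_ne_one (w : F) (c : Fˣ) : psi w c ≠ 1 := by
  intro h
  rw [psi, ← map_one (ProjGenLinGroup.mk : GL (Fin 2) F →* ProjGenLinGroup (Fin 2) F), mk_eq_iff] at h
  obtain ⟨u, hu, h1, h2, h3, h4⟩ := h
  rw [coe_psiGL] at h3
  simp at h3
  exact hu h3.symm

theorem psi_sq (w : F) (c : Fˣ) : psi w c ^ 2 = 1 := by
  rw [psi, ← map_pow, ← map_one (ProjGenLinGroup.mk : GL (Fin 2) F →* ProjGenLinGroup (Fin 2) F), eq_comm,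
    mk_eq_iff]
  refine ⟨c, c.ne_zero, ?_, ?_, ?_, ?_⟩ <;>
  · rw [pow_two, Units.val_mul, coe_psiGL]
    simp [Matrix.mul_apply, Fin.sum_univ_two]
    try ring

theorem aff_neg_ne_one [DecidableEq F] (h2 : (2 : F) ≠ 0) (b : F) : aff (-1 : Fˣ) b ≠ 1 := by
  intro h
  rw [← aff_one] at h
  have h1 := congrArg Units.val (aff_inj h).1
  rw [Units.val_neg, Units.val_one] at h1
  apply h2
  linear_combination -h1

theorem aff_neg_sq [DecidableEq F] (b : F) : aff (-1 : Fˣ) b ^ 2 = 1 := by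
  rw [pow_two, aff_mul, ← aff_one]
  congr 1
  · simp
  · simp

theorem aff_ne_psi [DecidableEq F] (a : Fˣ) (b w : F) (c : Fˣ) : aff a b ≠ psi w c := by
  intro h
  rw [aff, psi, mk_eq_iff] at h
  obtain ⟨u, hu, h1, h2, h3, h4⟩ := h
  rw [coe_psiGL, coe_affGL] at h3
  simp at h3

/-- every involution is `aff (-1) b` or `psi w c` -/
theorem invol_cases [DecidableEq F] (g : ProjGenLinGroup (Fin 2) F) (hg : g ^ 2 = 1) (hg1 : g ≠ 1) :
    (∃ b, g = aff (-1 : Fˣ) b) ∨ (∃ w c, g = psi w c) := by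
  induction g using Matrix.ProjGenLinGroup.induction_on with | mk g =>
  rw [← map_pow, ← map_one (ProjGenLinGroup.mk : GL (Fin 2) F →* ProjGenLinGroup (Fin 2) F), eq_comm,
    mk_eq_iff] at hg
  rw [ne_eq, ← map_one (ProjGenLinGroup.mk : GL (Fin 2) F →* ProjGenLinGroup (Fin 2) F), eq_comm,
    mk_eq_iff] at hg1
  obtain ⟨u, hu, e1, e2, e3, e4⟩ := hg
  rw [pow_two, Units.val_mul, Matrix.mul_apply, Fin.sum_univ_two] at e1 e2 e3 e4
  simp at e1 e2 e3 e4
  have hdet : (g : Matrix (Fin 2) (Fin 2) F).det ≠ 0 := g.det_ne_zero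
  rw [Matrix.det_fin_two] at hdet
  generalize hA : (g : Matrix (Fin 2) (Fin 2) F) 0 0 = a at *
  generalize hB : (g : Matrix (Fin 2) (Fin 2) F) 0 1 = b at *
  generalize hC : (g : Matrix (Fin 2) (Fin 2) F) 1 0 = c at *
  generalize hD : (g : Matrix (Fin 2) (Fin 2) F) 1 1 = d at *
  have hd : d = -a := by
    by_contra hne
    have hne' : a + d ≠ 0 := fun h => hne (by linear_combination h)
    have hb : b = 0 := by
      have : b * (a + d) = 0 := by linear_combination e2
      exact (mul_eq_zero.mp this).resolve_right hne'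
    have hc : c = 0 := by
      have : c * (a + d) = 0 := by linear_combination e3
      exact (mul_eq_zero.mp this).resolve_right hne'
    subst hb hc
    have had : a = d := by
      have : (a - d) * (a + d) = 0 := by linear_combination e1 - e4
      exact sub_eq_zero.mp ((mul_eq_zero.mp this).resolve_right hne')
    apply hg1
    refine ⟨a, ?_, ?_, ?_, ?_, ?_⟩
    · rintro rfl
      apply hdet
      ring
    · simp
    · simp
    · simp
    · simp [had]
  subst hd
  by_cases hc : c = 0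
  · left
    subst hc
    have ha : a ≠ 0 := by
      rintro rfl
      apply hdet
      ring
    refine ⟨-b / a, ?_⟩
    rw [aff, mk_eq_iff]
    refine ⟨-a⁻¹, neg_ne_zero.mpr (inv_ne_zero ha), ?_, ?_, ?_, ?_⟩
    · rw [coe_affGL, hA]; simp [ha]
    · rw [coe_affGL, hB]; simp; ring
    · rw [coe_affGL, hC]; simp
    · rw [coe_affGL, hD]; simp [ha]
  · right
    have hk : (b * c + a ^ 2) / c ^ 2 ≠ 0 := by
      apply div_ne_zero _ (pow_ne_zero _ hc)
      intro h
      apply hdet
      linear_combination -h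
    refine ⟨a / c, Units.mk0 _ hk, ?_⟩
    rw [psi, mk_eq_iff]
    refine ⟨c⁻¹, inv_ne_zero hc, ?_, ?_, ?_, ?_⟩
    · rw [coe_psiGL, hA]; simp; ring
    · rw [coe_psiGL, hB]; simp; field_simp; ring
    · rw [coe_psiGL, hC]; simp [hc]
    · rw [coe_psiGL, hD]; simp; ring

/-- the number of involutions of `PGL₂(q)`, `q` odd -/
theorem card_invol [Fintype F] (hodd : Odd (Fintype.card F)) :
    Nat.card {g : ProjGenLinGroup (Fin 2) F // orderOf g = 2} = Fintype.card F ^ 2 := by
  classical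
  have h2 : (2 : F) ≠ 0 := by
    apply Ring.two_ne_zero
    intro h
    have h3 := FiniteField.even_card_iff_char_two.mp h
    obtain ⟨k, hk⟩ := hodd
    omega
  have : Fact (Nat.Prime 2) := ⟨Nat.prime_two⟩
  let f : F ⊕ (F × Fˣ) → {g : ProjGenLinGroup (Fin 2) F // orderOf g = 2} := fun x =>
    Sum.elim (fun b => ⟨aff (-1 : Fˣ) b, orderOf_eq_prime (aff_neg_sq b) (aff_neg_ne_one h2 b)⟩)
      (fun y => ⟨psi y.1 y.2, orderOf_eq_prime (psi_sq _ _) (psi_ne_one _ _)⟩) x
  have hf : Function.Bijective f := by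
    constructor
    · rintro (b | ⟨w, c⟩) (b' | ⟨w', c'⟩) h
      · have h1 : aff (-1 : Fˣ) b = aff (-1 : Fˣ) b' := congrArg Subtype.val h
        rw [(aff_inj h1).2]
      · exact absurd (congrArg Subtype.val h) (aff_ne_psi _ _ _ _)
      · exact absurd (congrArg Subtype.val h).symm (aff_ne_psi _ _ _ _)
      · have h1 : psi w c = psi w' c' := congrArg Subtype.val h
        obtain ⟨rfl, rfl⟩ := psi_inj h1
        rfl
    · rintro ⟨g, hg⟩
      have hg2 : g ^ 2 = 1 := orderOf_dvd_iff_pow_eq_one.mp hg.dvd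
      have hg1 : g ≠ 1 := by
        rintro rfl
        rw [orderOf_one] at hg
        omega
      rcases invol_cases g hg2 hg1 with ⟨b, rfl⟩ | ⟨w, c, rfl⟩
      · exact ⟨Sum.inl b, rfl⟩
      · exact ⟨Sum.inr (w, c), rfl⟩
  rw [← Nat.card_congr (Equiv.ofBijective f hf), Nat.card_sum, Nat.card_prod, Nat.card_eq_fintype_card,
    Nat.card_eq_fintype_card, Fintype.card_units]
  have hq : 1 ≤ Fintype.card F := Fintype.card_pos
  obtain ⟨r, hr⟩ : ∃ r, Fintype.card F = r + 1 := ⟨Fintype.card F - 1, by omega⟩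
  rw [hr, Nat.add_sub_cancel]
  ring

end invol

section gen2

theorem card_cls {C : Type*} [Group C] [Finite C] (v : C) :
    Nat.card {c : C // ∃ g, g * v * g⁻¹ = c} * Nat.card (Subgroup.centralizer ({v} : Set C)) = Nat.card C := by
  have h1 : {c : C | ∃ g, g * v * g⁻¹ = c} = MulAction.orbit (ConjAct C) v := by
    ext c
    constructor
    · rintro ⟨g, rfl⟩
      exact ⟨ConjAct.toConjAct g, ConjAct.smul_def _ _⟩
    · rintro ⟨g, rfl⟩
      exact ⟨ConjAct.ofConjAct g, (ConjAct.smul_def _ _).symm⟩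
  have h2 : Nat.card {c : C // ∃ g, g * v * g⁻¹ = c} = (MulAction.stabilizer (ConjAct C) v).index := by
    rw [MulAction.index_stabilizer, ← h1]
    rfl
  rw [h2, Subgroup.nat_card_centralizer_nat_card_stabilizer, mul_comm, Subgroup.card_mul_index]
  rfl

end gen2

section unip

variable [DecidableEq F]

theorem aff_one_pow (b : F) (n : ℕ) : (aff (1 : Fˣ) b) ^ n = aff 1 (n * b) := by
  induction n with
  | zero => simp [aff_one]
  | succ n ih =>
    rw [pow_succ, ih, aff_mul]
    congr 1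
    · simp
    · push_cast; ring

theorem aff_pow (a : Fˣ) (b : F) (n : ℕ) : ∃ c, (aff a b) ^ n = aff (a ^ n) c := by
  induction n with
  | zero => exact ⟨0, by simp [aff_one]⟩
  | succ n ih =>
    obtain ⟨c, hc⟩ := ih
    exact ⟨_, by rw [pow_succ, hc, aff_mul, ← pow_succ]⟩

/-- centralizer of a translation -/
theorem comm_aff_one {b : F} (hb : b ≠ 0) {x : ProjGenLinGroup (Fin 2) F}
    (h : aff (1 : Fˣ) b * x = x * aff (1 : Fˣ) b) : ∃ d, x = aff 1 d := by
  have h1 : x • (∞ : OnePoint F) ∈ fixedBy (OnePoint F) (aff (1 : Fˣ) b) := by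
    rw [mem_fixedBy, ← mul_smul, h, mul_smul, aff_smul_infty]
  rw [fixedBy_aff_one b hb, Set.mem_singleton_iff] at h1
  obtain ⟨a, d, rfl⟩ := exists_aff x h1
  rw [aff_mul, aff_mul] at h
  have h2 := (aff_inj h).2
  refine ⟨d, ?_⟩
  congr 1
  apply Units.ext
  rw [Units.val_one, one_mul] at h2
  have h3 : (a : F) * b = 1 * b := by linear_combination -h2
  rw [Units.val_one]
  exact mul_right_cancel₀ hb h3

/-- the group of translations -/
noncomputable def tr : Multiplicative F →* ProjGenLinGroup (Fin 2) F where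
  toFun b := aff 1 (Multiplicative.toAdd b)
  map_one' := aff_one
  map_mul' b c := by
    rw [aff_mul]
    congr 1
    · simp
    · rw [toAdd_mul]; simp [add_comm]

theorem tr_apply (b : F) : tr (Multiplicative.ofAdd b) = aff (1 : Fˣ) b := rfl

theorem tr_inj : Function.Injective (tr : Multiplicative F →* ProjGenLinGroup (Fin 2) F) := by
  intro b c h
  exact (aff_inj h).2

theorem card_tr [Fintype F] : Nat.card (tr : Multiplicative F →* ProjGenLinGroup (Fin 2) F).range = Fintype.card F := by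
  rw [← Nat.card_congr (MonoidHom.ofInjective tr_inj).toEquiv, ← Nat.card_eq_fintype_card]
  exact Nat.card_congr Multiplicative.toAdd

theorem cent_aff_one {b : F} (hb : b ≠ 0) : Subgroup.centralizer ({aff (1 : Fˣ) b} : Set (ProjGenLinGroup (Fin 2) F)) =
    (tr : Multiplicative F →* ProjGenLinGroup (Fin 2) F).range := by
  ext x
  rw [Subgroup.mem_centralizer_singleton_iff]
  constructor
  · intro h
    obtain ⟨d, rfl⟩ := comm_aff_one hb h.symm
    exact ⟨Multiplicative.ofAdd d, rfl⟩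
  · rintro ⟨d, rfl⟩
    have h1 : tr (d * Multiplicative.ofAdd b) = tr (Multiplicative.ofAdd b * d) := by rw [mul_comm]
    rw [map_mul, map_mul, tr_apply] at h1
    exact h1

variable [Fintype F] {p : ℕ} [Fact p.Prime] [CharP F p]

/-- elements of order `p` are conjugate to translations -/
theorem exists_conj_tr {g : ProjGenLinGroup (Fin 2) F} (hg : orderOf g = p) :
    ∃ (h : ProjGenLinGroup (Fin 2) F) (b : F), b ≠ 0 ∧ h * g * h⁻¹ = aff 1 b := by
  have hp : p.Prime := Fact.out
  have hP : IsPGroup p (Subgroup.zpowers g) := by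
    apply IsPGroup.of_card (n := 1)
    rw [Nat.card_zpowers, hg, pow_one]
  have h1 := hP.card_modEq_card_fixedPoints (OnePoint F)
  have h2 : Nat.card (OnePoint F) = Fintype.card F + 1 := by
    rw [← Nat.card_eq_fintype_card]
    exact Finite.card_option
  have h3 : p ∣ Fintype.card F := by
    obtain ⟨n, -, hn⟩ := FiniteField.card F p
    rw [hn]
    exact dvd_pow_self p n.ne_zero
  have h4 : (fixedPoints (Subgroup.zpowers g) (OnePoint F)).Nonempty := by
    rw [Set.nonempty_iff_ne_empty]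
    intro h0
    rw [h0, h2] at h1
    rw [Nat.card_eq_zero.mpr (Or.inl (by infer_instance))] at h1
    have h5 : p ∣ Fintype.card F + 1 := (Nat.modEq_zero_iff_dvd.mp h1)
    have h6 := (Nat.dvd_add_right h3).mp h5
    exact hp.one_lt.ne' (Nat.dvd_one.mp h6)
  obtain ⟨x, hx⟩ := h4
  have hx' : g • x = x := hx ⟨g, Subgroup.mem_zpowers g⟩
  obtain ⟨h, hh⟩ := exists_smul_eq_infty x
  obtain ⟨a, b, hab⟩ := exists_conj_aff g h x hh hx'
  have h7 : (h * g * h⁻¹) ^ p = 1 := by
    rw [conj_pow, ← hg, pow_orderOf_eq_one]; group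
  rw [hab] at h7
  obtain ⟨c, hc⟩ := aff_pow a b p
  rw [hc, ← aff_one] at h7
  have h8 := congrArg Units.val (aff_inj h7).1
  rw [Units.val_pow_eq_pow_val, Units.val_one] at h8
  have h9 : ((a : F) - 1) ^ p = 0 := by rw [sub_pow_char, one_pow, h8, sub_self]
  have h10 : (a : F) = 1 := sub_eq_zero.mp (pow_eq_zero_iff hp.ne_zero |>.mp h9)
  have h11 : a = 1 := Units.ext h10
  subst h11
  refine ⟨h, b, ?_, hab⟩
  rintro rfl
  rw [aff_one, mul_inv_eq_one] at hab
  have h12 : g = 1 := mul_left_cancel (hab.trans (mul_one h).symm)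
  rw [h12, orderOf_one] at hg
  exact hp.one_lt.ne hg

theorem orderOf_tr {b : F} (hb : b ≠ 0) : orderOf (aff (1 : Fˣ) b : ProjGenLinGroup (Fin 2) F) = p := by
  apply orderOf_eq_prime
  · rw [aff_one_pow, CharP.cast_eq_zero, zero_mul, aff_one]
  · intro h
    rw [← aff_one] at h
    exact hb (aff_inj h).2

theorem finite_pgl : Finite (ProjGenLinGroup (Fin 2) F) :=
  Finite.of_surjective (ProjGenLinGroup.mk : GL (Fin 2) F →* ProjGenLinGroup (Fin 2) F)
    (QuotientGroup.mk'_surjective _)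

theorem card_order_p : Nat.card {g : ProjGenLinGroup (Fin 2) F // orderOf g = p} = Fintype.card F ^ 2 - 1 := by
  have := finite_pgl (F := F)
  have h1 := card_cls (aff (1 : Fˣ) 1 : ProjGenLinGroup (Fin 2) F)
  rw [cent_aff_one one_ne_zero, card_tr, H98.DicksonPGL.card_pgl_eq, Nat.card_eq_fintype_card (α := F)] at h1
  have h2 : Nat.card {g : ProjGenLinGroup (Fin 2) F // orderOf g = p} =
      Nat.card {c : ProjGenLinGroup (Fin 2) F // ∃ g, g * aff (1 : Fˣ) 1 * g⁻¹ = c} := by
    apply Nat.card_congr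
    apply Equiv.subtypeEquivRight
    intro x
    constructor
    · intro hx
      obtain ⟨h, b, hb, hab⟩ := exists_conj_tr (p := p) hx
      refine ⟨h⁻¹ * aff (Units.mk0 b hb) 0, ?_⟩
      have h3 : aff (Units.mk0 b hb) 0 * aff (1 : Fˣ) 1 = aff (1 : Fˣ) b * aff (Units.mk0 b hb) 0 := by
        rw [aff_mul, aff_mul]
        congr 1
        · simp
        · simp
      calc h⁻¹ * aff (Units.mk0 b hb) 0 * aff (1 : Fˣ) 1 * (h⁻¹ * aff (Units.mk0 b hb) 0)⁻¹
          = h⁻¹ * (aff (Units.mk0 b hb) 0 * aff (1 : Fˣ) 1) * (aff (Units.mk0 b hb) 0)⁻¹ * h := by group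
        _ = h⁻¹ * aff 1 b * h := by rw [h3]; group
        _ = x := by rw [← hab]; group
    · rintro ⟨g, rfl⟩
      exact ((MulAut.conj g).orderOf_eq _).trans (orderOf_tr one_ne_zero)
  rw [h2]
  have hq : 1 ≤ Fintype.card F := Fintype.card_pos
  obtain ⟨r, hr⟩ : ∃ r, Fintype.card F = r + 1 := ⟨Fintype.card F - 1, by omega⟩
  rw [hr] at h1 ⊢
  rw [Nat.add_sub_cancel] at h1
  have h4 : (r + 1) ^ 2 - 1 = (r + 2) * r := by
    rw [show (r + 1) ^ 2 = (r + 2) * r + 1 by ring, Nat.add_sub_cancel]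
  rw [h4]
  apply Nat.eq_of_mul_eq_mul_right (show 0 < r + 1 by omega)
  rw [h1]; ring

theorem dvd_order {n : ℕ} (h1 : n ≠ 1) (hn : n ≠ p) :
    Fintype.card F ∣ Nat.card {g : ProjGenLinGroup (Fin 2) F // orderOf g = n} := by
  have := finite_pgl (F := F)
  rw [← card_tr (F := F)]
  apply dvd_orderCount
  rintro u ⟨b, rfl⟩ x hx hux
  by_cases hb : Multiplicative.toAdd b = 0
  · show aff 1 (Multiplicative.toAdd b) = 1
    rw [hb, aff_one]
  · exfalso
    obtain ⟨d, rfl⟩ := comm_aff_one hb hux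
    by_cases hd : d = 0
    · subst hd
      rw [aff_one, orderOf_one] at hx
      exact h1 hx.symm
    · rw [orderOf_tr (p := p) hd] at hx
      exact hn hx.symm

end unip

end H62.Nse
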