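import Mathlib
import Cfsg.Agent.Lib.H69.FrobCount

/-! The arithmetic of the numbers of elements of given order for a group with the same order and the same
set of these numbers as `PGL₂(q)`. -/

set_option autoImplicit false

namespace H62.Nse

theorem arith {q p N : ℕ} (s : ℕ → ℕ) (hq3 : 3 < q) (hqodd : Odd q) (hp : p.Prime) (hpq : p ∣ q)
    (hN : N = q * (q ^ 2 - 1)) (hs1 : s 1 = 1) (hs0 : s 0 = 0) (heven : ∀ n, 2 < n → Even (s n))
    (hsum : ∑ n ∈ N.divisors, s n = N) (hfrob : ∀ m, m ∣ N → m ∣ ∑ n ∈ m.divisors, s n) (hsp : s p ≠ 0)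
    (hq2 : ∃ n, s n = q ^ 2) (hval : ∀ n, s n = 0 ∨ s n = 1 ∨ s n = q ^ 2 - 1 ∨ q ∣ s n) :
    s 2 = q ^ 2 ∧ s p = q ^ 2 - 1 ∧ ∀ n ∈ N.divisors, s n ≠ 0 → n = p ∨ n ∣ q ^ 2 - 1 := by
  classical
  have hqq : 9 < q ^ 2 := by nlinarith
  have hp2 : p ≠ 2 := by
    rintro rfl
    obtain ⟨k, hk⟩ := hqodd
    omega
  have hpp : 2 < p := lt_of_le_of_ne hp.two_le (Ne.symm hp2)
  have hcop : Nat.Coprime q (q ^ 2 - 1) := by
    have h1 : q ^ 2 - 1 + 1 = q * q := by rw [Nat.sub_add_cancel (by omega), pow_two]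
    rw [Nat.coprime_iff_gcd_eq_one]
    have h2 : Nat.gcd q (q ^ 2 - 1) ∣ 1 := by
      have h3 : Nat.gcd q (q ^ 2 - 1) ∣ q ^ 2 - 1 + 1 := by
        rw [h1]; exact dvd_mul_of_dvd_left (Nat.gcd_dvd_left _ _) _
      exact (Nat.dvd_add_right (Nat.gcd_dvd_right _ _)).mp h3
    exact Nat.dvd_one.mp h2
  have hpcop : ¬ p ∣ q ^ 2 - 1 := by
    intro h
    have := Nat.dvd_gcd hpq h
    rw [hcop] at this
    exact hp.one_lt.ne' (Nat.dvd_one.mp this)
  have h2dvd : 2 ∣ q ^ 2 - 1 := by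
    obtain ⟨k, hk⟩ := hqodd
    rw [hk, show (2 * k + 1) ^ 2 = 2 * (2 * k * (k + 1)) + 1 by ring, Nat.add_sub_cancel]
    exact dvd_mul_right _ _
  have hNpos : 0 < N := by
    rw [hN]; exact Nat.mul_pos (by omega) (by omega)
  -- `s 2`
  have hs2 : s 2 = q ^ 2 := by
    obtain ⟨n, hn⟩ := hq2
    rcases Nat.lt_or_ge 2 n with h | h
    · exfalso
      have h1 := heven n h
      rw [hn] at h1
      exact (Nat.not_even_iff_odd.mpr (hqodd.pow)) h1
    · interval_cases n
      · omega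
      · omega
      · exact hn
  -- `s p`
  have hspv : s p = q ^ 2 - 1 := by
    have h1 := hfrob p (hN ▸ dvd_mul_of_dvd_left hpq _)
    rw [hp.sum_divisors, hs1] at h1
    rcases hval p with h | h | h | h
    · exact absurd h hsp
    · rw [h] at h1
      have := Nat.le_of_dvd (by norm_num) h1
      omega
    · exact h
    · have h2 := (Nat.dvd_add_right (hpq.trans h)).mp h1
      exact absurd (Nat.dvd_one.mp h2) hp.one_lt.ne'
  refine ⟨hs2, hspv, ?_⟩
  -- the set `B`
  have hsub : ({1, 2, p} : Finset ℕ) ⊆ N.divisors := by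
    intro n hn
    rw [Finset.mem_insert, Finset.mem_insert, Finset.mem_singleton] at hn
    rw [Nat.mem_divisors]
    refine ⟨?_, hNpos.ne'⟩
    rcases hn with rfl | rfl | rfl
    · exact one_dvd _
    · rw [hN]; exact dvd_mul_of_dvd_right h2dvd _
    · rw [hN]; exact dvd_mul_of_dvd_left hpq _
  have hsum3 : ∑ n ∈ ({1, 2, p} : Finset ℕ), s n = 2 * q ^ 2 := by
    rw [Finset.sum_insert, Finset.sum_insert, Finset.sum_singleton, hs1, hs2, hspv]
    · omega
    · rw [Finset.mem_singleton]; omega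
    · rw [Finset.mem_insert, Finset.mem_singleton]; omega
  have hB := Finset.sum_sdiff (f := s) hsub
  rw [hsum3, hsum] at hB
  set B := N.divisors \ {1, 2, p} with hBdef
  have hBmem : ∀ n ∈ B, 2 < n ∧ n ≠ p := by
    intro n hn
    rw [hBdef, Finset.mem_sdiff, Finset.mem_insert, Finset.mem_insert, Finset.mem_singleton, Nat.mem_divisors] at hn
    obtain ⟨⟨h1, h2⟩, h3⟩ := hn
    have : n ≠ 0 := by
      rintro rfl
      exact h2 (Nat.eq_zero_of_zero_dvd h1)
    push Not at h3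
    refine ⟨?_, h3.2.2⟩
    have := h3.1
    have := h3.2.1
    omega
  -- no `s n = q ^ 2 - 1` in `B`
  have hN2 : N = q * (q ^ 2 - 1 - 2 * q) + 2 * q ^ 2 := by
    have h1 : 2 * q ≤ q ^ 2 - 1 := by
      have : 2 * q + 1 ≤ q ^ 2 := by nlinarith
      omega
    obtain ⟨r, hr⟩ := Nat.exists_eq_add_of_le h1
    rw [hN, hr, Nat.add_sub_cancel_left]
    ring
  have hdB : ∀ n ∈ B, q ∣ s n := by
    have h1 := Finset.sum_filter_add_sum_filter_not B (fun n => s n = q ^ 2 - 1) s
    have h2 : ∑ n ∈ B with s n = q ^ 2 - 1, s n = (B.filter (fun n => s n = q ^ 2 - 1)).card * (q ^ 2 - 1) := by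
      rw [Finset.sum_congr rfl (fun n hn => (Finset.mem_filter.mp hn).2), Finset.sum_const, smul_eq_mul]
    have h3 : ∀ n ∈ B.filter (fun n => ¬ s n = q ^ 2 - 1), q ∣ s n := by
      intro n hn
      obtain ⟨hnB, hn1⟩ := Finset.mem_filter.mp hn
      rcases hval n with h | h | h | h
      · rw [h]; exact dvd_zero _
      · exfalso
        have h4 := heven n (hBmem n hnB).1
        rw [h] at h4
        exact Nat.not_even_one h4
      · exact absurd h hn1
      · exact h
    have h4 : q ∣ (B.filter (fun n => s n = q ^ 2 - 1)).card * (q ^ 2 - 1) := by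
      have h5 : q ∣ ∑ n ∈ B, s n := by
        have : ∑ n ∈ B, s n = q * (q ^ 2 - 1 - 2 * q) := by omega
        rw [this]; exact dvd_mul_right _ _
      rw [← h1, h2] at h5
      exact (Nat.dvd_add_left (Finset.dvd_sum h3)).mp h5
    have h5 : q ∣ (B.filter (fun n => s n = q ^ 2 - 1)).card := hcop.dvd_of_dvd_mul_right h4
    have h6 : (B.filter (fun n => s n = q ^ 2 - 1)).card * (q ^ 2 - 1) < q * (q ^ 2 - 1) := by
      rw [← h2]
      have h7 : ∑ n ∈ B with s n = q ^ 2 - 1, s n ≤ ∑ n ∈ B, s n := by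
        rw [← h1]; exact Nat.le_add_right _ _
      have h8 : 0 < q ^ 2 := by omega
      omega
    have h7 : (B.filter (fun n => s n = q ^ 2 - 1)).card < q := Nat.lt_of_mul_lt_mul_right h6
    have h8 : (B.filter (fun n => s n = q ^ 2 - 1)).card = 0 := Nat.eq_zero_of_dvd_of_lt h5 h7
    rw [Finset.card_eq_zero] at h8
    intro n hn
    apply h3
    rw [Finset.mem_filter]
    refine ⟨hn, fun h => ?_⟩
    have : n ∈ B.filter (fun n => s n = q ^ 2 - 1) := Finset.mem_filter.mpr ⟨hn, h⟩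
    rw [h8] at this
    exact absurd this (Finset.notMem_empty _)
  -- Frobenius with `m = q ^ 2 - 1`
  have hF := hfrob (q ^ 2 - 1) (hN ▸ dvd_mul_left _ _)
  set D := B.filter (fun n => n ∣ q ^ 2 - 1) with hD
  have hdiv : (q ^ 2 - 1).divisors = {1, 2} ∪ D := by
    ext n
    rw [Nat.mem_divisors, Finset.mem_union, Finset.mem_insert, Finset.mem_singleton, hD, Finset.mem_filter,
      hBdef, Finset.mem_sdiff, Nat.mem_divisors, Finset.mem_insert, Finset.mem_insert, Finset.mem_singleton]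
    constructor
    · rintro ⟨h1, h2⟩
      by_cases h3 : n = 1
      · exact Or.inl (Or.inl h3)
      by_cases h4 : n = 2
      · exact Or.inl (Or.inr h4)
      right
      refine ⟨⟨⟨?_, hNpos.ne'⟩, ?_⟩, h1⟩
      · rw [hN]; exact dvd_mul_of_dvd_right h1 _
      · rintro (h | h | h)
        · exact h3 h
        · exact h4 h
        · rw [h] at h1; exact hpcop h1
    · rintro ((rfl | rfl) | ⟨-, h⟩)
      · exact ⟨one_dvd _, by omega⟩
      · exact ⟨h2dvd, by omega⟩
      · exact ⟨h, by omega⟩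
  have hdisj : Disjoint ({1, 2} : Finset ℕ) D := by
    rw [Finset.disjoint_left]
    intro n hn hn2
    rw [Finset.mem_insert, Finset.mem_singleton] at hn
    have := (hBmem n (Finset.mem_filter.mp hn2).1).1
    omega
  rw [hdiv, Finset.sum_union hdisj, Finset.sum_pair (by norm_num), hs1, hs2] at hF
  obtain ⟨X, hX⟩ : q ∣ ∑ n ∈ D, s n := Finset.dvd_sum (fun n hn => hdB n (Finset.mem_filter.mp hn).1)
  have hsplit := Finset.sum_filter_add_sum_filter_not B (fun n => n ∣ q ^ 2 - 1) s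
  rw [← hD, hX] at hsplit
  have hBs : ∑ n ∈ B, s n = q * (q ^ 2 - 1 - 2 * q) := by omega
  have hXle : X ≤ q ^ 2 - 1 - 2 * q := by
    have : q * X ≤ q * (q ^ 2 - 1 - 2 * q) := by
      rw [← hBs, ← hsplit]; exact Nat.le_add_right _ _
    exact Nat.le_of_mul_le_mul_left this (by omega)
  have hXeq : X = q ^ 2 - 1 - 2 * q := by
    rw [hX] at hF
    have h1 : q ^ 2 - 1 ∣ 2 + q * X := by
      have : 1 + q ^ 2 + q * X = (q ^ 2 - 1) + (2 + q * X) := by omega
      rw [this] at hF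
      exact (Nat.dvd_add_right (dvd_refl _)).mp hF
    have h2 : q ^ 2 - 1 ∣ q * (2 + q * X) := dvd_mul_of_dvd_right h1 _
    have h3 : q * (2 + q * X) = (q ^ 2 - 1) * X + (2 * q + X) := by
      obtain ⟨r, hr⟩ : ∃ r, q ^ 2 = r + 1 := ⟨q ^ 2 - 1, by omega⟩
      rw [hr, Nat.add_sub_cancel]
      have : q * (2 + q * X) = 2 * q + q ^ 2 * X := by ring
      rw [this, hr]; ring
    rw [h3] at h2
    have h4 : q ^ 2 - 1 ∣ 2 * q + X := (Nat.dvd_add_right (dvd_mul_right _ _)).mp h2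
    have h5 := Nat.le_of_dvd (by omega) h4
    omega
  have hzero : ∑ n ∈ B with ¬ n ∣ q ^ 2 - 1, s n = 0 := by
    rw [hBs, hXeq] at hsplit
    omega
  intro n hn hsn
  by_cases h1 : n = p
  · exact Or.inl h1
  right
  by_contra h2
  apply hsn
  have h3 : n ∈ B.filter (fun n => ¬ n ∣ q ^ 2 - 1) := by
    rw [Finset.mem_filter, hBdef, Finset.mem_sdiff, Finset.mem_insert, Finset.mem_insert, Finset.mem_singleton]
    refine ⟨⟨hn, ?_⟩, h2⟩
    rintro (rfl | rfl | rfl)
    · exact h2 (one_dvd _)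
    · exact h2 h2dvd
    · exact h1 rfl
  exact (Finset.sum_eq_zero_iff.mp hzero) n h3

section grp

variable {G : Type*} [Group G] [Finite G]

theorem even_order {n : ℕ} (hn : 2 < n) : Even (Nat.card {g : G // orderOf g = n}) := by
  classical
  have := Fintype.ofFinite G
  rw [Nat.card_eq_fintype_card, Fintype.card_subtype]
  have h1 : ∑ x ∈ Finset.univ.filter (fun x : G => orderOf x = n), (1 : ZMod 2) = 0 := by
    apply Finset.sum_involution (fun x _ => x⁻¹)
    · intro a _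
      exact CharTwo.add_self_eq_zero 1
    · intro a ha _ h
      have ha' : orderOf a = n := (Finset.mem_filter.mp ha).2
      have h2 : a ^ 2 = 1 := by
        rw [pow_two]
        nth_rw 1 [← h]
        exact inv_mul_cancel a
      have h3 := Nat.le_of_dvd (by norm_num) (orderOf_dvd_of_pow_eq_one h2)
      omega
    · intro a _
      exact inv_inv a
    · intro a ha
      rw [Finset.mem_filter] at ha ⊢
      exact ⟨Finset.mem_univ _, by rw [orderOf_inv]; exact ha.2⟩
  rw [Finset.sum_const, nsmul_eq_mul, mul_one] at h1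
  exact (ZMod.natCast_eq_zero_iff_even).mp h1

theorem sum_order {m : ℕ} (hm : m ≠ 0) :
    ∑ n ∈ m.divisors, Nat.card {g : G // orderOf g = n} = Nat.card {g : G // g ^ m = 1} := by
  classical
  have := Fintype.ofFinite G
  have h := sum_card_orderOf_eq_card_pow_eq_one (G := G) hm
  rw [Nat.card_eq_fintype_card, Fintype.card_subtype, ← h]
  apply Finset.sum_congr rfl
  intro n _
  rw [Nat.card_eq_fintype_card, Fintype.card_subtype]

theorem group_arith {q p : ℕ} (hq3 : 3 < q) (hqodd : Odd q) (hp : p.Prime) (hpq : p ∣ q)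
    (hN : Nat.card G = q * (q ^ 2 - 1)) (hq2 : ∃ n, Nat.card {g : G // orderOf g = n} = q ^ 2)
    (hval : ∀ n, Nat.card {g : G // orderOf g = n} = 0 ∨ Nat.card {g : G // orderOf g = n} = 1 ∨
      Nat.card {g : G // orderOf g = n} = q ^ 2 - 1 ∨ q ∣ Nat.card {g : G // orderOf g = n}) :
    Nat.card {g : G // orderOf g = 2} = q ^ 2 ∧ Nat.card {g : G // orderOf g = p} = q ^ 2 - 1 ∧
      ∀ g : G, orderOf g = p ∨ orderOf g ∣ q ^ 2 - 1 := by
  have hNpos : Nat.card G ≠ 0 := Nat.card_pos.ne'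
  have h := arith (fun n => Nat.card {g : G // orderOf g = n}) hq3 hqodd hp hpq hN ?_ ?_ ?_ ?_ ?_ ?_ hq2 hval
  · refine ⟨h.1, h.2.1, fun g => ?_⟩
    apply h.2.2 (orderOf g)
    · rw [Nat.mem_divisors]
      exact ⟨orderOf_dvd_natCard g, hNpos⟩
    · have : Nonempty {x : G // orderOf x = orderOf g} := ⟨⟨g, rfl⟩⟩
      exact Nat.card_pos.ne'
  · rw [Nat.card_eq_one_iff_unique]
    refine ⟨⟨fun a b => Subtype.ext ?_⟩, ⟨⟨1, orderOf_one⟩⟩⟩
    rw [orderOf_eq_one_iff.mp a.2, orderOf_eq_one_iff.mp b.2]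
  · rw [Nat.card_eq_zero]
    left
    refine ⟨fun a => ?_⟩
    exact (orderOf_pos a.1).ne' a.2
  · intro n hn
    exact even_order hn
  · show ∑ n ∈ (Nat.card G).divisors, Nat.card {g : G // orderOf g = n} = Nat.card G
    rw [sum_order hNpos]
    exact Nat.card_congr (Equiv.subtypeUnivEquiv (fun g => pow_card_eq_one'))
  · intro m hm
    show m ∣ ∑ n ∈ m.divisors, Nat.card {g : G // orderOf g = n}
    rw [sum_order (fun h0 => hNpos (by rw [h0] at hm; exact Nat.eq_zero_of_zero_dvd hm))]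
    exact H69.FrobCount.frobenius_dvd m hm
  · have : Fact p.Prime := ⟨hp⟩
    obtain ⟨x, hx⟩ := exists_prime_orderOf_dvd_card' (G := G) p (hN ▸ dvd_mul_of_dvd_left hpq _)
    have : Nonempty {x : G // orderOf x = p} := ⟨⟨x, hx⟩⟩
    exact Nat.card_pos.ne'

end grp

end H62.Nse
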