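import Mathlib
import Cfsg.Agent.Lib.H62.NseA

/-! The structure of a group with the same order and the same numbers of elements as `PGL₂(q)`. -/

set_option autoImplicit false

namespace H62.Nse

open Subgroup

/-- the arithmetical information -/
structure Ar (G : Type*) [Group G] (p q e : ℕ) : Prop where
  hp : p.Prime
  he : q = p ^ e
  hodd : Odd q
  h3 : 3 < q
  card : Nat.card G = q * (q ^ 2 - 1)
  inv : Nat.card {g : G // orderOf g = 2} = q ^ 2
  pel : Nat.card {g : G // orderOf g = p} = q ^ 2 - 1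
  ord : ∀ g : G, orderOf g = p ∨ orderOf g ∣ q ^ 2 - 1

namespace Ar

variable {G : Type*} [Group G] [Finite G] {p q e : ℕ} (h : Ar G p q e)

include h

theorem e_ne : e ≠ 0 := by
  rintro rfl
  have := h.he
  have := h.h3
  rw [pow_zero] at *
  omega

theorem hpq : p ∣ q := by
  rw [h.he]; exact dvd_pow_self p h.e_ne

theorem p_ne_two : p ≠ 2 := by
  intro h2
  have h1 := h.hpq
  obtain ⟨k, hk⟩ := h.hodd
  rw [h2] at h1
  omega

theorem nsq : 9 < q ^ 2 := by
  have := h.h3
  nlinarith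

theorem hpc : ¬ p ∣ q ^ 2 - 1 := by
  intro h1
  have h2 : p ∣ q ^ 2 - 1 + 1 := by
    rw [Nat.sub_add_cancel (by have := h.nsq; omega)]
    exact h.hpq.trans (dvd_pow_self q two_ne_zero)
  have h3 := (Nat.dvd_add_right h1).mp h2
  exact h.hp.one_lt.ne' (Nat.dvd_one.mp h3)

/-- elements commuting with an element of order `p` -/
theorem comm {y w : G} (hy : orderOf y = p) (hw : y * w = w * y) : w = 1 ∨ orderOf w = p := by
  by_cases hwp : orderOf w = p
  · exact Or.inr hwp
  left
  have h1 := (h.ord w).resolve_left hwp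
  have hcop : Nat.Coprime (orderOf y) (orderOf w) := by
    rw [hy, Nat.Prime.coprime_iff_not_dvd h.hp]
    exact fun h2 => h.hpc (h2.trans h1)
  have h2 := (show Commute y w from hw).orderOf_mul_eq_mul_orderOf_of_coprime hcop
  rw [hy] at h2
  rcases h.ord (y * w) with h3 | h3
  · rw [h2] at h3
    have : orderOf w = 1 := Nat.eq_of_mul_eq_mul_left h.hp.pos (by rw [h3, mul_one])
    exact orderOf_eq_one_iff.mp this
  · rw [h2] at h3
    exact absurd ((dvd_mul_right _ _).trans h3) h.hpc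

theorem card_cent {y : G} (hy : orderOf y = p) : Nat.card (centralizer ({y} : Set G)) ∣ q := by
  have : Fact p.Prime := ⟨h.hp⟩
  have h1 : IsPGroup p (centralizer ({y} : Set G)) := by
    intro w
    refine ⟨1, ?_⟩
    rw [pow_one]
    have h2 := mem_centralizer_singleton_iff.mp w.2
    rcases h.comm hy h2.symm with h3 | h3
    · apply Subtype.ext
      rw [SubmonoidClass.coe_pow, h3, one_pow, OneMemClass.coe_one]
    · apply Subtype.ext
      rw [SubmonoidClass.coe_pow, ← h3, pow_orderOf_eq_one, OneMemClass.coe_one]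
  obtain ⟨k, hk⟩ := IsPGroup.iff_card.mp h1
  have h2 := Subgroup.card_subgroup_dvd_card (centralizer ({y} : Set G))
  rw [h.card, hk] at h2
  rw [hk]
  refine Nat.Coprime.dvd_of_dvd_mul_right ?_ h2
  exact Nat.Coprime.pow_left _ ((Nat.Prime.coprime_iff_not_dvd h.hp).mpr h.hpc)

theorem card_cent_odd {y : G} (hy : orderOf y = p) : Odd (Nat.card (centralizer ({y} : Set G))) :=
  Odd.of_dvd_nat h.hodd (h.card_cent hy)

end Ar

/-- a Sylow subgroup with a central element -/
structure Cfg (G : Type*) [Group G] (p q e : ℕ) (K : Subgroup G) (z : G) : Prop extends Ar G p q e where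
  cardK : Nat.card K = q
  hz : orderOf z = p
  cz : centralizer ({z} : Set G) = K

theorem Ar.exists_cfg {G : Type*} [Group G] [Finite G] {p q e : ℕ} (h : Ar G p q e) :
    ∃ K z, Cfg G p q e K z := by
  have : Fact p.Prime := ⟨h.hp⟩
  obtain ⟨K, hK⟩ := Sylow.exists_subgroup_card_pow_prime (G := G) p (n := e) (by
    rw [← h.he, h.card]; exact dvd_mul_right _ _)
  have hKp : IsPGroup p K := IsPGroup.of_card hK
  have hnt : Nontrivial K := by
    rw [← Finite.one_lt_card_iff_nontrivial, hK, ← h.he]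
    have := h.h3
    omega
  have hc := hKp.center_nontrivial
  obtain ⟨⟨z, hz⟩, hz1⟩ := exists_ne (1 : center K)
  have hcomm : ∀ k ∈ K, k * (z : G) = (z : G) * k := fun k hk =>
    congrArg Subtype.val (mem_center_iff.mp hz ⟨k, hk⟩)
  have hz1' : (z : G) ≠ 1 := fun h0 => hz1 (Subtype.ext (Subtype.ext h0))
  have hzp : orderOf (z : G) = p := by
    rcases h.ord (z : G) with h1 | h1
    · exact h1
    · exfalso
      obtain ⟨k, hk⟩ := IsPGroup.iff_orderOf.mp hKp z
      rw [← Subgroup.orderOf_coe] at hk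
      rcases Nat.eq_zero_or_pos k with h0 | h0
      · rw [h0, pow_zero, orderOf_eq_one_iff] at hk
        exact hz1' hk
      · rw [hk] at h1
        exact h.hpc ((dvd_pow_self p h0.ne').trans h1)
  refine ⟨K, (z : G), ⟨h, hK.trans h.he.symm, hzp, ?_⟩⟩
  symm
  apply Subgroup.eq_of_le_of_card_ge
  · intro k hk
    rw [mem_centralizer_singleton_iff]
    exact hcomm k hk
  · rw [hK, ← h.he]
    exact Nat.le_of_dvd (by have := h.h3; omega) (h.card_cent hzp)

namespace Cfg

variable {G : Type*} [Group G] [Finite G] {p q e : ℕ} {K : Subgroup G} {z : G} (h : Cfg G p q e K z)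

include h

/-- elements of order `p` are conjugate to `z` -/
theorem conj {y : G} (hy : orderOf y = p) : ∃ g, g * z * g⁻¹ = y := by
  have h1 := card_cls z
  rw [h.cz, h.cardK, h.card, mul_comm] at h1
  have h2 : Nat.card {c : G // ∃ g, g * z * g⁻¹ = c} = q ^ 2 - 1 :=
    Nat.eq_of_mul_eq_mul_left (by have := h.h3; omega) h1
  have h3 : {c : G | ∃ g, g * z * g⁻¹ = c} ⊆ {c : G | orderOf c = p} := by
    rintro _ ⟨g, rfl⟩
    exact ((MulAut.conj g).orderOf_eq z).trans h.hz
  have h4 : {c : G | ∃ g, g * z * g⁻¹ = c} = {c : G | orderOf c = p} := by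
    apply Set.eq_of_subset_of_ncard_le h3
    have e1 : ({c : G | orderOf c = p}).ncard = q ^ 2 - 1 := h.pel
    have e2 : ({c : G | ∃ g, g * z * g⁻¹ = c}).ncard = q ^ 2 - 1 := h2
    rw [e1, e2]
  have h5 : y ∈ {c : G | orderOf c = p} := hy
  rw [← h4] at h5
  exact h5

theorem ordK {y : G} (hy : y ∈ K) (hy1 : y ≠ 1) : orderOf y = p := by
  rw [← h.cz, mem_centralizer_singleton_iff] at hy
  exact (h.comm h.hz hy.symm).resolve_left hy1

theorem zK : z ∈ K := by
  rw [← h.cz, mem_centralizer_singleton_iff]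

theorem z_ne : z ≠ 1 := by
  intro h0
  have := h.hz
  rw [h0, orderOf_one] at this
  exact h.hp.one_lt.ne this

theorem conj_mem {g x : G} (hx : x ∈ K) : g * x * g⁻¹ ∈ centralizer ({g * z * g⁻¹} : Set G) := by
  rw [← h.cz, mem_centralizer_singleton_iff] at hx
  rw [mem_centralizer_singleton_iff]
  calc g * x * g⁻¹ * (g * z * g⁻¹) = g * (x * z) * g⁻¹ := by group
    _ = g * (z * x) * g⁻¹ := by rw [hx]
    _ = _ := by group

theorem exists_t : ∃ t : G, orderOf t = 2 ∧ t ∈ normalizer (K : Set G) := by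
  obtain ⟨g, hg⟩ := h.conj (y := z⁻¹) (by rw [orderOf_inv]; exact h.hz)
  have hgN : g ∈ normalizer (K : Set G) := by
    have h1 : ∀ x ∈ K, g * x * g⁻¹ ∈ K := by
      intro x hx
      have h2 := h.conj_mem (g := g) hx
      rw [hg] at h2
      rw [← h.cz]
      rw [mem_centralizer_singleton_iff] at h2 ⊢
      have h3 : Commute (g * x * g⁻¹) z⁻¹ := h2
      exact (Commute.inv_right_iff.mp h3).eq
    exact mem_normalizer_fintype h1
  have heven : Even (orderOf g) := by
    rw [← Nat.not_odd_iff_even]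
    rintro ⟨k, hk⟩
    have h1 : Commute (g ^ 2) z := by
      show g ^ 2 * z = z * g ^ 2
      have h2 : g * z = z⁻¹ * g := mul_inv_eq_iff_eq_mul.mp hg
      have h3 : g * z⁻¹ = z * g := by
        have h4 : g * z⁻¹ * g⁻¹ = z := by
          calc g * z⁻¹ * g⁻¹ = (g * z * g⁻¹)⁻¹ := by group
            _ = z := by rw [hg, inv_inv]
        exact mul_inv_eq_iff_eq_mul.mp h4
      rw [pow_two, mul_assoc, h2, ← mul_assoc, h3, mul_assoc]
    have h2 : (g ^ 2) ^ (k + 1) = g := by
      rw [← pow_mul, show 2 * (k + 1) = orderOf g + 1 by omega, pow_succ, pow_orderOf_eq_one, one_mul]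
    have h3 : Commute g z := by
      rw [← h2]; exact h1.pow_left _
    have h4 : z⁻¹ = z := by
      rw [← hg, h3.eq]; group
    have h5 : z ^ 2 = 1 := by
      rw [pow_two]
      nth_rw 1 [← h4]
      exact inv_mul_cancel z
    have h6 := orderOf_dvd_of_pow_eq_one h5
    rw [h.hz] at h6
    exact h.p_ne_two ((Nat.prime_dvd_prime_iff_eq h.hp Nat.prime_two).mp h6)
  obtain ⟨m, hm⟩ := heven
  have hpos := orderOf_pos g
  refine ⟨g ^ m, ?_, Subgroup.pow_mem _ hgN _⟩
  rw [orderOf_pow_of_dvd (by omega) (by rw [hm]; exact ⟨2, by ring⟩), hm]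
  rw [← two_mul]
  exact Nat.mul_div_cancel _ (by omega)

/-- an involution normalising `K` inverts it -/
theorem inverts {s : G} (hs : orderOf s = 2) (hsN : s ∈ normalizer (K : Set G)) {k : G} (hk : k ∈ K) :
    s * k * s⁻¹ = k⁻¹ := by
  have hs2 : s * s = 1 := by rw [← pow_two, ← hs]; exact pow_orderOf_eq_one s
  have hsi : s⁻¹ = s := inv_eq_of_mul_eq_one_right hs2
  have hmem : ∀ x : K, s * (x : G) * s⁻¹ ∈ K := fun x => (mem_normalizer_iff.mp hsN x).mp x.2
  let φ : K →* K := MonoidHom.mk' (fun x => ⟨s * (x : G) * s⁻¹, hmem x⟩) (fun x y => Subtype.ext (by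
    show s * ((x : G) * y) * s⁻¹ = s * x * s⁻¹ * (s * y * s⁻¹)
    group))
  have hφ : MonoidHom.FixedPointFree φ := by
    intro x hx
    have h1 : s * (x : G) * s⁻¹ = x := congrArg Subtype.val hx
    by_contra hx1
    have hx1' : (x : G) ≠ 1 := fun h0 => hx1 (Subtype.ext h0)
    have h2 := h.comm (h.ordK x.2 hx1') (mul_inv_eq_iff_eq_mul.mp h1).symm
    rcases h2 with h3 | h3
    · rw [h3, orderOf_one] at hs
      omega
    · rw [hs] at h3
      exact h.p_ne_two h3.symm
  have hinv : Function.Involutive φ := by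
    intro x
    apply Subtype.ext
    show s * (s * (x : G) * s⁻¹) * s⁻¹ = x
    rw [hsi]
    calc s * (s * (x : G) * s) * s = (s * s) * x * (s * s) := by group
      _ = x := by rw [hs2, one_mul, mul_one]
  have h4 := congrFun (hφ.coe_eq_inv_of_involutive hinv) ⟨k, hk⟩
  exact congrArg Subtype.val h4

theorem commK {a b : G} (ha : a ∈ K) (hb : b ∈ K) : a * b = b * a := by
  obtain ⟨t, ht, htN⟩ := h.exists_t
  have h1 := h.inverts ht htN ha
  have h2 := h.inverts ht htN hb
  have h3 := h.inverts ht htN (K.mul_mem hb ha)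
  have h4 : t * (b * a) * t⁻¹ = (t * b * t⁻¹) * (t * a * t⁻¹) := by group
  rw [h3, h1, h2, mul_inv_rev, ← mul_inv_rev, ← mul_inv_rev] at h4
  exact (inv_injective h4).symm

theorem cent_eq {y : G} (hy : y ∈ K) (hy1 : y ≠ 1) : centralizer ({y} : Set G) = K := by
  symm
  apply Subgroup.eq_of_le_of_card_ge
  · intro k hk
    rw [mem_centralizer_singleton_iff]
    exact h.commK hk hy
  · rw [h.cardK]
    exact Nat.le_of_dvd (by have := h.h3; omega) (h.card_cent (h.ordK hy hy1))

theorem ti (g : G) (hg : K ⊓ K.map (MulAut.conj g).toMonoidHom ≠ ⊥) : K.map (MulAut.conj g).toMonoidHom = K := by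
  obtain ⟨⟨y, hyK, hyg⟩, hy1⟩ := (Subgroup.ne_bot_iff_exists_ne_one).mp hg
  have hy1' : y ≠ 1 := fun h0 => hy1 (Subtype.ext h0)
  obtain ⟨k, hk, hky⟩ := hyg
  have hky' : g * k * g⁻¹ = y := hky
  have hk1 : k ≠ 1 := by
    rintro rfl
    apply hy1'
    rw [← hky']; group
  apply Subgroup.eq_of_le_of_card_ge
  · rintro _ ⟨x, hx, rfl⟩
    show g * x * g⁻¹ ∈ K
    rw [← h.cent_eq hyK hy1', mem_centralizer_singleton_iff]
    have hx' : x ∈ K := hx
    have hk' : k ∈ K := hk
    calc g * x * g⁻¹ * y = g * (x * k) * g⁻¹ := by rw [← hky']; group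
      _ = g * (k * x) * g⁻¹ := by rw [h.commK hx' hk']
      _ = y * (g * x * g⁻¹) := by rw [← hky']; group
  · rw [Subgroup.card_map_of_injective (MulAut.conj g).injective]

theorem fac {t : G} (ht : orderOf t = 2) (htN : t ∈ normalizer (K : Set G)) :
    K ⊔ (normalizer (K : Set G) ⊓ centralizer ({t} : Set G)) = normalizer (K : Set G) := by
  apply le_antisymm
  · exact sup_le (le_normalizer) inf_le_left
  intro g hg
  have ht2 : t * t = 1 := by rw [← pow_two, ← ht]; exact pow_orderOf_eq_one t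
  have hti : t⁻¹ = t := inv_eq_of_mul_eq_one_right ht2
  set s := g * t * g⁻¹ with hs
  have hs2 : orderOf s = 2 := ((MulAut.conj g).orderOf_eq t).trans ht
  have hsN : s ∈ normalizer (K : Set G) := mul_mem (mul_mem hg htN) (inv_mem hg)
  have hu : t * s ∈ K := by
    rw [← h.cz, mem_centralizer_singleton_iff]
    have h1 := h.inverts hs2 hsN h.zK
    have h2 := h.inverts ht htN (K.inv_mem h.zK)
    rw [inv_inv] at h2
    have h3 : t * s * z * (t * s)⁻¹ = z := by
      calc t * s * z * (t * s)⁻¹ = t * (s * z * s⁻¹) * t⁻¹ := by group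
        _ = z := by rw [h1, h2]
    exact mul_inv_eq_iff_eq_mul.mp h3
  -- a square root of `t * s`
  obtain ⟨v, hv, hv2⟩ : ∃ v ∈ K, v ^ 2 = (t * s)⁻¹ := by
    have hcop : (Nat.card K).Coprime 2 := by
      rw [h.cardK]; exact (Nat.coprime_two_right.mpr h.hodd)
    obtain ⟨v, hv⟩ := (powCoprime hcop).surjective ⟨(t * s)⁻¹, K.inv_mem hu⟩
    refine ⟨v, v.2, ?_⟩
    exact congrArg Subtype.val hv
  have h1 : v * t * v⁻¹ = s := by
    have h2 := h.inverts ht htN (K.inv_mem hv)
    rw [inv_inv, hti] at h2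
    have h3 : v * t = t * v⁻¹ := by
      calc v * t = (t * v⁻¹ * t) * t := by rw [h2]
        _ = t * v⁻¹ * (t * t) := by group
        _ = t * v⁻¹ := by rw [ht2, mul_one]
    have h4 : v⁻¹ * v⁻¹ = t * s := by
      rw [← mul_inv_rev, ← pow_two, hv2, inv_inv]
    rw [h3, mul_assoc, h4, ← mul_assoc, ht2, one_mul]
  have h5 : v⁻¹ * g ∈ normalizer (K : Set G) ⊓ centralizer ({t} : Set G) := by
    refine Subgroup.mem_inf.mpr ⟨Subgroup.mul_mem _ (Subgroup.inv_mem _ (le_normalizer hv)) hg, ?_⟩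
    rw [mem_centralizer_singleton_iff]
    have h6 : g * t = v * t * v⁻¹ * g := by
      rw [h1, hs]; group
    rw [mul_assoc, h6]
    group
  have h7 : g = v * (v⁻¹ * g) := by group
  rw [h7]
  exact mul_mem (mem_sup_left hv) (mem_sup_right h5)

end Cfg

end H62.Nse
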