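import Mathlib
import Cfsg.Prelude.Def_LieRecognition
import Cfsg.Agent.Lib.H6.RankOne
import Cfsg.Agent.Lib.H37.Invol

/-!
Groups with one class of involutions whose centralisers look like those of `PGU₃(q)`, `q` even:
the Sylow 2-subgroups are disjoint, `G` is doubly transitive on them and is in the rank one set-up.
-/

set_option autoImplicit false
set_option linter.unusedSimpArgs false
set_option linter.unusedVariables false

namespace H62.PG

open Subgroup

/-- involution -/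
def Inv {G : Type*} [Group G] (t : G) : Prop := t ≠ 1 ∧ t * t = 1

theorem Inv.inv_eq {G : Type*} [Group G] {t : G} (h : Inv t) : t⁻¹ = t :=
  inv_eq_of_mul_eq_one_left h.2

theorem Inv.order {G : Type*} [Group G] {t : G} (h : Inv t) : orderOf t = 2 :=
  H37.Invol.order_two_of_mul_self h.2 h.1

theorem Inv.conj {G : Type*} [Group G] {t : G} (h : Inv t) (g : G) : Inv (g * t * g⁻¹) := by
  refine ⟨fun h1 => h.1 ?_, ?_⟩
  · calc t = g⁻¹ * (g * t * g⁻¹) * g := by group
      _ = 1 := by rw [h1]; group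
  · calc g * t * g⁻¹ * (g * t * g⁻¹) = g * (t * t) * g⁻¹ := by group
      _ = 1 := by rw [h.2]; group

/-- local structure at the involution `t` -/
structure Loc {G A : Type*} [Group G] [CommGroup A] (q : ℕ) (t : G)
    (χ : centralizer ({t} : Set G) →* A) : Prop where
  card_ker : Nat.card χ.ker = q ^ 3
  card_C : Nat.card (centralizer ({t} : Set G)) = q ^ 3 * (q + 1)
  central : ∀ x y : centralizer ({t} : Set G), Inv x → x * y = y * x
  count : Nat.card {x : centralizer ({t} : Set G) // Inv x} = q - 1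
  comm : ∀ x y : centralizer ({t} : Set G), χ x = 1 → χ y ≠ 1 → x * y = y * x → x * x = 1

structure Ctx (G A : Type*) [Group G] [CommGroup A] (n q : ℕ) : Prop where
  hn : 2 ≤ n
  hq : q = 2 ^ n
  cyc : IsCyclic A
  conj : ∀ s t : G, Inv s → Inv t → ∃ g : G, g * s * g⁻¹ = t
  loc : ∀ t : G, Inv t → ∃ χ : centralizer ({t} : Set G) →* A, Loc q t χ
  nn : ∀ S : Sylow 2 G, ¬ (S : Subgroup G).Normal
  ev : Even (Nat.card G)

section arith

variable {n q : ℕ} (hn : 2 ≤ n) (hq : q = 2 ^ n)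
include hn hq

theorem four_le : 4 ≤ q := by
  rw [hq]; calc 4 = 2 ^ 2 := by norm_num
    _ ≤ 2 ^ n := Nat.pow_le_pow_right (by norm_num) hn

theorem even_q : Even q := by rw [hq]; exact (Nat.even_pow.mpr ⟨even_two, by omega⟩)

theorem odd_succ : Odd (q + 1) := (even_q hn hq).add_one

theorem odd_pred : Odd (q - 1) := by
  have h := four_le hn hq
  exact Nat.Even.sub_odd (by omega) (even_q hn hq) odd_one

theorem coprime_pred_succ : Nat.Coprime (q - 1) (q + 1) := by
  have h := four_le hn hq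
  have h1 : q + 1 = (q - 1) + 2 := by omega
  rw [h1, Nat.coprime_self_add_right]
  exact (odd_pred hn hq).coprime_two_right

end arith

/-- the centraliser of the involutions of `S` -/
def CI {G : Type*} [Group G] (S : Subgroup G) : Subgroup G := centralizer {t : G | t ∈ S ∧ Inv t}

section one

variable {G A : Type*} [Group G] [Finite G] [CommGroup A] {n q : ℕ}

/-- 2-elements of the centraliser are in the kernel -/
theorem ker_of_two (hn : 2 ≤ n) (hq : q = 2 ^ n) {t : G} {χ : centralizer ({t} : Set G) →* A}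
    (L : Loc q t χ) {x : centralizer ({t} : Set G)} {k : ℕ} (hx : x ^ (2 ^ k) = 1) : χ x = 1 := by
  have h4 := four_le hn hq
  have h1 : Nat.card χ.range = q + 1 := by
    have h2 := Subgroup.card_mul_index χ.ker
    rw [Subgroup.index_ker, L.card_ker, L.card_C] at h2
    exact Nat.eq_of_mul_eq_mul_left (by positivity) h2
  have h3 : orderOf (χ x) ∣ q + 1 := by
    rw [← h1]
    exact Subgroup.orderOf_dvd_natCard _ ⟨x, rfl⟩
  have h5 : orderOf (χ x) ∣ 2 ^ k := by
    apply orderOf_dvd_of_pow_eq_one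
    rw [← map_pow, hx, map_one]
  have h6 : Nat.Coprime (q + 1) (2 ^ k) := Nat.Coprime.pow_right k (odd_succ hn hq).coprime_two_right
  have h7 := Nat.dvd_gcd h3 h5
  rw [h6] at h7
  exact orderOf_eq_one_iff.mp (Nat.dvd_one.mp h7)

/-- local data of a Sylow 2-subgroup -/
structure SylData (q : ℕ) (S : Subgroup G) (χ : CI S →* A) : Prop where
  cent : ∀ t ∈ S, Inv t → centralizer ({t} : Set G) = CI S
  mem : ∀ x (h : x ∈ CI S), x ∈ S ↔ χ ⟨x, h⟩ = 1
  le : S ≤ CI S
  cardS : Nat.card S = q ^ 3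
  cardC : Nat.card (CI S) = q ^ 3 * (q + 1)
  invC : ∀ t ∈ CI S, Inv t → t ∈ S
  count : Nat.card {x : G // x ∈ S ∧ Inv x} = q - 1
  comm : ∀ x y, x ∈ S → y ∈ CI S → y ∉ S → x * y = y * x → x * x = 1
  two : ∀ x ∈ CI S, (∃ k, x ^ (2 ^ k) = 1) → x ∈ S
  range : Nat.card χ.range = q + 1

variable (c : Ctx G A n q)
include c

theorem exists_central (S : Sylow 2 G) : ∃ z : G, Inv z ∧ z ∈ S ∧ ∀ x ∈ S, x * z = z * x := by
  have : Fact (Nat.Prime 2) := ⟨Nat.prime_two⟩
  have h1 : 2 ∣ Nat.card G := even_iff_two_dvd.mp c.ev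
  have h2 : Nontrivial S := by
    have := Sylow.ne_bot_of_dvd_card S h1
    exact (Subgroup.nontrivial_iff_ne_bot _).mpr this
  have h3 : IsPGroup 2 S := S.isPGroup'
  have h4 : Nontrivial (Subgroup.center S) := h3.center_nontrivial
  have h5 : IsPGroup 2 (Subgroup.center S) := h3.to_subgroup _
  obtain ⟨k, hk⟩ := (IsPGroup.iff_card (p := 2)).mp h5
  have h6 : 2 ∣ Nat.card (Subgroup.center S) := by
    have : 1 < Nat.card (Subgroup.center S) := Finite.one_lt_card
    rw [hk] at this ⊢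
    rcases k with _ | k
    · simp at this
    · exact dvd_pow_self 2 (by omega)
  obtain ⟨z, hz⟩ := exists_prime_orderOf_dvd_card' 2 h6
  refine ⟨((z : S) : G), ⟨?_, ?_⟩, (z : S).2, ?_⟩
  · intro h
    have : z = 1 := Subtype.ext (Subtype.ext h)
    rw [this, orderOf_one] at hz
    omega
  · have : z * z = 1 := H37.Invol.mul_self_of_order_two hz
    exact congrArg (fun w : Subgroup.center S => ((w : S) : G)) this
  · intro x hx
    have := (Subgroup.mem_center_iff.mp z.2) ⟨x, hx⟩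
    exact congrArg Subtype.val this

theorem exists_data (S : Sylow 2 G) : ∃ χ : CI (S : Subgroup G) →* A, SylData q (S : Subgroup G) χ := by
  have : Fact (Nat.Prime 2) := ⟨Nat.prime_two⟩
  have hn := c.hn
  have hq := c.hq
  have h4 := four_le hn hq
  obtain ⟨z, hz, hzS, hzc⟩ := exists_central c S
  obtain ⟨χ, L⟩ := c.loc z hz
  have hle : (S : Subgroup G) ≤ centralizer ({z} : Set G) := by
    intro x hx
    rw [mem_centralizer_singleton_iff]
    exact hzc x hx
  have htwo : ∀ x ∈ S, ∃ k, x ^ (2 ^ k) = 1 := by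
    intro x hx
    obtain ⟨k, hk⟩ := S.isPGroup' ⟨x, hx⟩
    exact ⟨k, congrArg Subtype.val hk⟩
  -- `S` is the image of the kernel
  have hker : (S : Subgroup G) = χ.ker.map (centralizer ({z} : Set G)).subtype := by
    have h1 : (S : Subgroup G) ≤ χ.ker.map (centralizer ({z} : Set G)).subtype := by
      intro x hx
      refine ⟨⟨x, hle hx⟩, ?_, rfl⟩
      obtain ⟨k, hk⟩ := htwo x hx
      exact ker_of_two hn hq L (k := k) (Subtype.ext hk)
    have h2 : IsPGroup 2 (χ.ker.map (centralizer ({z} : Set G)).subtype) := by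
      apply IsPGroup.of_card (n := 3 * n)
      rw [Nat.card_congr (Subgroup.equivMapOfInjective _ _ (Subtype.val_injective)).symm.toEquiv, L.card_ker, hq,
        ← pow_mul, mul_comm]
    exact (S.is_maximal' h2 h1).symm
  have hmem : ∀ x : G, x ∈ (S : Subgroup G) ↔ ∃ h : x ∈ centralizer ({z} : Set G), χ ⟨x, h⟩ = 1 := by
    intro x
    constructor
    · intro hx
      obtain ⟨k, hk⟩ := htwo x hx
      exact ⟨hle hx, ker_of_two hn hq L (k := k) (Subtype.ext hk)⟩
    · rintro ⟨h, hx⟩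
      rw [hker]
      exact ⟨⟨x, h⟩, hx, rfl⟩
  -- centralisers of involutions
  have hcent : ∀ t ∈ (S : Subgroup G), Inv t → centralizer ({t} : Set G) = centralizer ({z} : Set G) := by
    intro t ht hti
    have h1 : centralizer ({z} : Set G) ≤ centralizer ({t} : Set G) := by
      intro y hy
      rw [mem_centralizer_singleton_iff]
      have h2 := L.central ⟨t, hle ht⟩ ⟨y, hy⟩ ⟨fun h => hti.1 (congrArg Subtype.val h), Subtype.ext hti.2⟩
      exact (congrArg Subtype.val h2).symm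
    obtain ⟨χ', L'⟩ := c.loc t hti
    exact (Subgroup.eq_of_le_of_card_ge h1 (by rw [L.card_C, L'.card_C])).symm
  have hCI : CI (S : Subgroup G) = centralizer ({z} : Set G) := by
    apply le_antisymm
    · intro x hx
      rw [mem_centralizer_singleton_iff]
      exact ((mem_centralizer_iff.mp hx) z ⟨hzS, hz⟩).symm
    · intro x hx
      rw [CI, mem_centralizer_iff]
      intro t ht
      have h1 := hcent t ht.1 ht.2
      rw [← h1, mem_centralizer_singleton_iff] at hx
      exact hx.symm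
  have hinv : ∀ t ∈ centralizer ({z} : Set G), Inv t → t ∈ (S : Subgroup G) := by
    intro t ht hti
    rw [hmem]
    refine ⟨ht, ker_of_two hn hq L (k := 1) (Subtype.ext ?_)⟩
    show t ^ (2 ^ 1) = 1
    rw [pow_one, pow_two]; exact hti.2
  let e : CI (S : Subgroup G) ≃* centralizer ({z} : Set G) := MulEquiv.subgroupCongr hCI
  refine ⟨χ.comp e.toMonoidHom, ?_, ?_, ?_, ?_, ?_, ?_, ?_, ?_, ?_, ?_⟩
  · intro t ht hti
    rw [hcent t ht hti, hCI]
  · intro x h
    rw [hmem]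
    constructor
    · rintro ⟨h', h1⟩
      exact h1
    · intro h1
      exact ⟨hCI ▸ h, h1⟩
  · rw [hCI]; exact hle
  · rw [hker, Nat.card_congr (Subgroup.equivMapOfInjective _ _ (Subtype.val_injective)).symm.toEquiv, L.card_ker]
  · rw [hCI, L.card_C]
  · rw [hCI]; exact hinv
  · rw [← L.count]
    apply Nat.card_congr
    refine ⟨fun x => ⟨⟨x.1, hle x.2.1⟩, fun h => x.2.2.1 (congrArg Subtype.val h), Subtype.ext x.2.2.2⟩,
      fun x => ⟨x.1.1, hinv _ x.1.2 ⟨fun h => x.2.1 (Subtype.ext h), congrArg Subtype.val x.2.2⟩,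
        fun h => x.2.1 (Subtype.ext h), congrArg Subtype.val x.2.2⟩, ?_, ?_⟩
    · intro x; rfl
    · intro x; rfl
  · intro x y hx hy hyS hxy
    rw [hCI] at hy
    have h1 := L.comm ⟨x, hle hx⟩ ⟨y, hy⟩ ((hmem x).mp hx).2 (fun h => hyS ((hmem y).mpr ⟨hy, h⟩)) (Subtype.ext hxy)
    exact congrArg Subtype.val h1
  · rintro x hx ⟨k, hk⟩
    rw [hCI] at hx
    rw [hmem]
    exact ⟨hx, ker_of_two hn hq L (k := k) (Subtype.ext hk)⟩
  · have h1 : (χ.comp e.toMonoidHom).range = χ.range := by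
      ext a
      constructor
      · rintro ⟨x, rfl⟩; exact ⟨e x, rfl⟩
      · rintro ⟨x, rfl⟩; exact ⟨e.symm x, by simp⟩
    rw [h1]
    have h2 := Subgroup.card_mul_index χ.ker
    rw [Subgroup.index_ker, L.card_ker, L.card_C] at h2
    exact Nat.eq_of_mul_eq_mul_left (by positivity) h2

theorem eq_of_mem {S T : Sylow 2 G} {t : G} (ht : Inv t) (hS : t ∈ S) (hT : t ∈ T) : S = T := by
  obtain ⟨χ, dS⟩ := exists_data c S
  obtain ⟨χ', dT⟩ := exists_data c T
  have h1 : CI (S : Subgroup G) = CI (T : Subgroup G) := by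
    rw [← dS.cent t hS ht, ← dT.cent t hT ht]
  have h2 : (T : Subgroup G) ≤ S := by
    intro x hx
    apply dS.two x
    · rw [h1]; exact dT.le hx
    · obtain ⟨k, hk⟩ := T.isPGroup' ⟨x, hx⟩
      exact ⟨k, congrArg Subtype.val hk⟩
  apply Sylow.ext
  exact (T.is_maximal' S.isPGroup' h2)

omit c in
theorem mem_smul {S : Sylow 2 G} {g x : G} : x ∈ g • S ↔ g⁻¹ * x * g ∈ S := by
  show x ∈ ((g • S : Sylow 2 G) : Subgroup G) ↔ g⁻¹ * x * g ∈ (S : Subgroup G)
  rw [Sylow.coe_subgroup_smul, Subgroup.mem_pointwise_smul_iff_inv_smul_mem, ← map_inv]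
  simp [MulAut.smul_def, MulAut.conj_apply]

omit c [Finite G] in
theorem stab_iff {S : Sylow 2 G} {g : G} : g • S = S ↔ ∀ x, x ∈ S ↔ g * x * g⁻¹ ∈ S := by
  rw [Sylow.smul_eq_iff_mem_normalizer]
  show g ∈ normalizer ((S : Subgroup G) : Set G) ↔ _
  rw [Subgroup.mem_normalizer_iff]
  rfl

omit c [Finite G] in
theorem conj_mem_smul {S : Sylow 2 G} {g x : G} (hx : x ∈ S) : g * x * g⁻¹ ∈ g • S := by
  show g * x * g⁻¹ ∈ ((g • S : Sylow 2 G) : Subgroup G)
  rw [Sylow.coe_subgroup_smul, Subgroup.mem_pointwise_smul_iff_inv_smul_mem, ← map_inv]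
  have h : (MulAut.conj g⁻¹) • (g * x * g⁻¹) = x := by
    rw [MulAut.smul_def, MulAut.conj_apply]; group
  rw [h]; exact hx

/-- an involution fixes only its own Sylow subgroup -/
theorem mem_of_fix {S : Sylow 2 G} {t : G} (ht : Inv t) (h : t • S = S) : t ∈ S := by
  rw [Sylow.smul_eq_iff_mem_normalizer] at h
  have h1 : IsPGroup 2 (zpowers t) := by
    apply IsPGroup.of_card (n := 1)
    rw [Nat.card_zpowers, ht.order, pow_one]
  have h2 := IsPGroup.inf_normalizer_sylow h1 S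
  have h3 : t ∈ zpowers t ⊓ normalizer (S : Set G) := ⟨mem_zpowers t, h⟩
  rw [h2] at h3
  exact h3.2

omit c [Finite G] in
theorem fix_of_mem {S : Sylow 2 G} {t : G} (h : t ∈ S) : t • S = S := by
  rw [Sylow.smul_eq_iff_mem_normalizer]
  exact Subgroup.le_normalizer h

theorem exists_inv (S : Sylow 2 G) : ∃ z : G, Inv z ∧ z ∈ S := by
  obtain ⟨z, h1, h2, _⟩ := exists_central c S
  exact ⟨z, h1, h2⟩

omit c in
theorem exists_syl {t : G} (ht : Inv t) : ∃ S : Sylow 2 G, t ∈ S := by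
  have : Fact (Nat.Prime 2) := ⟨Nat.prime_two⟩
  have h1 : IsPGroup 2 (zpowers t) := by
    apply IsPGroup.of_card (n := 1)
    rw [Nat.card_zpowers, ht.order, pow_one]
  obtain ⟨S, hS⟩ := h1.exists_le_sylow
  exact ⟨S, hS (mem_zpowers t)⟩

/-- commuting involutions lie in the same Sylow subgroup -/
theorem mem_of_comm {S : Sylow 2 G} {s t : G} (hs : Inv s) (ht : Inv t) (h : s * t = t * s) (hsS : s ∈ S) :
    t ∈ S := by
  obtain ⟨χ, dS⟩ := exists_data c S
  apply dS.invC t _ ht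
  rw [← dS.cent s hsS hs, mem_centralizer_singleton_iff]
  exact h.symm

/-- involutions of different Sylow subgroups are swapped by an involution -/
theorem swap {S T : Sylow 2 G} (hST : S ≠ T) {x y : G} (hx : Inv x) (hxS : x ∈ S) (hy : Inv y) (hyT : y ∈ T) :
    ∃ u : G, Inv u ∧ u * x * u = y ∧ (∀ g, g * x = x * g → g * y = y * g → g * u = u * g) ∧ u • S = T ∧ u • T = S := by
  have hodd : Odd (orderOf (y * x)) := by
    rcases H37.Invol.odd_or_exists hy.order hx.order with h | ⟨t, -, h1, h2, h3⟩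
    · exact h
    · exfalso
      have ht : Inv t := ⟨fun h => by rw [h, orderOf_one] at h1; omega, H37.Invol.mul_self_of_order_two h1⟩
      obtain ⟨U, hU⟩ := exists_syl ht
      have e1 : y ∈ U := mem_of_comm c ht hy h2.symm hU
      have e2 : x ∈ U := mem_of_comm c ht hx h3.symm hU
      exact hST ((eq_of_mem c hx hxS e2).trans (eq_of_mem c hy hyT e1).symm)
  obtain ⟨u, h1, h2, h3⟩ := H6.RankOne.exists_mid hx.2 hy.2 hodd
  have hxy : x ≠ y := fun h => hST (eq_of_mem c hx hxS (h ▸ hyT))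
  have hu : Inv u := ⟨fun h => hxy (by rw [h] at h2; simpa using h2), h1⟩
  have e1 : u • S = T := by
    have h4 : u * x * u⁻¹ ∈ u • S := conj_mem_smul hxS
    rw [hu.inv_eq, h2] at h4
    exact eq_of_mem c hy h4 hyT
  refine ⟨u, hu, h2, h3, e1, ?_⟩
  rw [← e1, smul_smul, h1, one_smul]

/-- `D` is transitive on the involutions of `S` -/
theorem trans_inv {S T : Sylow 2 G} (hST : S ≠ T) {x x' : G} (hx : Inv x) (hxS : x ∈ S) (hx' : Inv x')
    (hxS' : x' ∈ S) : ∃ d : G, d • S = S ∧ d • T = T ∧ d * x * d⁻¹ = x' ∧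
      ∀ g, g ∈ CI (S : Subgroup G) → g ∈ CI (T : Subgroup G) → g * d = d * g := by
  obtain ⟨y, hy, hyT⟩ := exists_inv c T
  obtain ⟨u, hu, h1, h2, h3, h4⟩ := swap c hST hx hxS hy hyT
  obtain ⟨v, hv, k1, k2, k3, k4⟩ := swap c hST hx' hxS' hy hyT
  have key : ∀ (R : Sylow 2 G) {g w : G}, g ∈ CI (R : Subgroup G) → w ∈ R → Inv w → g * w = w * g := by
    intro R g w hg hw hwi
    exact ((mem_centralizer_iff.mp hg) w ⟨hw, hwi⟩).symm
  refine ⟨v * u, ?_, ?_, ?_, ?_⟩
  · rw [mul_smul, h3, k4]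
  · rw [mul_smul, h4, k3]
  · rw [mul_inv_rev, hu.inv_eq, hv.inv_eq]
    calc v * u * x * (u * v) = v * (u * x * u) * v := by group
      _ = v * (v * x' * v) * v := by rw [h1, k1]
      _ = (v * v) * x' * (v * v) := by group
      _ = x' := by rw [hv.2]; group
  · intro g hgS hgT
    have e1 : g * u = u * g := h2 g (key S hgS hxS hx) (key T hgT hyT hy)
    have e2 : g * v = v * g := k2 g (key S hgS hxS' hx') (key T hgT hyT hy)
    rw [← mul_assoc, e2, mul_assoc, e1, mul_assoc]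

theorem CI_fix {S : Sylow 2 G} {g : G} (hg : g ∈ CI (S : Subgroup G)) : g • S = S := by
  obtain ⟨χ, dS⟩ := exists_data c S
  rw [stab_iff]
  have key : ∀ g ∈ CI (S : Subgroup G), ∀ x ∈ S, g * x * g⁻¹ ∈ S := by
    intro g hg x hx
    have hx' : x ∈ CI (S : Subgroup G) := dS.le hx
    have h1 : g * x * g⁻¹ ∈ CI (S : Subgroup G) := mul_mem (mul_mem hg hx') (inv_mem hg)
    refine (dS.mem _ h1).mpr ?_
    have h2 : (⟨g * x * g⁻¹, h1⟩ : CI (S : Subgroup G)) = ⟨g, hg⟩ * ⟨x, hx'⟩ * ⟨g, hg⟩⁻¹ := rfl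
    rw [h2, map_mul, map_mul, (dS.mem x hx').mp hx, mul_one, map_inv, mul_inv_cancel]
  intro x
  refine ⟨key g hg x, fun h => ?_⟩
  have := key g⁻¹ (inv_mem hg) _ h
  have h3 : g⁻¹ * (g * x * g⁻¹) * g⁻¹⁻¹ = x := by group
  rwa [h3] at this

omit c [Finite G] in
theorem CI_conj {S : Sylow 2 G} {g x : G} (hx : x ∈ CI (S : Subgroup G)) :
    g * x * g⁻¹ ∈ CI ((g • S : Sylow 2 G) : Subgroup G) := by
  rw [CI, mem_centralizer_iff] at hx ⊢
  rintro t ⟨ht, hti⟩
  have h1 : g⁻¹ * t * g ∈ (S : Subgroup G) := by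
    have h2 := conj_mem_smul (g := g⁻¹) (S := g • S) ht
    rw [inv_smul_smul, inv_inv] at h2
    exact h2
  have h3 : Inv (g⁻¹ * t * g) := by simpa using hti.conj g⁻¹
  have h4 := hx _ ⟨h1, h3⟩
  calc t * (g * x * g⁻¹) = g * (g⁻¹ * t * g * x) * g⁻¹ := by group
    _ = g * (x * (g⁻¹ * t * g)) * g⁻¹ := by rw [h4]
    _ = g * x * g⁻¹ * t := by group

omit c [Finite G] in
theorem CI_conj' {S : Sylow 2 G} {g x : G} (hg : g • S = S) (hx : x ∈ CI (S : Subgroup G)) :
    g * x * g⁻¹ ∈ CI (S : Subgroup G) := by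
  have := CI_conj (g := g) hx
  rwa [hg] at this

/-- the two-point stabiliser -/
def DD (S T : Sylow 2 G) : Subgroup G := MulAction.stabilizer G S ⊓ MulAction.stabilizer G T

omit c [Finite G] in
theorem mem_DD {S T : Sylow 2 G} {g : G} : g ∈ DD S T ↔ g • S = S ∧ g • T = T := Iff.rfl

omit c in
/-- orbit-stabiliser for conjugation -/
theorem card_of_trans {D C : Subgroup G} {I : Set G} {x0 : G} (h0 : x0 ∈ I)
    (hI : ∀ d ∈ D, d * x0 * d⁻¹ ∈ I) (htr : ∀ x ∈ I, ∃ d ∈ D, d * x0 * d⁻¹ = x)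
    (hst : ∀ d ∈ D, (d * x0 * d⁻¹ = x0 ↔ d ∈ C)) :
    Nat.card D = Nat.card I * Nat.card (D ⊓ C : Subgroup G) := by
  have h1 := Subgroup.card_mul_index (C.subgroupOf D)
  have h2 : (C.subgroupOf D).index = Nat.card I := by
    rw [Subgroup.index]
    apply Nat.card_congr
    let f : D ⧸ (C.subgroupOf D) → I := Quotient.lift (fun d : D => (⟨d * x0 * (d : G)⁻¹, hI d d.2⟩ : I)) (by
      intro a b hab
      have h3 : a⁻¹ * b ∈ C.subgroupOf D := QuotientGroup.leftRel_apply.mp hab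
      have h4 := (hst _ (a⁻¹ * b).2).mpr h3
      apply Subtype.ext
      show (a : G) * x0 * (a : G)⁻¹ = b * x0 * (b : G)⁻¹
      have h5 : ((a : G)⁻¹ * b) * x0 * ((a : G)⁻¹ * b)⁻¹ = x0 := h4
      calc (a : G) * x0 * (a : G)⁻¹ = a * (((a : G)⁻¹ * b) * x0 * ((a : G)⁻¹ * b)⁻¹) * (a : G)⁻¹ := by rw [h5]
        _ = b * x0 * (b : G)⁻¹ := by group)
    apply Equiv.ofBijective f
    constructor
    · intro a b hab
      induction a using QuotientGroup.induction_on with | _ a => ?_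
      induction b using QuotientGroup.induction_on with | _ b => ?_
      rw [QuotientGroup.eq]
      have h3 : (a : G) * x0 * (a : G)⁻¹ = b * x0 * (b : G)⁻¹ := congrArg Subtype.val hab
      refine (hst _ (a⁻¹ * b).2).mp ?_
      show ((a : G)⁻¹ * b) * x0 * ((a : G)⁻¹ * b)⁻¹ = x0
      calc ((a : G)⁻¹ * b) * x0 * ((a : G)⁻¹ * b)⁻¹ = (a : G)⁻¹ * (b * x0 * (b : G)⁻¹) * a := by group
        _ = (a : G)⁻¹ * ((a : G) * x0 * (a : G)⁻¹) * a := by rw [h3]
        _ = x0 := by group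
    · rintro ⟨x, hx⟩
      obtain ⟨d, hd, h3⟩ := htr x hx
      exact ⟨QuotientGroup.mk ⟨d, hd⟩, Subtype.ext h3⟩
  have h3 : Nat.card (C.subgroupOf D) = Nat.card (D ⊓ C : Subgroup G) := by
    rw [inf_comm, ← Subgroup.subgroupOf_map_subtype]
    exact Nat.card_congr (Subgroup.equivMapOfInjective _ _ (Subtype.val_injective)).toEquiv
  rw [← h1, h2, h3, mul_comm]

/-- |D| = (q-1) |D ∩ C| -/
theorem card_DD {S T : Sylow 2 G} (hST : S ≠ T) :
    Nat.card (DD S T) = (q - 1) * Nat.card (DD S T ⊓ CI (S : Subgroup G) : Subgroup G) := by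
  obtain ⟨χ, dS⟩ := exists_data c S
  obtain ⟨x, hx, hxS⟩ := exists_inv c S
  rw [← dS.count]
  refine card_of_trans (I := {x : G | x ∈ (S : Subgroup G) ∧ Inv x}) (x0 := x) ⟨hxS, hx⟩ ?_ ?_ ?_
  · intro d hd
    have h := (mem_DD.mp hd).1
    exact ⟨(stab_iff.mp h x).mp hxS, hx.conj d⟩
  · rintro y ⟨hyS, hy⟩
    obtain ⟨d, h1, h2, h3, -⟩ := trans_inv c hST hx hxS hy hyS
    exact ⟨d, ⟨h1, h2⟩, h3⟩
  · intro d hd
    rw [← dS.cent x hxS hx, mem_centralizer_singleton_iff]
    constructor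
    · intro h; calc d * x = d * x * d⁻¹ * d := by group
        _ = x * d := by rw [h]
    · intro h; rw [h]; group

/-- order of the point stabiliser -/
theorem card_stab (S : Sylow 2 G) :
    Nat.card (MulAction.stabilizer G S) = (q - 1) * (q ^ 3 * (q + 1)) := by
  obtain ⟨χ, dS⟩ := exists_data c S
  obtain ⟨x, hx, hxS⟩ := exists_inv c S
  obtain ⟨T, hTS⟩ : ∃ T : Sylow 2 G, T ≠ S := by
    by_contra h
    push Not at h
    have : Subsingleton (Sylow 2 G) := ⟨fun A B => (h A).trans (h B).symm⟩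
    exact c.nn S (Sylow.normal_of_subsingleton S)
  have h1 : MulAction.stabilizer G S ⊓ CI (S : Subgroup G) = CI (S : Subgroup G) :=
    inf_eq_right.mpr (fun x hx => CI_fix c hx)
  rw [← dS.cardC, ← dS.count, ← h1]
  refine card_of_trans (I := {x : G | x ∈ (S : Subgroup G) ∧ Inv x}) (x0 := x) ⟨hxS, hx⟩ ?_ ?_ ?_
  · intro d hd
    exact ⟨(stab_iff.mp hd x).mp hxS, hx.conj d⟩
  · rintro y ⟨hyS, hy⟩
    obtain ⟨d, h1, h2, h3, -⟩ := trans_inv c hTS.symm hx hxS hy hyS
    exact ⟨d, h1, h3⟩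
  · intro d hd
    rw [← dS.cent x hxS hx, mem_centralizer_singleton_iff]
    constructor
    · intro h; calc d * x = d * x * d⁻¹ * d := by group
        _ = x * d := by rw [h]
    · intro h; rw [h]; group

theorem odd_DD {S T : Sylow 2 G} (hST : S ≠ T) : Odd (Nat.card (DD S T)) := by
  have : Fact (Nat.Prime 2) := ⟨Nat.prime_two⟩
  by_contra h
  rw [Nat.not_odd_iff_even, even_iff_two_dvd] at h
  obtain ⟨d, hd⟩ := exists_prime_orderOf_dvd_card' 2 h
  have h1 : Inv (d : G) := by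
    have h2 : orderOf (d : G) = 2 := by rw [Subgroup.orderOf_coe]; exact hd
    exact ⟨fun h => by rw [h, orderOf_one] at h2; omega, H37.Invol.mul_self_of_order_two h2⟩
  exact hST (eq_of_mem c h1 (mem_of_fix c h1 d.2.1) (mem_of_fix c h1 d.2.2))

end one

end H62.PG
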