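import Mathlib
import Cfsg.Agent.Lib.H62.PGU3A

/-!
Double transitivity on the Sylow 2-subgroups.
-/

set_option autoImplicit false
set_option linter.unusedSimpArgs false
set_option linter.unusedVariables false
set_option linter.unusedSectionVars false

namespace H62.PG

open Subgroup
open scoped Pointwise

section gen

variable {G : Type*} [Group G] [Finite G]

/-- two subgroups of full `ℓ`-power order of `M` are conjugate in `M` -/
theorem conj_of_card {M P P' : Subgroup G} (hP : P ≤ M) (hP' : P' ≤ M) {ℓ : ℕ} (hℓ : ℓ.Prime)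
    (hc : Nat.card P = ℓ ^ (Nat.card M).factorization ℓ) (hc' : Nat.card P' = ℓ ^ (Nat.card M).factorization ℓ) :
    ∃ m ∈ M, ∀ x, x ∈ P ↔ m * x * m⁻¹ ∈ P' := by
  have : Fact ℓ.Prime := ⟨hℓ⟩
  have e1 : Nat.card (P.subgroupOf M) = Nat.card P :=
    Nat.card_congr (Subgroup.subgroupOfEquivOfLe hP).toEquiv
  have e2 : Nat.card (P'.subgroupOf M) = Nat.card P' :=
    Nat.card_congr (Subgroup.subgroupOfEquivOfLe hP').toEquiv
  let A : Sylow ℓ M := Sylow.ofCard (P.subgroupOf M) (by rw [e1, hc])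
  let B : Sylow ℓ M := Sylow.ofCard (P'.subgroupOf M) (by rw [e2, hc'])
  obtain ⟨m, hm⟩ := MulAction.exists_smul_eq M A B
  refine ⟨m, m.2, fun x => ?_⟩
  have h1 : ((m • A : Sylow ℓ M) : Subgroup M) = (B : Subgroup M) := by rw [hm]
  rw [Sylow.coe_subgroup_smul] at h1
  have h2 : (A : Subgroup M) = P.subgroupOf M := rfl
  have h3 : (B : Subgroup M) = P'.subgroupOf M := rfl
  rw [h2, h3] at h1
  constructor
  · intro hx
    have h4 : (⟨x, hP hx⟩ : M) ∈ P.subgroupOf M := hx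
    have h5 : MulAut.conj m • (⟨x, hP hx⟩ : M) ∈ MulAut.conj m • P.subgroupOf M :=
      Subgroup.smul_mem_pointwise_smul _ _ _ h4
    rw [h1] at h5
    exact h5
  · intro hx
    have hxM : x ∈ M := by
      have h6 := M.mul_mem (M.mul_mem (M.inv_mem m.2) (hP' hx)) m.2
      have h7 : (m : G)⁻¹ * ((m : G) * x * (m : G)⁻¹) * m = x := by group
      rwa [h7] at h6
    have h5 : MulAut.conj m • (⟨x, hxM⟩ : M) ∈ P'.subgroupOf M := hx
    rw [← h1, Subgroup.smul_mem_pointwise_smul_iff] at h5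
    exact h5

/-- an involution without fixed points inverts -/
theorem inverts {P : Subgroup G} {s : G} (hs : Inv s) (hn : ∀ x ∈ P, s * x * s ∈ P)
    (hf : ∀ x ∈ P, s * x * s = x → x = 1) {x : G} (hx : x ∈ P) : s * x * s = x⁻¹ := by
  let φ : P →* P :=
    { toFun := fun x => ⟨s * x * s, hn x x.2⟩
      map_one' := Subtype.ext (by simp [hs.2])
      map_mul' := by
        intro a b
        apply Subtype.ext
        show s * (a * b) * s = s * a * s * (s * b * s)
        calc s * (a * b) * s = s * a * 1 * b * s := by group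
          _ = s * a * (s * s) * b * s := by rw [hs.2]
          _ = s * a * s * (s * b * s) := by group }
  have h1 : MonoidHom.FixedPointFree φ := by
    intro g hg
    apply Subtype.ext
    exact hf g g.2 (congrArg Subtype.val hg)
  have h2 : Function.Involutive φ := by
    intro g
    apply Subtype.ext
    show s * (s * g * s) * s = g
    calc s * (s * g * s) * s = (s * s) * g * (s * s) := by group
      _ = g := by rw [hs.2]; group
  have h3 := congrFun (h1.coe_eq_inv_of_involutive h2) ⟨x, hx⟩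
  exact congrArg Subtype.val h3

end gen

section two

variable {G A : Type*} [Group G] [Finite G] [CommGroup A] {n q : ℕ} (c : Ctx G A n q)
include c

theorem card_D0_dvd {S T : Sylow 2 G} (hST : S ≠ T) :
    Nat.card (DD S T ⊓ CI (S : Subgroup G) : Subgroup G) ∣ q + 1 := by
  obtain ⟨χ, dS⟩ := exists_data c S
  rw [← dS.range]
  let φ : (DD S T ⊓ CI (S : Subgroup G) : Subgroup G) →* χ.range :=
    χ.rangeRestrict.comp (Subgroup.inclusion inf_le_right)
  apply Subgroup.card_dvd_of_injective φ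
  rw [injective_iff_map_eq_one]
  intro x hx
  have h1 : χ ⟨x, x.2.2⟩ = 1 := congrArg Subtype.val hx
  have h2 : (x : G) ∈ S := (dS.mem x x.2.2).mpr h1
  obtain ⟨k, hk⟩ := S.isPGroup' ⟨x, h2⟩
  have h3 : (x : G) ^ (2 ^ k) = 1 := congrArg Subtype.val hk
  have h4 : Odd (orderOf (x : G)) := H6.RankOne.odd_orderOf_of_mem (odd_DD c hST) x.2.1
  have h5 : orderOf (x : G) ∣ 2 ^ k := orderOf_dvd_of_pow_eq_one h3
  have h6 : Nat.Coprime (orderOf (x : G)) (2 ^ k) := Nat.Coprime.pow_right k h4.coprime_two_right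
  have h7 : orderOf (x : G) = 1 := Nat.dvd_one.mp (by rw [← h6]; exact Nat.dvd_gcd dvd_rfl h5)
  exact Subtype.ext (orderOf_eq_one_iff.mp h7)

variable {ℓ : ℕ} (hℓ : ℓ.Prime) (hd : ℓ ∣ q - 1)
include hℓ hd

theorem l_coprime : Nat.Coprime ℓ (q + 1) ∧ ℓ ≠ 2 := by
  have h1 := coprime_pred_succ c.hn c.hq
  refine ⟨h1.coprime_dvd_left hd, ?_⟩
  rintro rfl
  have := odd_pred c.hn c.hq
  rw [Nat.odd_iff] at this
  omega

theorem fact_of_dvd {m : ℕ} (hm : m ∣ q + 1) (hm0 : m ≠ 0) : ((q - 1) * m).factorization ℓ = (q - 1).factorization ℓ := by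
  have h4 := four_le c.hn c.hq
  rw [Nat.factorization_mul (by omega) hm0, Finsupp.add_apply]
  have h1 : m.factorization ℓ = 0 := by
    apply Nat.factorization_eq_zero_of_not_dvd
    intro h
    have h2 := (l_coprime c hℓ hd).1
    have h3 : ℓ ∣ q + 1 := h.trans hm
    rw [Nat.Prime.coprime_iff_not_dvd hℓ] at h2
    exact h2 h3
  rw [h1, add_zero]

theorem fact_DD {S T : Sylow 2 G} (hST : S ≠ T) :
    (Nat.card (DD S T)).factorization ℓ = (q - 1).factorization ℓ := by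
  rw [card_DD c hST]
  exact fact_of_dvd c hℓ hd (card_D0_dvd c hST) Nat.card_pos.ne'

theorem fact_stab (S : Sylow 2 G) :
    (Nat.card (MulAction.stabilizer G S)).factorization ℓ = (q - 1).factorization ℓ := by
  have h4 := four_le c.hn c.hq
  have h2 := l_coprime c hℓ hd
  rw [card_stab c S, Nat.factorization_mul (by omega) (by positivity), Finsupp.add_apply]
  have h1 : (q ^ 3 * (q + 1)).factorization ℓ = 0 := by
    apply Nat.factorization_eq_zero_of_not_dvd
    intro h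
    rw [Nat.Prime.coprime_iff_not_dvd hℓ] at h2
    rcases (Nat.Prime.dvd_mul hℓ).mp h with h | h
    · have h5 := hℓ.dvd_of_dvd_pow h
      rw [c.hq] at h5
      have h6 := hℓ.dvd_of_dvd_pow h5
      exact h2.2 ((Nat.prime_dvd_prime_iff_eq hℓ Nat.prime_two).mp h6)
    · exact h2.1 h
  rw [h1, add_zero]

/-- no nontrivial `ℓ`-element commutes with an involution -/
theorem l_free {t x : G} (ht : Inv t) {k : ℕ} (hx : x ^ (ℓ ^ k) = 1) (hxt : x * t = t * x) : x = 1 := by
  have h2 := l_coprime c hℓ hd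
  have h4 := four_le c.hn c.hq
  obtain ⟨χ, L⟩ := c.loc t ht
  have h1 : orderOf x ∣ q ^ 3 * (q + 1) := by
    rw [← L.card_C]
    exact Subgroup.orderOf_dvd_natCard _ (mem_centralizer_singleton_iff.mpr hxt)
  have h3 : orderOf x ∣ ℓ ^ k := orderOf_dvd_of_pow_eq_one hx
  have h5 : Nat.Coprime (ℓ ^ k) (q ^ 3 * (q + 1)) := by
    apply Nat.Coprime.pow_left
    apply Nat.Coprime.mul_right _ h2.1
    apply Nat.Coprime.pow_right
    rw [c.hq]
    apply Nat.Coprime.pow_right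
    exact (Nat.coprime_primes hℓ Nat.prime_two).mpr h2.2
  have h6 := Nat.dvd_gcd h3 h1
  rw [h5] at h6
  exact orderOf_eq_one_iff.mp (Nat.dvd_one.mp h6)

variable {P : Subgroup G} (hP : Nat.card P = ℓ ^ (q - 1).factorization ℓ)
include hP

theorem P_pow {x : G} (hx : x ∈ P) : x ^ (ℓ ^ (q - 1).factorization ℓ) = 1 := by
  have h := Subgroup.orderOf_dvd_natCard P hx
  rw [hP] at h
  exact orderOf_dvd_iff_pow_eq_one.mp h

theorem P_ne : ∃ x ∈ P, x ≠ 1 := by
  by_contra h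
  push Not at h
  have h1 : P = ⊥ := (Subgroup.eq_bot_iff_forall P).mpr h
  rw [h1, Subgroup.card_bot] at hP
  have h4 := four_le c.hn c.hq
  have h2 : 0 < (q - 1).factorization ℓ := hℓ.factorization_pos_of_dvd (by omega) hd
  have h3 : 1 < ℓ ^ (q - 1).factorization ℓ := Nat.one_lt_pow (by omega) hℓ.one_lt
  omega

theorem P_inv {s : G} (hs : Inv s) (hn : s ∈ normalizer (P : Set G)) {x : G} (hx : x ∈ P) : s * x * s = x⁻¹ := by
  rw [Subgroup.mem_normalizer_iff] at hn
  apply inverts hs _ _ hx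
  · intro y hy
    have := (hn y).mp hy
    rwa [hs.inv_eq] at this
  · intro y hy h
    apply l_free c hℓ hd hs (P_pow c hℓ hd hP hy)
    calc y * s = s * y * s * s := by rw [h]
      _ = s * y := by rw [mul_assoc, hs.2, mul_one]

/-- pairs of fixed points of `P` are swapped by an involution of `N(P)` -/
theorem P_swap {U V : Sylow 2 G} (hUV : U ≠ V) (hU : ∀ x ∈ P, x • U = U) (hV : ∀ x ∈ P, x • V = V) :
    ∃ s : G, Inv s ∧ s ∈ normalizer (P : Set G) ∧ s • U = V ∧ s • V = U := by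
  obtain ⟨x, hx, hxU⟩ := exists_inv c U
  obtain ⟨y, hy, hyV⟩ := exists_inv c V
  obtain ⟨u, hu, -, -, h3, h4⟩ := swap c hUV hx hxU hy hyV
  have hPD : P ≤ DD U V := fun x hx => ⟨hU x hx, hV x hx⟩
  have hPD' : P.map (MulAut.conj u).toMonoidHom ≤ DD U V := by
    rintro _ ⟨x, hx, rfl⟩
    show u * x * u⁻¹ ∈ DD U V
    rw [hu.inv_eq, mem_DD]
    constructor
    · rw [mul_smul, mul_smul, h3, hV x hx, h4]
    · rw [mul_smul, mul_smul, h4, hU x hx, h3]
  have hc' : Nat.card (P.map (MulAut.conj u).toMonoidHom) = ℓ ^ (Nat.card (DD U V)).factorization ℓ := by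
    rw [fact_DD c hℓ hd hUV, ← hP]
    exact (Nat.card_congr (Subgroup.equivMapOfInjective _ _ (MulAut.conj u).injective).toEquiv).symm
  obtain ⟨d, hd1, hd2⟩ := conj_of_card hPD' hPD hℓ hc' (by rw [fact_DD c hℓ hd hUV, hP])
  have hg : d * u ∈ normalizer (P : Set G) := by
    rw [Subgroup.mem_normalizer_iff]
    intro x
    have h5 : x ∈ P ↔ u * x * u⁻¹ ∈ P.map (MulAut.conj u).toMonoidHom := by
      constructor
      · intro h; exact ⟨x, h, rfl⟩
      · rintro ⟨y, hy, h⟩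
        have h6 : u * y * u⁻¹ = u * x * u⁻¹ := h
        have h7 : y = x := by
          calc y = u⁻¹ * (u * y * u⁻¹) * u := by group
            _ = u⁻¹ * (u * x * u⁻¹) * u := by rw [h6]
            _ = x := by group
        rw [← h7]; exact hy
    rw [h5, hd2]
    have h8 : d * (u * x * u⁻¹) * d⁻¹ = d * u * x * (d * u)⁻¹ := by group
    rw [h8]
  set g := d * u with hgdef
  have hgU : g • U = V := by rw [hgdef, mul_smul, h3, (mem_DD.mp hd1).2]
  have hgV : g • V = U := by rw [hgdef, mul_smul, h4, (mem_DD.mp hd1).1]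
  have hg2 : g * g ∈ DD U V := by
    rw [mem_DD]; constructor
    · rw [mul_smul, hgU, hgV]
    · rw [mul_smul, hgV, hgU]
  obtain ⟨j, hj⟩ := H6.RankOne.odd_orderOf_of_mem (odd_DD c hUV) hg2
  have hj2 : ∀ i : ℕ, (g * g) ^ i ∈ DD U V := fun i => pow_mem hg2 i
  have hpow : g ^ (2 * j + 1) = g * (g * g) ^ j := by
    rw [pow_succ', pow_mul, pow_two]
  have hsU : g ^ (2 * j + 1) • U = V := by
    rw [hpow, mul_smul, (mem_DD.mp (hj2 j)).1, hgU]
  have hsV : g ^ (2 * j + 1) • V = U := by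
    rw [hpow, mul_smul, (mem_DD.mp (hj2 j)).2, hgV]
  refine ⟨g ^ (2 * j + 1), ⟨?_, ?_⟩, pow_mem hg _, hsU, hsV⟩
  · intro h
    rw [h, one_smul] at hsU
    exact hUV hsU
  · rw [← (Commute.refl g).mul_pow, ← hj]
    exact pow_orderOf_eq_one _

/-- no involution of `N(P)` has a fixed point among the fixed points of `P` -/
theorem P_nofix {U : Sylow 2 G} (hU : ∀ x ∈ P, x • U = U) {s : G} (hs : Inv s) (hn : s ∈ normalizer (P : Set G))
    (h : s • U = U) : False := by
  have hsU : s ∈ U := mem_of_fix c hs h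
  obtain ⟨x, hx, hx1⟩ := P_ne c hℓ hd hP
  have h1 : x * s * x⁻¹ ∈ U := (stab_iff.mp (hU x hx) s).mp hsU
  have h2 := P_inv c hℓ hd hP hs hn hx
  have h3 : x * s * x⁻¹ * s = x * x := by
    calc x * s * x⁻¹ * s = x * (s * x⁻¹ * s) := by group
      _ = x * (s * (s * x * s) * s) := by rw [h2]
      _ = x * ((s * s) * x * (s * s)) := by group
      _ = x * x := by rw [hs.2]; group
  have h4 : x * x ∈ U := by rw [← h3]; exact mul_mem h1 hsU
  obtain ⟨k, hk⟩ := U.isPGroup' ⟨x * x, h4⟩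
  have h5 : (x * x) ^ (2 ^ k) = 1 := congrArg Subtype.val hk
  have h6 : x ^ (2 ^ (k + 1)) = 1 := by
    rw [pow_succ', pow_mul, pow_two]; exact h5
  have h7 := P_pow c hℓ hd hP hx
  have h8 : Nat.Coprime (2 ^ (k + 1)) (ℓ ^ (q - 1).factorization ℓ) := by
    apply Nat.Coprime.pow
    exact (Nat.coprime_primes Nat.prime_two hℓ).mpr (l_coprime c hℓ hd).2.symm
  have h9 := Nat.dvd_gcd (orderOf_dvd_of_pow_eq_one h6) (orderOf_dvd_of_pow_eq_one h7)
  rw [h8] at h9
  exact hx1 (orderOf_eq_one_iff.mp (Nat.dvd_one.mp h9))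

/-- `P` has at most two fixed points -/
theorem P_two {U V W : Sylow 2 G} (hUV : U ≠ V) (hU : ∀ x ∈ P, x • U = U) (hV : ∀ x ∈ P, x • V = V)
    (hW : ∀ x ∈ P, x • W = W) : W = U ∨ W = V := by
  classical
  have : Fact (Nat.Prime 2) := ⟨Nat.prime_two⟩
  by_contra hcon
  push Not at hcon
  obtain ⟨hWU, hWV⟩ := hcon
  let F : Set (Sylow 2 G) := {Z | ∀ x ∈ P, x • Z = Z}
  let O : Subgroup G := centralizer (P : Set G)
  have hO : ∀ {s r : G}, Inv s → s ∈ normalizer (P : Set G) → Inv r → r ∈ normalizer (P : Set G) → r * s ∈ O := by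
    intro s r hs hsn hr hrn
    rw [mem_centralizer_iff]
    intro x hx
    have h1 := P_inv c hℓ hd hP hs hsn hx
    have h2 := P_inv c hℓ hd hP hr hrn (inv_mem hx)
    have h3 : (r * s) * x * (r * s)⁻¹ = x := by
      rw [mul_inv_rev, hs.inv_eq, hr.inv_eq]
      calc r * s * x * (s * r) = r * (s * x * s) * r := by group
        _ = x := by rw [h1, h2, inv_inv]
    calc x * (r * s) = (r * s) * x * (r * s)⁻¹ * (r * s) := by rw [h3]
      _ = r * s * x := by group
  have hOodd : Odd (Nat.card O) := by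
    by_contra h
    rw [Nat.not_odd_iff_even, even_iff_two_dvd] at h
    obtain ⟨t, ht⟩ := exists_prime_orderOf_dvd_card' 2 h
    have h1 : Inv (t : G) := by
      have h2 : orderOf (t : G) = 2 := by rw [Subgroup.orderOf_coe]; exact ht
      exact ⟨fun h => by rw [h, orderOf_one] at h2; omega, H37.Invol.mul_self_of_order_two h2⟩
    obtain ⟨x, hx, hx1⟩ := P_ne c hℓ hd hP
    exact hx1 (l_free c hℓ hd h1 (P_pow c hℓ hd hP hx) ((mem_centralizer_iff.mp t.2) x hx))
  have hOF : ∀ o ∈ O, ∀ Z ∈ F, o • Z ∈ F := by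
    intro o ho Z hZ x hx
    rw [smul_smul, (mem_centralizer_iff.mp ho) x hx, mul_smul, hZ x hx]
  -- one orbit
  have htrans : ∀ Z ∈ F, ∀ Y ∈ F, ∃ o ∈ O, o • Z = Y := by
    intro Z hZ Y hY
    by_cases hZY : Z = Y
    · exact ⟨1, one_mem _, by rw [one_smul, hZY]⟩
    have h3 : ∃ X ∈ F, X ≠ Z ∧ X ≠ Y := by
      by_contra hno
      push Not at hno
      have a1 := hno U hU
      have a2 := hno V hV
      have a3 := hno W hW
      by_cases e1 : U = Z
      · by_cases e2 : V = Z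
        · exact hUV (e1.trans e2.symm)
        · have e3 := a2 e2
          by_cases e4 : W = Z
          · exact hWU (e4.trans e1.symm)
          · exact hWV ((a3 e4).trans e3.symm)
      · have e5 := a1 e1
        by_cases e2 : V = Z
        · by_cases e4 : W = Z
          · exact hWV (e4.trans e2.symm)
          · exact hWU ((a3 e4).trans e5.symm)
        · exact hUV (e5.trans (a2 e2).symm)
    obtain ⟨X, hX, hXZ, hXY⟩ := h3
    obtain ⟨s, hs, hsn, hs1, -⟩ := P_swap c hℓ hd hP (Ne.symm hXZ) hZ hX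
    obtain ⟨r, hr, hrn, hr1, -⟩ := P_swap c hℓ hd hP hXY hX hY
    exact ⟨r * s, hO hs hsn hr hrn, by rw [mul_smul, hs1, hr1]⟩
  have horb : MulAction.orbit O U = F := by
    ext Z
    constructor
    · rintro ⟨o, rfl⟩
      exact hOF o o.2 U hU
    · intro hZ
      obtain ⟨o, ho, h⟩ := htrans U hU Z hZ
      exact ⟨⟨o, ho⟩, h⟩
  have hFodd : Odd (Nat.card F) := by
    have h1 : Nat.card F ∣ Nat.card O := by
      rw [← horb, Nat.card_coe_set_eq, ← MulAction.index_stabilizer]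
      exact Subgroup.index_dvd_card _
    exact Odd.of_dvd_nat hOodd h1
  obtain ⟨s, hs, hsn, hs1, hs2⟩ := P_swap c hℓ hd hP hUV hU hV
  have hsF : ∀ Z ∈ F, s • Z ∈ F := by
    intro Z hZ x hx
    have h1 : s⁻¹ * x * s ∈ P := by
      have := (Subgroup.mem_normalizer_iff.mp (inv_mem hsn) x).mp hx
      simpa using this
    rw [smul_smul]
    have h2 : x * s = s * (s⁻¹ * x * s) := by group
    rw [h2, mul_smul, hZ _ h1]
  let σ : Equiv.Perm F :=
    { toFun := fun Z => ⟨s • (Z : Sylow 2 G), hsF Z Z.2⟩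
      invFun := fun Z => ⟨s • (Z : Sylow 2 G), hsF Z Z.2⟩
      left_inv := fun Z => Subtype.ext (by
        show s • s • (Z : Sylow 2 G) = Z
        rw [smul_smul, hs.2, one_smul])
      right_inv := fun Z => Subtype.ext (by
        show s • s • (Z : Sylow 2 G) = Z
        rw [smul_smul, hs.2, one_smul]) }
  have : Fintype F := Fintype.ofFinite F
  have hσ : σ ^ 2 ^ 1 = 1 := by
    refine Equiv.ext fun Z => Subtype.ext ?_
    rw [pow_one, pow_two, Equiv.Perm.mul_apply]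
    show s • s • (Z : Sylow 2 G) = Z
    rw [smul_smul, hs.2, one_smul]
  obtain ⟨Z, hZ⟩ := Equiv.Perm.exists_fixed_point_of_prime (p := 2) (n := 1)
    (by rw [← Nat.card_eq_fintype_card]; exact hFodd.not_two_dvd_nat) hσ
  exact P_nofix c hℓ hd hP Z.2 hs hsn (congrArg Subtype.val hZ)

omit hP in
/-- existence of `P` -/
theorem exists_P {S T : Sylow 2 G} (hST : S ≠ T) :
    ∃ P : Subgroup G, P ≤ DD S T ∧ Nat.card P = ℓ ^ (q - 1).factorization ℓ := by
  have : Fact ℓ.Prime := ⟨hℓ⟩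
  obtain ⟨P0⟩ : Nonempty (Sylow ℓ (DD S T)) := inferInstance
  refine ⟨(P0 : Subgroup (DD S T)).map (DD S T).subtype, ?_, ?_⟩
  · rintro _ ⟨x, _, rfl⟩
    exact x.2
  · rw [← Nat.card_congr (Subgroup.equivMapOfInjective (P0 : Subgroup (DD S T)) _ (Subtype.val_injective)).toEquiv,
      ← fact_DD c hℓ hd hST]
    exact P0.card_eq_multiplicity

omit hP in
/-- `G_S` is transitive on the other Sylow 2-subgroups -/
theorem trans_stab {S T U : Sylow 2 G} (hST : T ≠ S) (hSU : U ≠ S) : ∃ g : G, g • S = S ∧ g • T = U := by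
  obtain ⟨P, hP1, hP2⟩ := exists_P c hℓ hd (Ne.symm hST)
  obtain ⟨P', hP1', hP2'⟩ := exists_P c hℓ hd (Ne.symm hSU)
  have hle : ∀ {R : Sylow 2 G}, DD S R ≤ MulAction.stabilizer G S := fun h => h.1
  obtain ⟨g, hg1, hg2⟩ := conj_of_card (M := MulAction.stabilizer G S) (hP1.trans inf_le_left) (hP1'.trans inf_le_left)
    hℓ (by rw [fact_stab c hℓ hd S, hP2]) (by rw [fact_stab c hℓ hd S, hP2'])
  refine ⟨g, hg1, ?_⟩
  have h1 : ∀ x ∈ P', x • g • T = g • T := by
    intro x hx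
    have h2 : g⁻¹ * x * g ∈ P := by
      rw [hg2]
      have h3 : g * (g⁻¹ * x * g) * g⁻¹ = x := by group
      rw [h3]; exact hx
    rw [smul_smul, show x * g = g * (g⁻¹ * x * g) by group, mul_smul, (hP1 h2).2]
  rcases P_two c hℓ hd hP2' (Ne.symm hSU) (fun x hx => (hP1' hx).1) (fun x hx => (hP1' hx).2) h1 with h | h
  · exfalso
    apply hST
    have : g • T = g • S := h.trans (MulAction.mem_stabilizer_iff.mp hg1).symm
    exact smul_left_cancel g this
  · exact h

end two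

section three

variable {G A : Type*} [Group G] [Finite G] [CommGroup A] {n q : ℕ} (c : Ctx G A n q)
include c

theorem exists_l : ∃ ℓ : ℕ, ℓ.Prime ∧ ℓ ∣ q - 1 := by
  have h4 := four_le c.hn c.hq
  exact Nat.exists_prime_and_dvd (by omega)

/-- `G` is doubly transitive on its Sylow 2-subgroups -/
theorem two_trans : MulAction.IsMultiplyPretransitive G (Sylow 2 G) 2 := by
  have : Fact (Nat.Prime 2) := ⟨Nat.prime_two⟩
  obtain ⟨ℓ, hℓ, hd⟩ := exists_l c
  rw [MulAction.is_two_pretransitive_iff]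
  intro S T U V hST hUV
  obtain ⟨g, hg⟩ := MulAction.exists_smul_eq G S U
  have h1 : g • T ≠ U := by
    intro h
    rw [← hg] at h
    exact hST (smul_left_cancel g h).symm
  obtain ⟨k, hk1, hk2⟩ := trans_stab c hℓ hd h1 (Ne.symm hUV)
  exact ⟨k * g, by rw [mul_smul, hg, hk1], by rw [mul_smul, hk2]⟩

/-- elements of `D` centralising one Sylow group's involutions centralise the other's -/
theorem D0_eq {S T : Sylow 2 G} (hST : S ≠ T) {r : G} (hr : r ∈ DD S T) (hrT : r ∈ CI (T : Subgroup G)) :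
    r ∈ CI (S : Subgroup G) := by
  obtain ⟨x, hx, hxS⟩ := exists_inv c S
  obtain ⟨y, hy, hyT⟩ := exists_inv c T
  obtain ⟨u, hu, -, -, h3, h4⟩ := swap c hST hx hxS hy hyT
  set D0 : Subgroup G := DD S T ⊓ CI (S : Subgroup G) with hD0
  set D1 : Subgroup G := DD S T ⊓ CI (T : Subgroup G) with hD1
  have hcop := coprime_pred_succ c.hn c.hq
  have hc0 := card_DD c hST
  have hd0 := card_D0_dvd c hST
  have hd1 : Nat.card D1 ∣ q + 1 := by
    have h := card_D0_dvd c (Ne.symm hST)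
    have e : DD T S ⊓ CI (T : Subgroup G) = D1 := by rw [hD1, DD, DD, inf_comm (MulAction.stabilizer G T)]
    rwa [e] at h
  -- `D0` is normal in `D` of index `q - 1`
  set N : Subgroup (DD S T) := D0.subgroupOf (DD S T) with hN
  have hNn : N.Normal := by
    refine ⟨fun a ha g => ?_⟩
    have h1 : (a : G) ∈ D0 := ha
    show (g : G) * a * (g : G)⁻¹ ∈ D0
    exact ⟨(DD S T).mul_mem ((DD S T).mul_mem g.2 a.2) ((DD S T).inv_mem g.2), CI_conj' g.2.1 h1.2⟩
  have hNi : N.index = q - 1 := by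
    have h1 := Subgroup.card_mul_index N
    have h2 : Nat.card N = Nat.card D0 := Nat.card_congr (Subgroup.subgroupOfEquivOfLe inf_le_left).toEquiv
    rw [h2, hc0, mul_comm] at h1
    exact Nat.eq_of_mul_eq_mul_right Nat.card_pos h1
  let φ : D1 →* (DD S T) ⧸ N := (QuotientGroup.mk' N).comp (Subgroup.inclusion inf_le_left)
  have h5 : φ ⟨r, hr, hrT⟩ = 1 := by
    have h6 : orderOf (φ ⟨r, hr, hrT⟩) ∣ q + 1 :=
      ((orderOf_map_dvd φ _).trans (orderOf_dvd_natCard _)).trans hd1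
    have h7 : orderOf (φ ⟨r, hr, hrT⟩) ∣ q - 1 := by
      rw [← hNi, Subgroup.index]
      exact orderOf_dvd_natCard _
    have h8 := Nat.dvd_gcd h7 h6
    rw [hcop] at h8
    exact orderOf_eq_one_iff.mp (Nat.dvd_one.mp h8)
  have h9 : (⟨r, hr⟩ : DD S T) ∈ N := (QuotientGroup.eq_one_iff _).mp h5
  exact h9.2

theorem D0_eq' {S T : Sylow 2 G} (hST : S ≠ T) {r : G} (hr : r ∈ DD S T) (hrS : r ∈ CI (S : Subgroup G)) :
    r ∈ CI (T : Subgroup G) := D0_eq c (Ne.symm hST) ⟨hr.2, hr.1⟩ hrS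

theorem D0_comm {S T : Sylow 2 G} (hST : S ≠ T) {r r' : G} (hr : r ∈ DD S T) (hrS : r ∈ CI (S : Subgroup G))
    (hr' : r' ∈ DD S T) (hrS' : r' ∈ CI (S : Subgroup G)) : r * r' = r' * r := by
  obtain ⟨χ, dS⟩ := exists_data c S
  have h1 : (r * r' * r⁻¹ * r'⁻¹) ∈ CI (S : Subgroup G) :=
    mul_mem (mul_mem (mul_mem hrS hrS') (inv_mem hrS)) (inv_mem hrS')
  have h2 : (r * r' * r⁻¹ * r'⁻¹) ∈ S := by
    refine (dS.mem _ h1).mpr ?_
    have h3 : (⟨r * r' * r⁻¹ * r'⁻¹, h1⟩ : CI (S : Subgroup G)) = ⟨r, hrS⟩ * ⟨r', hrS'⟩ * ⟨r, hrS⟩⁻¹ * ⟨r', hrS'⟩⁻¹ := rfl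
    rw [h3, map_mul, map_mul, map_mul, map_inv, map_inv, mul_comm (χ ⟨r, hrS⟩)]
    group
  have h3 : (r * r' * r⁻¹ * r'⁻¹) ∈ DD S T := mul_mem (mul_mem (mul_mem hr hr') (inv_mem hr)) (inv_mem hr')
  have h4 : Odd (orderOf (r * r' * r⁻¹ * r'⁻¹)) := H6.RankOne.odd_orderOf_of_mem (odd_DD c hST) h3
  obtain ⟨k, hk⟩ := S.isPGroup' ⟨_, h2⟩
  have h5 : (r * r' * r⁻¹ * r'⁻¹) ^ (2 ^ k) = 1 := congrArg Subtype.val hk
  have h6 : Nat.Coprime (orderOf (r * r' * r⁻¹ * r'⁻¹)) (2 ^ k) := Nat.Coprime.pow_right k h4.coprime_two_right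
  have h7 : orderOf (r * r' * r⁻¹ * r'⁻¹) = 1 :=
    Nat.dvd_one.mp (by rw [← h6]; exact Nat.dvd_gcd dvd_rfl (orderOf_dvd_of_pow_eq_one h5))
  have h8 : r * r' * r⁻¹ * r'⁻¹ = 1 := orderOf_eq_one_iff.mp h7
  calc r * r' = (r * r' * r⁻¹ * r'⁻¹) * (r' * r) := by group
    _ = r' * r := by rw [h8, one_mul]

/-- `D₀` is central in `D` -/
theorem D0_central {S T : Sylow 2 G} (hST : S ≠ T) {r d : G} (hr : r ∈ DD S T) (hrS : r ∈ CI (S : Subgroup G))
    (hd : d ∈ DD S T) : r * d = d * r := by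
  obtain ⟨χ, dS⟩ := exists_data c S
  obtain ⟨x, hx, hxS⟩ := exists_inv c S
  have hx' : d * x * d⁻¹ ∈ S := (stab_iff.mp hd.1 x).mp hxS
  obtain ⟨e, he1, he2, he3, he4⟩ := trans_inv c hST hx hxS (hx.conj d) hx'
  have h1 := he4 r hrS (D0_eq' c hST hr hrS)
  -- `e⁻¹ d` centralises `x`
  have h2 : e⁻¹ * d ∈ CI (S : Subgroup G) := by
    rw [← dS.cent x hxS hx, mem_centralizer_singleton_iff]
    calc e⁻¹ * d * x = e⁻¹ * (d * x * d⁻¹) * d := by group
      _ = e⁻¹ * (e * x * e⁻¹) * d := by rw [he3]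
      _ = x * (e⁻¹ * d) := by group
  have h3 : e⁻¹ * d ∈ DD S T := (DD S T).mul_mem ((DD S T).inv_mem ⟨he1, he2⟩) hd
  have h4 := D0_comm c hST hr hrS h3 h2
  calc r * d = r * e * (e⁻¹ * d) := by group
    _ = e * (r * (e⁻¹ * d)) := by rw [h1]; group
    _ = e * ((e⁻¹ * d) * r) := by rw [h4]
    _ = d * r := by group

end three

end H62.PG
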