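import Mathlib
import Cfsg.Agent.Lib.H62.PGU3B
import Cfsg.Agent.Lib.H91.FourGroup

/-!
The rank one set-up.
-/

set_option autoImplicit false
set_option linter.unusedSimpArgs false
set_option linter.unusedVariables false
set_option linter.unusedSectionVars false

namespace H62.PG

open Subgroup
open scoped Pointwise

theorem pow_card {A : Type*} [Group A] {H : Subgroup A} {a : A} (h : a ∈ H) : a ^ Nat.card H = 1 := by
  have h1 : (⟨a, h⟩ : H) ^ Nat.card H = 1 := pow_card_eq_one'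
  exact congrArg Subtype.val h1

theorem cyc_mem {A : Type*} [CommGroup A] [Finite A] (hA : IsCyclic A) (H : Subgroup A) {a : A}
    (h : a ^ Nat.card H = 1) : a ∈ H := by
  classical
  have : Fintype A := Fintype.ofFinite A
  have h1 := IsCyclic.card_pow_eq_one_le (α := A) (n := Nat.card H) Nat.card_pos
  have h2 : (Finset.univ.filter (fun x : A => x ∈ H)) ⊆ Finset.univ.filter (fun x : A => x ^ Nat.card H = 1) := by
    intro x hx
    rw [Finset.mem_filter] at hx ⊢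
    exact ⟨hx.1, pow_card hx.2⟩
  have h3 : (Finset.univ.filter (fun x : A => x ∈ H)).card = Nat.card H := by
    rw [Nat.card_eq_fintype_card, Fintype.card_subtype]
  have h4 := Finset.eq_of_subset_of_card_le h2 (by rw [h3]; exact h1)
  have h5 : a ∈ Finset.univ.filter (fun x : A => x ∈ H) := by
    rw [h4, Finset.mem_filter]; exact ⟨Finset.mem_univ _, h⟩
  exact (Finset.mem_filter.mp h5).2

section

variable {G A : Type*} [Group G] [Finite G] [CommGroup A] [Finite A] {n q : ℕ} (c : Ctx G A n q)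

/-- image of `D ∩ C` in `A` -/
def H0 {S : Sylow 2 G} (T : Sylow 2 G) (χ : CI (S : Subgroup G) →* A) : Subgroup A :=
  ((DD S T ⊓ CI (S : Subgroup G)).subgroupOf (CI (S : Subgroup G))).map χ

theorem mem_H0 {S T : Sylow 2 G} {χ : CI (S : Subgroup G) →* A} {a : A} :
    a ∈ H0 T χ ↔ ∃ (d : G) (h : d ∈ CI (S : Subgroup G)), d ∈ DD S T ∧ χ ⟨d, h⟩ = a := by
  constructor
  · rintro ⟨d, hd, h⟩
    exact ⟨d, d.2, hd.1, h⟩
  · rintro ⟨d, h, h1, h2⟩
    exact ⟨⟨d, h⟩, ⟨h1, h⟩, h2⟩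

include c

theorem eq_one_of_mem {S T : Sylow 2 G} (hST : S ≠ T) {x : G} (h1 : x ∈ DD S T) (h2 : x ∈ S) : x = 1 := by
  have h4 : Odd (orderOf x) := H6.RankOne.odd_orderOf_of_mem (odd_DD c hST) h1
  obtain ⟨k, hk⟩ := S.isPGroup' ⟨x, h2⟩
  have h5 : x ^ (2 ^ k) = 1 := congrArg Subtype.val hk
  have h6 : Nat.Coprime (orderOf x) (2 ^ k) := Nat.Coprime.pow_right k h4.coprime_two_right
  have h7 : orderOf x = 1 :=
    Nat.dvd_one.mp (by rw [← h6]; exact Nat.dvd_gcd dvd_rfl (orderOf_dvd_of_pow_eq_one h5))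
  exact orderOf_eq_one_iff.mp h7

theorem card_H0 {S T : Sylow 2 G} (hST : S ≠ T) {χ : CI (S : Subgroup G) →* A} (dS : SylData q (S : Subgroup G) χ) :
    Nat.card (H0 T χ) = Nat.card (DD S T ⊓ CI (S : Subgroup G) : Subgroup G) := by
  let f : (DD S T ⊓ CI (S : Subgroup G) : Subgroup G) → H0 T χ := fun d =>
    ⟨χ ⟨d, d.2.2⟩, mem_H0.mpr ⟨d, d.2.2, d.2.1, rfl⟩⟩
  refine (Nat.card_congr (Equiv.ofBijective f ⟨?_, ?_⟩)).symm
  · intro a b hab
    have h1 : χ ⟨a, a.2.2⟩ = χ ⟨b, b.2.2⟩ := congrArg Subtype.val hab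
    have h2 : (a : G) * (b : G)⁻¹ ∈ CI (S : Subgroup G) := mul_mem a.2.2 (inv_mem b.2.2)
    have h3 : (a : G) * (b : G)⁻¹ ∈ S := by
      refine (dS.mem _ h2).mpr ?_
      have h4 : (⟨(a : G) * (b : G)⁻¹, h2⟩ : CI (S : Subgroup G)) = ⟨a, a.2.2⟩ * ⟨b, b.2.2⟩⁻¹ := rfl
      rw [h4, map_mul, map_inv, h1, mul_inv_cancel]
    have h5 := eq_one_of_mem c hST (mul_mem a.2.1 (inv_mem b.2.1)) h3
    exact Subtype.ext (mul_inv_eq_one.mp h5)
  · rintro ⟨a, ha⟩
    obtain ⟨d, h, h1, h2⟩ := mem_H0.mp ha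
    exact ⟨⟨d, h1, h⟩, Subtype.ext h2⟩

/-- (a): elements with image in `H0` keep their image under conjugation by `D` -/
theorem conj_H0 {S T : Sylow 2 G} (hST : S ≠ T) {χ : CI (S : Subgroup G) →* A} (dS : SylData q (S : Subgroup G) χ)
    {x w : G} (hx : x ∈ DD S T) (hw : w ∈ CI (S : Subgroup G)) (h0 : χ ⟨w, hw⟩ ∈ H0 T χ) :
    χ ⟨x * w * x⁻¹, CI_conj' hx.1 hw⟩ = χ ⟨w, hw⟩ := by
  obtain ⟨d, hd, hdD, h1⟩ := mem_H0.mp h0
  have h2 : w * d⁻¹ ∈ CI (S : Subgroup G) := mul_mem hw (inv_mem hd)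
  have h3 : w * d⁻¹ ∈ S := by
    refine (dS.mem _ h2).mpr ?_
    have h4 : (⟨w * d⁻¹, h2⟩ : CI (S : Subgroup G)) = ⟨w, hw⟩ * ⟨d, hd⟩⁻¹ := rfl
    rw [h4, map_mul, map_inv, h1, mul_inv_cancel]
  have h5 : x * (w * d⁻¹) * x⁻¹ ∈ S := (stab_iff.mp hx.1 _).mp h3
  have h6 := (dS.mem _ (CI_conj' hx.1 h2)).mp h5
  have h7 := D0_central c hST hdD hd hx
  have h8 : (⟨x * w * x⁻¹, CI_conj' hx.1 hw⟩ : CI (S : Subgroup G)) =
      ⟨x * (w * d⁻¹) * x⁻¹, CI_conj' hx.1 h2⟩ * ⟨d, hd⟩ := by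
    apply Subtype.ext
    show x * w * x⁻¹ = x * (w * d⁻¹) * x⁻¹ * d
    calc x * w * x⁻¹ = x * (w * d⁻¹) * (d * x⁻¹) := by group
      _ = x * (w * d⁻¹) * (x⁻¹ * d) := by
        congr 1
        calc d * x⁻¹ = x⁻¹ * (x * d) * x⁻¹ := by group
          _ = x⁻¹ * (d * x) * x⁻¹ := by rw [h7]
          _ = x⁻¹ * d := by group
      _ = x * (w * d⁻¹) * x⁻¹ * d := by group
  rw [h8, map_mul, h6, one_mul, h1]

/-- the images are of coprime order -/
theorem coprime_m {S T : Sylow 2 G} (hST : S ≠ T) {χ : CI (S : Subgroup G) →* A} (dS : SylData q (S : Subgroup G) χ)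
    {m : ℕ} (hm : m * Nat.card (H0 T χ) = q + 1) : Nat.Coprime m (Nat.card (H0 T χ)) := by
  have hcyc := c.cyc
  rw [Nat.coprime_iff_gcd_eq_one]
  by_contra hg
  obtain ⟨p, hp, hpg⟩ := Nat.exists_prime_and_dvd hg
  have hpm := hpg.trans (Nat.gcd_dvd_left _ _)
  have hp0 := hpg.trans (Nat.gcd_dvd_right _ _)
  set d0 := Nat.card (H0 T χ) with hd0
  have hd0pos : 0 < d0 := Nat.card_pos
  have hmpos : 0 < m := by
    rcases Nat.eq_zero_or_pos m with h | h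
    · rw [h, zero_mul] at hm; omega
    · exact h
  obtain ⟨ℓ, hℓ, hd⟩ := exists_l c
  have hlc := (l_coprime c hℓ hd).1
  have hlp : ℓ ≠ p := by
    rintro rfl
    rw [Nat.Prime.coprime_iff_not_dvd hℓ] at hlc
    exact hlc (hm ▸ (hpm.mul_right _))
  -- an element of order `p d0`
  obtain ⟨g0, hg0⟩ := IsCyclic.exists_ofOrder_eq_natCard (α := χ.range)
  rw [dS.range] at hg0
  obtain ⟨y0, hy0⟩ := g0.2
  obtain ⟨m', rfl⟩ := hpm
  have hm'pos : 0 < m' := Nat.pos_of_mul_pos_left hmpos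
  have ho0 : orderOf (χ y0) = p * m' * d0 := by rw [hy0, Subgroup.orderOf_coe, hg0, hm]
  set y : CI (S : Subgroup G) := y0 ^ m' with hy
  have hoy : orderOf (χ y) = p * d0 := by
    rw [hy, map_pow, orderOf_pow' _ hm'pos.ne', ho0]
    have : Nat.gcd (p * m' * d0) m' = m' := by
      rw [show p * m' * d0 = m' * (p * d0) by ring]; exact Nat.gcd_eq_right (Dvd.intro _ rfl)
    rw [this, show p * m' * d0 = m' * (p * d0) by ring]
    exact Nat.mul_div_cancel_left _ hm'pos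
  have hypd : (χ y ^ p) ^ d0 = 1 := by rw [← pow_mul, ← hoy, pow_orderOf_eq_one]
  have hyH : χ y ^ p ∈ H0 T χ := cyc_mem hcyc _ hypd
  have hynH : χ y ∉ H0 T χ := by
    intro h
    have h1 : χ y ^ d0 = 1 := pow_card h
    have h2 := orderOf_dvd_of_pow_eq_one h1
    rw [hoy] at h2
    have h3 := Nat.le_of_dvd hd0pos h2
    have h4 := hp.two_le
    nlinarith
  apply hynH
  -- the subgroup `P`
  obtain ⟨P, hPD, hP⟩ := exists_P c hℓ hd hST
  -- conjugation by `P` fixes the image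
  have key : ∀ x (hx : x ∈ P), χ ⟨x * y * x⁻¹, CI_conj' (hPD hx).1 y.2⟩ = χ y := by
    intro x hx
    have hxD := hPD hx
    set y1 : CI (S : Subgroup G) := ⟨x * y * x⁻¹, CI_conj' hxD.1 y.2⟩ with hy1
    set z : A := χ y1 * (χ y)⁻¹ with hz
    have hzp : z ^ p = 1 := by
      have h1 : χ (y ^ p) ∈ H0 T χ := by rw [map_pow]; exact hyH
      have h2 := conj_H0 c hST dS hxD (y ^ p).2 h1
      have h3 : (⟨x * ((y ^ p : CI (S : Subgroup G)) : G) * x⁻¹, CI_conj' hxD.1 (y ^ p).2⟩ : CI (S : Subgroup G)) = y1 ^ p := by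
        apply Subtype.ext
        show x * ((y ^ p : CI (S : Subgroup G)) : G) * x⁻¹ = (x * y * x⁻¹) ^ p
        rw [conj_pow]; rfl
      rw [h3, map_pow, map_pow] at h2
      rw [hz, mul_pow, h2, inv_pow, mul_inv_cancel]
    have hzH : z ∈ H0 T χ := by
      apply cyc_mem hcyc
      obtain ⟨e, he⟩ := hp0
      rw [← hd0, he, pow_mul, hzp, one_pow]
    have hind : ∀ k : ℕ, ∃ h : x ^ k * y * (x ^ k)⁻¹ ∈ CI (S : Subgroup G), χ ⟨_, h⟩ = z ^ k * χ y := by
      intro k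
      induction k with
      | zero =>
        have h : x ^ 0 * y * (x ^ 0)⁻¹ ∈ CI (S : Subgroup G) := by simp
        refine ⟨h, ?_⟩
        have h1 : (⟨_, h⟩ : CI (S : Subgroup G)) = y := Subtype.ext (by simp)
        rw [h1, pow_zero, one_mul]
      | succ k ih =>
        obtain ⟨h, hk⟩ := ih
        have e1 : x ^ (k + 1) * y * (x ^ (k + 1))⁻¹ = x * (x ^ k * y * (x ^ k)⁻¹) * x⁻¹ := by
          rw [pow_succ']; group
        have h' : x ^ (k + 1) * y * (x ^ (k + 1))⁻¹ ∈ CI (S : Subgroup G) := by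
          rw [e1]; exact CI_conj' hxD.1 h
        refine ⟨h', ?_⟩
        set w : CI (S : Subgroup G) := ⟨_, h⟩ with hw
        have h1 : χ (w * y⁻¹) ∈ H0 T χ := by
          rw [map_mul, map_inv, hk, mul_inv_cancel_right]
          exact pow_mem hzH k
        have h2 := conj_H0 c hST dS hxD (w * y⁻¹).2 h1
        have h3 : (⟨x ^ (k + 1) * y * (x ^ (k + 1))⁻¹, h'⟩ : CI (S : Subgroup G)) =
            ⟨x * ((w * y⁻¹ : CI (S : Subgroup G)) : G) * x⁻¹, CI_conj' hxD.1 (w * y⁻¹).2⟩ * y1 := by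
          apply Subtype.ext
          show x ^ (k + 1) * y * (x ^ (k + 1))⁻¹ = x * ((x ^ k * y * (x ^ k)⁻¹) * (y : G)⁻¹) * x⁻¹ * (x * y * x⁻¹)
          rw [e1]; group
        rw [h3, map_mul, h2, map_mul, map_inv, hk, mul_inv_cancel_right, pow_succ]
        rw [hz]
        group
    have hzl : z ^ (ℓ ^ (q - 1).factorization ℓ) = 1 := by
      obtain ⟨h, hk⟩ := hind (ℓ ^ (q - 1).factorization ℓ)
      have h1 : (⟨_, h⟩ : CI (S : Subgroup G)) = y := by
        apply Subtype.ext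
        show x ^ (ℓ ^ (q - 1).factorization ℓ) * y * (x ^ (ℓ ^ (q - 1).factorization ℓ))⁻¹ = y
        rw [P_pow c hℓ hd hP hx]; simp
      rw [h1] at hk
      exact (mul_eq_right.mp hk.symm)
    have hz1 : z = 1 := by
      have h8 : Nat.Coprime (ℓ ^ (q - 1).factorization ℓ) p :=
        Nat.Coprime.pow_left _ ((Nat.coprime_primes hℓ hp).mpr hlp)
      have h9 := Nat.dvd_gcd (orderOf_dvd_of_pow_eq_one hzl) (orderOf_dvd_of_pow_eq_one hzp)
      rw [h8] at h9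
      exact orderOf_eq_one_iff.mp (Nat.dvd_one.mp h9)
    exact mul_inv_eq_one.mp hz1
  -- fixed point in the coset
  let Y : Set G := {w | ∃ h : w ∈ CI (S : Subgroup G), χ ⟨w, h⟩ = χ y}
  have hYc : ∀ x ∈ P, ∀ w ∈ Y, x * w * x⁻¹ ∈ Y := by
    rintro x hx w ⟨h, hw⟩
    have hxD := hPD hx
    have h1 : w * (y : G)⁻¹ ∈ CI (S : Subgroup G) := mul_mem h (inv_mem y.2)
    have h2 : w * (y : G)⁻¹ ∈ S := by
      refine (dS.mem _ h1).mpr ?_
      have h4 : (⟨w * (y : G)⁻¹, h1⟩ : CI (S : Subgroup G)) = ⟨w, h⟩ * y⁻¹ := rfl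
      rw [h4, map_mul, map_inv, hw, mul_inv_cancel]
    have h5 : x * (w * (y : G)⁻¹) * x⁻¹ ∈ S := (stab_iff.mp hxD.1 _).mp h2
    refine ⟨CI_conj' hxD.1 h, ?_⟩
    have h6 : (⟨x * w * x⁻¹, CI_conj' hxD.1 h⟩ : CI (S : Subgroup G)) =
        ⟨x * (w * (y : G)⁻¹) * x⁻¹, CI_conj' hxD.1 h1⟩ * ⟨x * y * x⁻¹, CI_conj' hxD.1 y.2⟩ := by
      apply Subtype.ext
      show x * w * x⁻¹ = x * (w * (y : G)⁻¹) * x⁻¹ * (x * y * x⁻¹)
      group
    rw [h6, map_mul, (dS.mem _ _).mp h5, one_mul, key x hx]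
  let act : MulAction P Y :=
    { smul := fun x w => ⟨(x : G) * w * (x : G)⁻¹, hYc x x.2 w w.2⟩
      one_smul := fun w => Subtype.ext (by show (1 : G) * w * (1 : G)⁻¹ = w; group)
      mul_smul := fun a b w => Subtype.ext (by
        show ((a : G) * b) * w * ((a : G) * b)⁻¹ = a * (b * w * (b : G)⁻¹) * (a : G)⁻¹
        group) }
  have hYcard : Nat.card Y = q ^ 3 := by
    rw [← dS.cardS]
    refine (Nat.card_congr (Equiv.ofBijective (fun s : (S : Subgroup G) => (⟨(s : G) * y, ?_⟩ : Y)) ⟨?_, ?_⟩)).symm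
    · refine ⟨mul_mem (dS.le s.2) y.2, ?_⟩
      have h1 : (⟨(s : G) * y, mul_mem (dS.le s.2) y.2⟩ : CI (S : Subgroup G)) = ⟨s, dS.le s.2⟩ * y := rfl
      rw [h1, map_mul, (dS.mem _ _).mp s.2, one_mul]
    · intro a b hab
      exact Subtype.ext (mul_right_cancel (congrArg Subtype.val hab))
    · rintro ⟨w, h, hw⟩
      have h1 : w * (y : G)⁻¹ ∈ CI (S : Subgroup G) := mul_mem h (inv_mem y.2)
      have h2 : w * (y : G)⁻¹ ∈ S := by
        refine (dS.mem _ h1).mpr ?_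
        have h4 : (⟨w * (y : G)⁻¹, h1⟩ : CI (S : Subgroup G)) = ⟨w, h⟩ * y⁻¹ := rfl
        rw [h4, map_mul, map_inv, hw, mul_inv_cancel]
      exact ⟨⟨_, h2⟩, Subtype.ext (by show w * (y : G)⁻¹ * y = w; group)⟩
  have hpg : IsPGroup ℓ P := by
    have : Fact ℓ.Prime := ⟨hℓ⟩
    exact IsPGroup.of_card hP
  have hfix : (MulAction.fixedPoints P Y).Nonempty := by
    have : Fact ℓ.Prime := ⟨hℓ⟩
    apply hpg.nonempty_fixed_point_of_prime_not_dvd_card
    rw [hYcard]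
    intro h
    have h5 := hℓ.dvd_of_dvd_pow h
    rw [c.hq] at h5
    have h6 := hℓ.dvd_of_dvd_pow h5
    exact (l_coprime c hℓ hd).2 ((Nat.prime_dvd_prime_iff_eq hℓ Nat.prime_two).mp h6)
  obtain ⟨⟨y', hy'C, hy'χ⟩, hy'⟩ := hfix
  have hcomm : ∀ x ∈ P, x * y' = y' * x := by
    intro x hx
    have h1 : x * y' * x⁻¹ = y' := congrArg Subtype.val (hy' ⟨x, hx⟩)
    calc x * y' = x * y' * x⁻¹ * x := by group
      _ = y' * x := by rw [h1]
  have hS' : y' • S = S := CI_fix c hy'C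
  have hT' : y' • T = T := by
    have h1 : ∀ x ∈ P, x • y' • T = y' • T := by
      intro x hx
      rw [smul_smul, hcomm x hx, mul_smul, (hPD hx).2]
    rcases P_two c hℓ hd hP hST (fun x hx => (hPD hx).1) (fun x hx => (hPD hx).2) h1 with h | h
    · exfalso
      apply hST
      have : y' • T = y' • S := h.trans hS'.symm
      exact (smul_left_cancel y' this).symm
    · exact h
  rw [← hy'χ]
  exact mem_H0.mpr ⟨y', hy'C, ⟨hS', hT'⟩, rfl⟩

end

end H62.PG
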