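import Mathlib
import Cfsg.Agent.Lib.H62.PGU3C

/-!
The rank one set-up (continued).
-/

set_option autoImplicit false
set_option linter.unusedSimpArgs false
set_option linter.unusedVariables false
set_option linter.unusedSectionVars false

namespace H62.PG

open Subgroup
open scoped Pointwise

section

variable {G A : Type*} [Group G] [Finite G] [CommGroup A] [Finite A] {n q : ℕ} (c : Ctx G A n q)

/-- the regular normal subgroup of the point stabiliser -/
def QQ {S : Sylow 2 G} (χ : CI (S : Subgroup G) →* A) (m : ℕ) : Subgroup G :=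
  ((powMonoidHom m).comp χ).ker.map (CI (S : Subgroup G)).subtype

theorem mem_QQ {S : Sylow 2 G} {χ : CI (S : Subgroup G) →* A} {m : ℕ} {w : G} :
    w ∈ QQ χ m ↔ ∃ h : w ∈ CI (S : Subgroup G), χ ⟨w, h⟩ ^ m = 1 := by
  constructor
  · rintro ⟨w, hw, rfl⟩
    exact ⟨w.2, hw⟩
  · rintro ⟨h, hw⟩
    exact ⟨⟨w, h⟩, hw, rfl⟩

include c

theorem exists_setup (S : Sylow 2 G) : ∃ (t : G) (Q : Subgroup G), Cfsg.IsRankOneSetup G (Sylow 2 G) S t Q := by
  obtain ⟨χ, dS⟩ := exists_data c S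
  have h4 := four_le c.hn c.hq
  obtain ⟨T0, hTS⟩ : ∃ T : Sylow 2 G, T ≠ S := by
    by_contra h
    push Not at h
    have : Subsingleton (Sylow 2 G) := ⟨fun A B => (h A).trans (h B).symm⟩
    exact c.nn S (Sylow.normal_of_subsingleton S)
  obtain ⟨t, ht, htT⟩ := exists_inv c T0
  have htS : t • S ≠ S := fun h => hTS (eq_of_mem c ht htT (mem_of_fix c ht h))
  set T : Sylow 2 G := t • S with hT
  have hST : S ≠ T := Ne.symm htS
  have hcard := card_H0 c hST dS
  have hdvd := card_D0_dvd c hST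
  rw [← hcard] at hdvd
  obtain ⟨m, hm'⟩ := hdvd
  have hm : m * Nat.card (H0 T χ) = q + 1 := by rw [mul_comm]; exact hm'.symm
  have hcop := coprime_m c hST dS hm
  have hrange : ∀ w : CI (S : Subgroup G), χ w ^ (q + 1) = 1 := by
    intro w
    rw [← dS.range]
    exact pow_card ⟨w, rfl⟩
  refine ⟨t, QQ χ m, ?_⟩
  refine
    { two_transitive := two_trans c
      mul_self := ht.2
      ne_one := ht.1
      not_mem := fun h => htS (MulAction.mem_stabilizer_iff.mp h)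
      le := ?_
      conj_mem := ?_
      inf_eq_bot := ?_
      sup_eq := ?_
      even_card := ?_
      odd_card := odd_DD c hST }
  · intro w hw
    exact CI_fix c (mem_QQ.mp hw).1
  · intro h hh x hx
    obtain ⟨hxC, hxm⟩ := mem_QQ.mp hx
    refine mem_QQ.mpr ⟨CI_conj' hh hxC, ?_⟩
    rw [← map_pow] at hxm ⊢
    have h1 : x ^ m ∈ S := (dS.mem _ (pow_mem hxC m)).mpr hxm
    have h2 : h * x ^ m * h⁻¹ ∈ S := (stab_iff.mp hh _).mp h1
    have h3 := (dS.mem _ (CI_conj' hh (pow_mem hxC m))).mp h2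
    rw [← h3]
    congr 1
    apply Subtype.ext
    show (h * x * h⁻¹) ^ m = h * x ^ m * h⁻¹
    exact conj_pow
  · rw [Subgroup.eq_bot_iff_forall]
    rintro w ⟨hwQ, hwT⟩
    obtain ⟨hwC, hwm⟩ := mem_QQ.mp hwQ
    have hwD : w ∈ DD S T := ⟨CI_fix c hwC, hwT⟩
    have h1 : χ ⟨w, hwC⟩ ∈ H0 T χ := mem_H0.mpr ⟨w, hwC, hwD, rfl⟩
    have h2 := pow_card h1
    have h3 := Nat.dvd_gcd (orderOf_dvd_of_pow_eq_one hwm) (orderOf_dvd_of_pow_eq_one h2)
    rw [hcop] at h3
    have h5 : χ ⟨w, hwC⟩ = 1 := orderOf_eq_one_iff.mp (Nat.dvd_one.mp h3)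
    exact eq_one_of_mem c hST hwD ((dS.mem _ hwC).mpr h5)
  · apply le_antisymm
    · refine sup_le ?_ inf_le_left
      intro w hw
      exact CI_fix c (mem_QQ.mp hw).1
    · intro g hg
      obtain ⟨x, hx, hxS⟩ := exists_inv c S
      have hxg : g * x * g⁻¹ ∈ S := (stab_iff.mp hg x).mp hxS
      obtain ⟨d, hd1, hd2, hd3, -⟩ := trans_inv c hST hx hxS (hx.conj g) hxg
      have hdD : d ∈ DD S T := ⟨hd1, hd2⟩
      have hwC : d⁻¹ * g ∈ CI (S : Subgroup G) := by
        rw [← dS.cent x hxS hx, mem_centralizer_singleton_iff]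
        calc d⁻¹ * g * x = d⁻¹ * (g * x * g⁻¹) * g := by group
          _ = d⁻¹ * (d * x * d⁻¹) * g := by rw [hd3]
          _ = x * (d⁻¹ * g) := by group
      -- split
      set a := χ ⟨d⁻¹ * g, hwC⟩ with ha
      have hab := Nat.gcd_eq_gcd_ab m (Nat.card (H0 T χ))
      rw [hcop] at hab
      set u := Nat.gcdA m (Nat.card (H0 T χ))
      set v := Nat.gcdB m (Nat.card (H0 T χ))
      have haq : a ^ (q + 1) = 1 := hrange _
      have hH : a ^ ((m : ℤ) * u) ∈ H0 T χ := by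
        apply cyc_mem c.cyc
        rw [← zpow_natCast, ← zpow_mul, show (m : ℤ) * u * (Nat.card (H0 T χ) : ℤ) = ((q + 1 : ℕ) : ℤ) * u by
          rw [← hm]; push_cast; ring, zpow_mul, zpow_natCast, haq, one_zpow]
      obtain ⟨d2, hd2C, hd2D, hd2χ⟩ := mem_H0.mp hH
      have hw1 : d⁻¹ * g * d2⁻¹ ∈ QQ χ m := by
        refine mem_QQ.mpr ⟨mul_mem hwC (inv_mem hd2C), ?_⟩
        have h5 : (⟨d⁻¹ * g * d2⁻¹, mul_mem hwC (inv_mem hd2C)⟩ : CI (S : Subgroup G)) = ⟨d⁻¹ * g, hwC⟩ * ⟨d2, hd2C⟩⁻¹ := rfl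
        rw [h5, map_mul, map_inv, hd2χ, ← ha]
        have h6 : a * (a ^ ((m : ℤ) * u))⁻¹ = a ^ ((Nat.card (H0 T χ) : ℤ) * v) := by
          have h7 : a = a ^ ((m : ℤ) * u + (Nat.card (H0 T χ) : ℤ) * v) := by
            rw [← hab]; simp
          calc a * (a ^ ((m : ℤ) * u))⁻¹ = a ^ ((m : ℤ) * u + (Nat.card (H0 T χ) : ℤ) * v) * (a ^ ((m : ℤ) * u))⁻¹ := by rw [← h7]
            _ = a ^ ((Nat.card (H0 T χ) : ℤ) * v) := by rw [zpow_add]; rw [mul_comm, inv_mul_cancel_left]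
        rw [h6, ← zpow_natCast, ← zpow_mul, show (Nat.card (H0 T χ) : ℤ) * v * (m : ℤ) = ((q + 1 : ℕ) : ℤ) * v by
          rw [← hm]; push_cast; ring, zpow_mul, zpow_natCast, haq, one_zpow]
      have h8 : g = d * (d⁻¹ * g * d2⁻¹) * d2 := by group
      rw [h8]
      refine mul_mem (mul_mem ?_ ?_) ?_
      · exact (le_sup_right : _ ≤ QQ χ m ⊔ _) hdD
      · exact (le_sup_left : QQ χ m ≤ _) hw1
      · exact (le_sup_right : _ ≤ QQ χ m ⊔ _) hd2D
  · have h1 : (S : Subgroup G) ≤ QQ χ m := by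
      intro x hx
      refine mem_QQ.mpr ⟨dS.le hx, ?_⟩
      rw [(dS.mem x (dS.le hx)).mp hx, one_pow]
    have h2 := Subgroup.card_dvd_of_le h1
    rw [dS.cardS] at h2
    exact even_iff_two_dvd.mpr ((even_iff_two_dvd.mp ((even_q c.hn c.hq).pow_of_ne_zero (by norm_num))).trans h2)

/-- two distinct involutions of a Sylow 2-subgroup -/
theorem exists_two (S : Sylow 2 G) : ∃ x y : G, Inv x ∧ x ∈ S ∧ Inv y ∧ y ∈ S ∧ x ≠ y ∧ x * y = y * x ∧ Inv (x * y) := by
  obtain ⟨χ, dS⟩ := exists_data c S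
  have h4 := four_le c.hn c.hq
  obtain ⟨x, hx, hxS⟩ := exists_inv c S
  have h1 : ∃ y : {x : G // x ∈ (S : Subgroup G) ∧ Inv x}, y ≠ ⟨x, hxS, hx⟩ := by
    by_contra h
    push Not at h
    have : Subsingleton {x : G // x ∈ (S : Subgroup G) ∧ Inv x} := ⟨fun a b => (h a).trans (h b).symm⟩
    have h2 := Nat.card_of_subsingleton (⟨x, hxS, hx⟩ : {x : G // x ∈ (S : Subgroup G) ∧ Inv x})
    rw [dS.count] at h2
    omega
  obtain ⟨⟨y, hyS, hy⟩, hne⟩ := h1
  have hxy : x ≠ y := fun h => hne (Subtype.ext h.symm)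
  have hyC : y ∈ CI (S : Subgroup G) := dS.le hyS
  have hcomm : x * y = y * x := by
    rw [← dS.cent x hxS hx, mem_centralizer_singleton_iff] at hyC
    exact hyC.symm
  refine ⟨x, y, hx, hxS, hy, hyS, hxy, hcomm, ?_, ?_⟩
  · intro h
    apply hxy
    rw [eq_inv_of_mul_eq_one_left h, hy.inv_eq]
  · calc x * y * (x * y) = x * (y * x) * y := by group
      _ = x * (x * y) * y := by rw [hcomm]
      _ = (x * x) * (y * y) := by group
      _ = 1 := by rw [hx.2, hy.2, one_mul]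

/-- the kernel is trivial: more generally a normal subgroup of odd order is trivial -/
theorem odd_normal {K : Subgroup G} (hK : K.Normal) (hodd : Odd (Nat.card K)) : K = ⊥ := by
  have : Fact (Nat.Prime 2) := ⟨Nat.prime_two⟩
  obtain ⟨S⟩ : Nonempty (Sylow 2 G) := inferInstance
  obtain ⟨χ, dS⟩ := exists_data c S
  have h4 := four_le c.hn c.hq
  obtain ⟨x, y, hx, hxS, hy, hyS, hxy, hcomm, hxyi⟩ := exists_two c S
  have key : ∀ z, Inv z → z ∈ S → ∀ k ∈ K, z * k = k * z → k ∈ CI (S : Subgroup G) := by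
    intro z hz hzS k hk h
    rw [← dS.cent z hzS hz, mem_centralizer_singleton_iff]
    exact h.symm
  have h1 : K ≤ CI (S : Subgroup G) := by
    apply H91.FourGroup.le_of_centralizers hodd hx.2 hy.2 hcomm
    · rw [Subgroup.normalizer_eq_top_iff.mpr hK]; trivial
    · rw [Subgroup.normalizer_eq_top_iff.mpr hK]; trivial
    · exact key x hx hxS
    · exact key y hy hyS
    · exact key _ hxyi (mul_mem hxS hyS)
  rw [Subgroup.eq_bot_iff_forall]
  intro k hk
  have hkC := h1 hk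
  have hcommS : ∀ s ∈ S, s * k = k * s := by
    intro s hs
    have h2 : s * k * s⁻¹ * k⁻¹ ∈ K := mul_mem (hK.conj_mem k hk s) (inv_mem hk)
    have h3 : s * (k * s⁻¹ * k⁻¹) ∈ S := mul_mem hs ((stab_iff.mp (CI_fix c hkC) _).mp (inv_mem hs))
    have h3' : s * k * s⁻¹ * k⁻¹ ∈ S := by
      have : s * k * s⁻¹ * k⁻¹ = s * (k * s⁻¹ * k⁻¹) := by group
      rw [this]; exact h3
    have h5 : Odd (orderOf (s * k * s⁻¹ * k⁻¹)) := H6.RankOne.odd_orderOf_of_mem hodd h2
    obtain ⟨j, hj⟩ := S.isPGroup' ⟨_, h3'⟩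
    have h6 : (s * k * s⁻¹ * k⁻¹) ^ (2 ^ j) = 1 := congrArg Subtype.val hj
    have h7 : Nat.Coprime (orderOf (s * k * s⁻¹ * k⁻¹)) (2 ^ j) := Nat.Coprime.pow_right j h5.coprime_two_right
    have h8 : orderOf (s * k * s⁻¹ * k⁻¹) = 1 :=
      Nat.dvd_one.mp (by rw [← h7]; exact Nat.dvd_gcd dvd_rfl (orderOf_dvd_of_pow_eq_one h6))
    have h9 : s * k * s⁻¹ * k⁻¹ = 1 := orderOf_eq_one_iff.mp h8
    calc s * k = (s * k * s⁻¹ * k⁻¹) * (k * s) := by group
      _ = k * s := by rw [h9, one_mul]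
  by_cases hkS : k ∈ S
  · have h5 : Odd (orderOf k) := H6.RankOne.odd_orderOf_of_mem hodd hk
    obtain ⟨j, hj⟩ := S.isPGroup' ⟨k, hkS⟩
    have h6 : k ^ (2 ^ j) = 1 := congrArg Subtype.val hj
    have h7 : Nat.Coprime (orderOf k) (2 ^ j) := Nat.Coprime.pow_right j h5.coprime_two_right
    have h8 : orderOf k = 1 :=
      Nat.dvd_one.mp (by rw [← h7]; exact Nat.dvd_gcd dvd_rfl (orderOf_dvd_of_pow_eq_one h6))
    exact orderOf_eq_one_iff.mp h8
  · exfalso
    have hall : ∀ s ∈ S, s * s = 1 := fun s hs => dS.comm s k hs hkC hkS (hcommS s hs)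
    have h2 := dS.count
    have h3 : Nat.card {x : G // x ∈ (S : Subgroup G) ∧ Inv x} = q ^ 3 - 1 := by
      classical
      have e : {x : G // x ∈ (S : Subgroup G) ∧ Inv x} ≃ {x : (S : Subgroup G) // x ≠ 1} :=
        { toFun := fun x => ⟨⟨x.1, x.2.1⟩, fun h => x.2.2.1 (congrArg Subtype.val h)⟩
          invFun := fun x => ⟨x.1.1, x.1.2, fun h => x.2 (Subtype.ext h), hall _ x.1.2⟩
          left_inv := fun x => rfl
          right_inv := fun x => rfl }
      rw [Nat.card_congr e]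
      have : Fintype (S : Subgroup G) := Fintype.ofFinite _
      rw [Nat.card_eq_fintype_card, Fintype.card_subtype_compl, Fintype.card_subtype_eq, ← Nat.card_eq_fintype_card, dS.cardS]
    rw [h3] at h2
    have h5 : q ^ 3 = q := by
      have : 1 ≤ q ^ 3 := Nat.one_le_pow _ _ (by omega)
      omega
    have h6 : q * 1 < q * (q * q) := Nat.mul_lt_mul_of_pos_left (by nlinarith) (by omega)
    have h7 : q ^ 3 = q * (q * q) := by ring
    omega

theorem faithful : FaithfulSMul G (Sylow 2 G) := by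
  have : Fact (Nat.Prime 2) := ⟨Nat.prime_two⟩
  obtain ⟨S⟩ : Nonempty (Sylow 2 G) := inferInstance
  obtain ⟨T0, hTS⟩ : ∃ T : Sylow 2 G, T ≠ S := by
    by_contra h
    push Not at h
    have : Subsingleton (Sylow 2 G) := ⟨fun A B => (h A).trans (h B).symm⟩
    exact c.nn S (Sylow.normal_of_subsingleton S)
  have h1 : (MulAction.toPermHom G (Sylow 2 G)).ker = ⊥ := by
    apply odd_normal c (MonoidHom.normal_ker _)
    have h2 : (MulAction.toPermHom G (Sylow 2 G)).ker ≤ DD S T0 := by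
      intro g hg
      have h3 : ∀ U : Sylow 2 G, g • U = U := fun U => Equiv.congr_fun (MonoidHom.mem_ker.mp hg) U
      exact ⟨h3 S, h3 T0⟩
    exact Odd.of_dvd_nat (odd_DD c (Ne.symm hTS)) (Subgroup.card_dvd_of_le h2)
  refine ⟨fun {g g'} h => ?_⟩
  have h2 : (MulAction.toPermHom G (Sylow 2 G)) g = (MulAction.toPermHom G (Sylow 2 G)) g' := Equiv.ext h
  exact (MonoidHom.ker_eq_bot_iff _).mp h1 h2

end

end H62.PG
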