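import Mathlib
import Cfsg.Agent.Lib.H62.PGU3A
import Cfsg.Agent.Lib.H24.U3Syl

/-!
The stabiliser of an isotropic vector in `GU₃(q)`, `q` even, as an abstract group of triples.
-/

set_option autoImplicit false
set_option linter.unusedSimpArgs false
set_option linter.unusedVariables false
set_option linter.unusedSectionVars false

namespace H62.PG

open H7.QuadExt

/-- local structure, abstractly -/
structure LocA {W A : Type*} [Group W] [CommGroup A] (q : ℕ) (χ : W →* A) : Prop where
  card_ker : Nat.card χ.ker = q ^ 3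
  card_W : Nat.card W = q ^ 3 * (q + 1)
  central : ∀ x y : W, Inv x → x * y = y * x
  count : Nat.card {x : W // Inv x} = q - 1
  comm : ∀ x y : W, χ x = 1 → χ y ≠ 1 → x * y = y * x → x * x = 1

theorem inv_iff {W W' : Type*} [Group W] [Group W'] (e : W ≃* W') (x : W) : Inv (e x) ↔ Inv x := by
  unfold Inv
  rw [← map_mul]
  constructor
  · rintro ⟨h1, h2⟩
    exact ⟨fun h => h1 (by rw [h, map_one]), e.injective (by rw [h2, map_one])⟩
  · rintro ⟨h1, h2⟩
    exact ⟨fun h => h1 (e.injective (by rw [h, map_one])), by rw [h2, map_one]⟩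

theorem LocA.transfer {W W' A : Type*} [Group W] [Group W'] [CommGroup A] {q : ℕ} {χ : W →* A} (h : LocA q χ)
    (e : W' ≃* W) : LocA q (χ.comp e.toMonoidHom) := by
  refine ⟨?_, ?_, ?_, ?_, ?_⟩
  · rw [← h.card_ker]
    refine Nat.card_congr ⟨fun x => ⟨e x, x.2⟩, fun x => ⟨e.symm x, ?_⟩, fun x => ?_, fun x => ?_⟩
    · show χ (e (e.symm x)) = 1
      rw [MulEquiv.apply_symm_apply]; exact x.2
    · exact Subtype.ext (e.symm_apply_apply _)
    · exact Subtype.ext (e.apply_symm_apply _)
  · rw [← h.card_W, Nat.card_congr e.toEquiv]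
  · intro x y hx
    apply e.injective
    rw [map_mul, map_mul]
    exact h.central _ _ ((inv_iff e x).mpr hx)
  · rw [← h.count]
    exact Nat.card_congr (e.toEquiv.subtypeEquiv fun x => (inv_iff e x).symm)
  · intro x y hx hy hxy
    apply e.injective
    rw [map_mul, map_one]
    apply h.comm _ _ hx hy
    rw [← map_mul, hxy, map_mul]

theorem LocA.loc {G A : Type*} [Group G] [CommGroup A] {q : ℕ} {t : G}
    {χ : Subgroup.centralizer ({t} : Set G) →* A} (h : LocA q χ) : Loc q t χ :=
  ⟨h.card_ker, h.card_W, h.central, h.count, h.comm⟩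

section

variable {F : Type*} [Field F] [Fintype F] {q : ℕ}

/-- the group of triples -/
@[ext] structure WT (two : (2 : F) = 0) (hK : Fintype.card F = q ^ 2) where
  a : F
  b : F
  m : F
  good : b + b ^ q = a ^ (q + 1)
  nm : m ^ (q + 1) = 1

variable (two : (2 : F) = 0) (hK : Fintype.card F = q ^ 2)

namespace WT

theorem mne (x : WT two hK) : x.m ≠ 0 := by
  intro h
  have := x.nm
  rw [h, zero_pow (by omega)] at this
  exact zero_ne_one this

instance : One (WT two hK) := ⟨⟨0, 0, 1, by rw [zero_pow_q hK, zero_pow (by omega), add_zero], one_pow _⟩⟩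

instance : Mul (WT two hK) := ⟨fun x y => ⟨x.a + x.m * y.a, x.b + y.b + x.a ^ q * x.m * y.a, x.m * y.m, by
  have h1 := x.good
  have h2 := y.good
  have h3 := x.nm
  have h4 := pow_q_pow_q hK x.a
  rw [pow_succ] at h1 h2 h3 ⊢
  rw [add_pow_q hK, add_pow_q hK, add_pow_q hK, mul_pow, mul_pow, mul_pow, h4]
  linear_combination h1 + h2 + (-y.a ^ q * y.a) * h3, by rw [mul_pow, x.nm, y.nm, one_mul]⟩⟩

instance : _root_.Inv (WT two hK) := ⟨fun x => ⟨x.m⁻¹ * x.a, x.b + x.a ^ (q + 1), x.m⁻¹, by
  have h1 := x.good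
  have h3 := x.nm
  have hm := mne two hK x
  rw [add_pow_q hK, norm_fixed hK, mul_pow, inv_pow, h3, inv_one, one_mul]
  linear_combination h1 + x.a ^ (q + 1) * two, by rw [inv_pow, x.nm, inv_one]⟩⟩

theorem one_a : (1 : WT two hK).a = 0 := rfl
theorem one_b : (1 : WT two hK).b = 0 := rfl
theorem one_m : (1 : WT two hK).m = 1 := rfl
theorem mul_a (x y : WT two hK) : (x * y).a = x.a + x.m * y.a := rfl
theorem mul_b (x y : WT two hK) : (x * y).b = x.b + y.b + x.a ^ q * x.m * y.a := rfl
theorem mul_m (x y : WT two hK) : (x * y).m = x.m * y.m := rfl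
theorem inv_a (x : WT two hK) : (x⁻¹).a = x.m⁻¹ * x.a := rfl
theorem inv_b (x : WT two hK) : (x⁻¹).b = x.b + x.a ^ (q + 1) := rfl
theorem inv_m (x : WT two hK) : (x⁻¹).m = x.m⁻¹ := rfl

instance : Group (WT two hK) :=
  Group.ofLeftAxioms
    (by
      intro x y z
      have h3 := x.nm
      rw [pow_succ] at h3
      apply WT.ext
      · simp only [mul_a, mul_m]; ring
      · simp only [mul_a, mul_b, mul_m]
        rw [add_pow_q hK, mul_pow]
        linear_combination (y.a ^ q * y.m * z.a) * h3
      · simp only [mul_m]; ring)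
    (by
      intro x
      apply WT.ext
      · simp only [mul_a, one_a, one_m]; ring
      · simp only [mul_b, one_a, one_b, one_m, zero_pow_q hK]; ring
      · simp only [mul_m, one_m, one_mul])
    (by
      intro x
      have hm := mne two hK x
      have h3 := x.nm
      rw [pow_succ] at h3
      apply WT.ext
      · simp only [mul_a, inv_a, inv_m, one_a]
        linear_combination x.m⁻¹ * x.a * two
      · simp only [mul_b, inv_a, inv_b, inv_m, one_b]
        rw [mul_pow, pow_succ]
        have h5 : x.m⁻¹ ^ q * x.m⁻¹ = 1 := by rw [← pow_succ, inv_pow, x.nm, inv_one]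
        linear_combination (x.b + x.a ^ q * x.a) * two + (x.a ^ q * x.a) * h5
      · simp only [mul_m, inv_m, one_m]
        exact inv_mul_cancel₀ hm)

/-- the third coordinate -/
noncomputable def chi : WT two hK →* Fˣ where
  toFun x := Units.mk0 x.m (mne two hK x)
  map_one' := Units.ext rfl
  map_mul' x y := Units.ext rfl

theorem chi_one_iff (x : WT two hK) : chi two hK x = 1 ↔ x.m = 1 := by
  constructor
  · intro h; exact congrArg Units.val h
  · intro h; exact Units.ext h

include two hK in
theorem card_ab : Nat.card {x : F × F // x.2 + x.2 ^ q = x.1 ^ (q + 1)} = q ^ 3 := by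
  have e : (Σ a : F, {b : F // b + b ^ q = a ^ (q + 1)}) ≃ {x : F × F // x.2 + x.2 ^ q = x.1 ^ (q + 1)} :=
    ⟨fun x => ⟨(x.1, x.2.1), x.2.2⟩, fun x => ⟨x.1.1, ⟨x.1.2, x.2⟩⟩, fun x => rfl, fun x => rfl⟩
  rw [← Nat.card_congr e, Nat.card_sigma]
  have : ∀ a : F, Nat.card {b : F // b + b ^ q = a ^ (q + 1)} = q :=
    fun a => H24.U3Syl.trace_card two hK (norm_fixed hK a)
  simp only [this]
  rw [Finset.sum_const, Finset.card_univ, hK]
  simp; ring

theorem locA (hq : 2 < q) : LocA q (chi two hK) := by
  have key : ∀ x : WT two hK, x * x = 1 ↔ x.a = 0 ∧ x.m = 1 := by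
    intro x
    constructor
    · intro h
      have h1 : x.m * x.m = 1 := congrArg WT.m h
      have h2 : x.m = 1 := by
        have h3 : (x.m - 1) * (x.m - 1) = 0 := by linear_combination h1 + (1 - x.m) * two
        have h4 := mul_self_eq_zero.mp h3
        exact sub_eq_zero.mp h4
      have h3 : x.b + x.b + x.a ^ q * x.m * x.a = 0 := congrArg WT.b h
      rw [h2, mul_one] at h3
      have h4 : x.a ^ q * x.a = 0 := by linear_combination h3 - x.b * two
      refine ⟨?_, h2⟩
      rw [← pow_succ] at h4
      exact pow_eq_zero_iff (by omega) |>.mp h4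
    · rintro ⟨h1, h2⟩
      apply WT.ext
      · rw [mul_a, one_a, h1, mul_zero, add_zero]
      · rw [mul_b, one_b, h1, mul_zero, add_zero]
        linear_combination x.b * two
      · rw [mul_m, one_m, h2, one_mul]
  refine ⟨?_, ?_, ?_, ?_, ?_⟩
  · rw [← card_ab two hK]
    refine Nat.card_congr ⟨fun x => ⟨(x.1.a, x.1.b), x.1.good⟩,
      fun x => ⟨⟨x.1.1, x.1.2, 1, x.2, one_pow _⟩, (chi_one_iff two hK _).mpr rfl⟩, fun x => ?_, fun x => rfl⟩
    apply Subtype.ext
    apply WT.ext
    · rfl
    · rfl
    · exact ((chi_one_iff two hK _).mp x.2).symm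
  · have h1 := card_ab two hK
    have h2 := card_norm_one hK
    have e : WT two hK ≃ {x : F × F // x.2 + x.2 ^ q = x.1 ^ (q + 1)} × {x : F // x ^ (q + 1) = 1} :=
      ⟨fun x => (⟨(x.a, x.b), x.good⟩, ⟨x.m, x.nm⟩),
        fun x => ⟨x.1.1.1, x.1.1.2, x.2.1, x.1.2, x.2.2⟩, fun x => rfl, fun x => rfl⟩
    rw [Nat.card_congr e, Nat.card_prod, h1, h2]
  · intro x y hx
    obtain ⟨h1, h2⟩ := (key x).mp hx.2
    apply WT.ext
    · rw [mul_a, mul_a, h1, h2]; ring
    · rw [mul_b, mul_b, h1, zero_pow_q hK]; ring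
    · rw [mul_m, mul_m]; ring
  · have e : {x : WT two hK // H62.PG.Inv x} ≃ {b : {b : F // b ^ q = b} // b ≠ ⟨0, zero_pow_q hK⟩} :=
      { toFun := fun x => ⟨⟨x.1.b, by
            have h1 := x.1.good
            rw [((key x.1).mp x.2.2).1, zero_pow (by omega)] at h1
            linear_combination h1 - x.1.b * two⟩, by
            intro h
            apply x.2.1
            apply WT.ext
            · exact ((key x.1).mp x.2.2).1
            · exact congrArg Subtype.val h
            · exact ((key x.1).mp x.2.2).2⟩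
        invFun := fun b => ⟨⟨0, b.1.1, 1, by
            rw [b.1.2, zero_pow (by omega)]; linear_combination b.1.1 * two, one_pow _⟩, by
            intro h
            apply b.2
            exact Subtype.ext (congrArg WT.b h), (key _).mpr ⟨rfl, rfl⟩⟩
        left_inv := fun x => by
          apply Subtype.ext
          apply WT.ext
          · exact ((key x.1).mp x.2.2).1.symm
          · rfl
          · exact ((key x.1).mp x.2.2).2.symm
        right_inv := fun b => rfl }
    classical
    rw [Nat.card_congr e]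
    have : Fintype {b : F // b ^ q = b} := Fintype.ofFinite _
    rw [Nat.card_eq_fintype_card, Fintype.card_subtype_compl, Fintype.card_subtype_eq, ← Nat.card_eq_fintype_card,
      card_fixed hK]
  · intro x y hx hy hxy
    rw [chi_one_iff] at hx
    rw [Ne, chi_one_iff] at hy
    rw [key]
    refine ⟨?_, hx⟩
    have h1 : x.a + x.m * y.a = y.a + y.m * x.a := congrArg WT.a hxy
    rw [hx, one_mul] at h1
    have h2 : (y.m - 1) * x.a = 0 := by linear_combination -h1
    rcases mul_eq_zero.mp h2 with h | h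
    · exact absurd (sub_eq_zero.mp h) hy
    · exact h

end WT

end

end H62.PG
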