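import Mathlib
import Cfsg.Agent.Lib.H62.PGU3E
import Cfsg.Agent.Lib.H17.GUCenter

/-!
The centraliser of an involution in `PGU₃(q)`, `q` even.
-/

set_option autoImplicit false
set_option linter.unusedSimpArgs false
set_option linter.unusedVariables false
set_option linter.unusedSectionVars false

namespace H62.PG

open H7.QuadExt H7.UnitSU Cfsg H24.U3Syl
open Matrix hiding J

variable {F : Type*} [Field F] [Fintype F] {q : ℕ} (two : (2 : F) = 0) (hK : Fintype.card F = q ^ 2)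

/-- the matrix of a triple -/
def bm (q : ℕ) (a b m : F) : Matrix (Fin 3) (Fin 3) F := !![1, m * a ^ q, b; 0, m, a; 0, 0, 1]

theorem bm_det (a b m : F) : (bm q a b m).det = m := by
  simp [bm, Matrix.det_fin_three]

theorem bm_form (x : WT two hK) : (bm q x.a x.b x.m)ᵀ * J F * bar q (bm q x.a x.b x.m) = J F := by
  have h1 := x.good
  have h2 := x.nm
  have h3 := pow_q_pow_q hK x.a
  rw [pow_succ] at h1 h2
  ext i j
  fin_cases i <;> fin_cases j <;>
    simp [bm, J, bar, Matrix.mul_apply, Fin.sum_univ_three, zero_pow_q hK, mul_pow, h3]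
  · linear_combination h2
  · linear_combination x.m * x.a ^ q * two
  · linear_combination x.m ^ q * x.a * two
  · linear_combination h1 + x.a ^ q * x.a * two

/-- `GL₃` element of a triple -/
noncomputable def Bg : WT two hK →* GL (Fin 3) F where
  toFun x := GeneralLinearGroup.mkOfDetNeZero (bm q x.a x.b x.m) (by rw [bm_det]; exact WT.mne two hK x)
  map_one' := by
    apply Units.ext
    show bm q (0 : F) 0 1 = 1
    ext i j
    fin_cases i <;> fin_cases j <;> simp [bm, zero_pow_q hK]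
  map_mul' x y := by
    apply Units.ext
    show bm q (x.a + x.m * y.a) (x.b + y.b + x.a ^ q * x.m * y.a) (x.m * y.m) = bm q x.a x.b x.m * bm q y.a y.b y.m
    have h2 := x.nm
    rw [pow_succ] at h2
    ext i j
    fin_cases i <;> fin_cases j <;>
      simp [bm, Matrix.mul_apply, Fin.sum_univ_three, add_pow_q hK, mul_pow]
    · linear_combination (y.m * y.a ^ q) * h2
    · ring
    · ring

theorem Bg_coe (x : WT two hK) : (Bg two hK x : Matrix (Fin 3) (Fin 3) F) = bm q x.a x.b x.m := rfl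

variable {θ : F} (hθ : θ + θ ^ q = 1)

/-- base change -/
noncomputable def Mg : GL (Fin 3) F := Matrix.SpecialLinearGroup.toGL (MS two hθ)

theorem Mg_coe : (Mg two hθ : Matrix (Fin 3) (Fin 3) F) = Mm q θ := rfl

include hK in
theorem gl_conj_mem {g : GL (Fin 3) F} (hg : (g : Matrix (Fin 3) (Fin 3) F)ᵀ * J F * bar q (g : Matrix (Fin 3) (Fin 3) F) = J F) :
    Mg two hθ * g * (Mg two hθ)⁻¹ ∈ GU 3 F q := by
  have hM := Mm_form two hK hθ
  rw [mem_GU_iff hK]
  set M := Mg two hθ with hMdef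
  have hM' : (M : Matrix (Fin 3) (Fin 3) F)ᵀ * bar q (M : Matrix (Fin 3) (Fin 3) F) = J F := hM
  have h1 : (M : Matrix (Fin 3) (Fin 3) F) * ((M⁻¹ : GL (Fin 3) F) : Matrix (Fin 3) (Fin 3) F) = 1 := M.mul_inv
  have h2 : bar q (M : Matrix (Fin 3) (Fin 3) F) * bar q ((M⁻¹ : GL (Fin 3) F) : Matrix (Fin 3) (Fin 3) F) = 1 := by
    rw [← bar_mul hK, h1, bar_one hK]
  have h3 : ((M⁻¹ : GL (Fin 3) F) : Matrix (Fin 3) (Fin 3) F)ᵀ * (M : Matrix (Fin 3) (Fin 3) F)ᵀ = 1 := by
    rw [← Matrix.transpose_mul, h1, Matrix.transpose_one]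
  show ((M : Matrix (Fin 3) (Fin 3) F) * (g : Matrix (Fin 3) (Fin 3) F) * ((M⁻¹ : GL (Fin 3) F) : Matrix (Fin 3) (Fin 3) F))ᵀ *
    bar q ((M : Matrix (Fin 3) (Fin 3) F) * (g : Matrix (Fin 3) (Fin 3) F) * ((M⁻¹ : GL (Fin 3) F) : Matrix (Fin 3) (Fin 3) F)) = 1
  generalize (M : Matrix (Fin 3) (Fin 3) F) = X at *
  generalize ((M⁻¹ : GL (Fin 3) F) : Matrix (Fin 3) (Fin 3) F) = Y at *
  generalize (g : Matrix (Fin 3) (Fin 3) F) = g at *
  rw [bar_mul hK, bar_mul hK, Matrix.transpose_mul, Matrix.transpose_mul]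
  calc Yᵀ * (gᵀ * Xᵀ) * (bar q X * bar q g * bar q Y)
      = Yᵀ * (gᵀ * (Xᵀ * bar q X) * bar q g) * bar q Y := by
        simp only [Matrix.mul_assoc]
    _ = Yᵀ * (Xᵀ * bar q X) * bar q Y := by rw [hM', hg]
    _ = (Yᵀ * Xᵀ) * (bar q X * bar q Y) := by simp only [Matrix.mul_assoc]
    _ = 1 := by rw [h2, h3, Matrix.one_mul]

include hK in
theorem form_of_mem {h : GL (Fin 3) F} (hh : h ∈ GU 3 F q) :
    (((Mg two hθ)⁻¹ * h * Mg two hθ : GL (Fin 3) F) : Matrix (Fin 3) (Fin 3) F)ᵀ * J F *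
      bar q (((Mg two hθ)⁻¹ * h * Mg two hθ : GL (Fin 3) F) : Matrix (Fin 3) (Fin 3) F) = J F := by
  have hM := Mm_form two hK hθ
  rw [mem_GU_iff hK] at hh
  set M := Mg two hθ with hMdef
  have hM' : (M : Matrix (Fin 3) (Fin 3) F)ᵀ * bar q (M : Matrix (Fin 3) (Fin 3) F) = J F := hM
  have h1 : (M : Matrix (Fin 3) (Fin 3) F) * ((M⁻¹ : GL (Fin 3) F) : Matrix (Fin 3) (Fin 3) F) = 1 := M.mul_inv
  have h2 : bar q (M : Matrix (Fin 3) (Fin 3) F) * bar q ((M⁻¹ : GL (Fin 3) F) : Matrix (Fin 3) (Fin 3) F) = 1 := by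
    rw [← bar_mul hK, h1, bar_one hK]
  have h3 : ((M⁻¹ : GL (Fin 3) F) : Matrix (Fin 3) (Fin 3) F)ᵀ * (M : Matrix (Fin 3) (Fin 3) F)ᵀ = 1 := by
    rw [← Matrix.transpose_mul, h1, Matrix.transpose_one]
  have h3' : (M : Matrix (Fin 3) (Fin 3) F)ᵀ * ((M⁻¹ : GL (Fin 3) F) : Matrix (Fin 3) (Fin 3) F)ᵀ = 1 := by
    have : ((M⁻¹ : GL (Fin 3) F) : Matrix (Fin 3) (Fin 3) F) * (M : Matrix (Fin 3) (Fin 3) F) = 1 := M.inv_mul
    rw [← Matrix.transpose_mul, this, Matrix.transpose_one]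
  show (((M⁻¹ : GL (Fin 3) F) : Matrix (Fin 3) (Fin 3) F) * (h : Matrix (Fin 3) (Fin 3) F) * (M : Matrix (Fin 3) (Fin 3) F))ᵀ * J F *
    bar q (((M⁻¹ : GL (Fin 3) F) : Matrix (Fin 3) (Fin 3) F) * (h : Matrix (Fin 3) (Fin 3) F) * (M : Matrix (Fin 3) (Fin 3) F)) = J F
  generalize (M : Matrix (Fin 3) (Fin 3) F) = X at *
  generalize ((M⁻¹ : GL (Fin 3) F) : Matrix (Fin 3) (Fin 3) F) = Y at *
  generalize (h : Matrix (Fin 3) (Fin 3) F) = g at *
  rw [bar_mul hK, bar_mul hK, Matrix.transpose_mul, Matrix.transpose_mul, ← hM']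
  calc Xᵀ * (gᵀ * Yᵀ) * (Xᵀ * bar q X) * (bar q Y * bar q g * bar q X)
      = Xᵀ * (gᵀ * (Yᵀ * Xᵀ) * (bar q X * bar q Y) * bar q g) * bar q X := by
        simp only [Matrix.mul_assoc]
    _ = Xᵀ * (gᵀ * bar q g) * bar q X := by rw [h2, h3, Matrix.mul_one, Matrix.mul_one]
    _ = Xᵀ * bar q X := by rw [hh, Matrix.mul_one]

/-- embedding into `GU₃` -/
noncomputable def iota : WT two hK →* GU 3 F q where
  toFun x := ⟨Mg two hθ * Bg two hK x * (Mg two hθ)⁻¹, gl_conj_mem two hK hθ (bm_form two hK x)⟩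
  map_one' := by
    apply Subtype.ext
    show Mg two hθ * Bg two hK 1 * (Mg two hθ)⁻¹ = 1
    rw [map_one]; group
  map_mul' x y := by
    apply Subtype.ext
    show Mg two hθ * Bg two hK (x * y) * (Mg two hθ)⁻¹ = (Mg two hθ * Bg two hK x * (Mg two hθ)⁻¹) * (Mg two hθ * Bg two hK y * (Mg two hθ)⁻¹)
    rw [map_mul]; group

theorem iota_coe (x : WT two hK) : (iota two hK hθ x : GL (Fin 3) F) = Mg two hθ * Bg two hK x * (Mg two hθ)⁻¹ := rfl

/-- embedding into `PGU₃` -/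
noncomputable def pio : WT two hK →* (GU 3 F q ⧸ Subgroup.center (GU 3 F q)) :=
  (QuotientGroup.mk' _).comp (iota two hK hθ)

theorem scal_comm (c : F) (X : Matrix (Fin 3) (Fin 3) F) : diagonal (fun _ => c) * X = X * diagonal (fun _ => c) := by
  ext i j; simp [mul_comm]

theorem pio_inj : Function.Injective (pio two hK hθ) := by
  rw [injective_iff_map_eq_one]
  intro x hx
  have h0 : iota two hK hθ x ∈ Subgroup.center (GU 3 F q) := (QuotientGroup.eq_one_iff _).mp hx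
  obtain ⟨c, -, hc⟩ := H17.GUCenter.center_scalar hK h0 (by norm_num)
  have h1 : ((Mg two hθ * Bg two hK x * (Mg two hθ)⁻¹ : GL (Fin 3) F) : Matrix (Fin 3) (Fin 3) F) = diagonal fun _ => (c : F) := hc
  have h2 : (Bg two hK x : Matrix (Fin 3) (Fin 3) F) = diagonal fun _ => (c : F) := by
    have h3 : (Bg two hK x : Matrix (Fin 3) (Fin 3) F) =
        (((Mg two hθ)⁻¹ * (Mg two hθ * Bg two hK x * (Mg two hθ)⁻¹) * Mg two hθ : GL (Fin 3) F) : Matrix (Fin 3) (Fin 3) F) := by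
      congr 1; group
    rw [h3, Units.val_mul, Units.val_mul, h1, Matrix.mul_assoc, scal_comm, ← Matrix.mul_assoc]
    have h4 : (((Mg two hθ)⁻¹ : GL (Fin 3) F) : Matrix (Fin 3) (Fin 3) F) * (Mg two hθ : Matrix (Fin 3) (Fin 3) F) = 1 := (Mg two hθ).inv_mul
    rw [h4, Matrix.one_mul]
  rw [Bg_coe] at h2
  have e00 := congrFun (congrFun h2 0) 0
  have e11 := congrFun (congrFun h2 1) 1
  have e12 := congrFun (congrFun h2 1) 2
  have e02 := congrFun (congrFun h2 0) 2
  simp [bm] at e00 e11 e12 e02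
  apply WT.ext
  · exact e12
  · exact e02
  · show x.m = 1
    rw [e11, ← e00]

/-- the involution -/
def z0 : WT two hK := ⟨0, 1, 1, by rw [one_pow, zero_pow (by omega)]; linear_combination two, one_pow _⟩

theorem z0_inv : H62.PG.Inv (z0 two hK) := by
  refine ⟨fun h => one_ne_zero (congrArg WT.b h), ?_⟩
  apply WT.ext
  · show (0 : F) + 1 * 0 = 0
    ring
  · show (1 : F) + 1 + 0 ^ q * 1 * 0 = 0
    linear_combination two
  · show (1 : F) * 1 = 1
    ring

/-- the involution of `PGU₃` -/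
noncomputable def y0 : (GU 3 F q ⧸ Subgroup.center (GU 3 F q)) := pio two hK hθ (z0 two hK)

theorem y0_inv : H62.PG.Inv (y0 two hK hθ) := by
  obtain ⟨h1, h2⟩ := z0_inv two hK
  refine ⟨fun h => h1 (pio_inj two hK hθ (by rw [map_one]; exact h)), ?_⟩
  rw [y0, ← map_mul, h2, map_one]

/-- everything commuting with the involution comes from a triple -/
theorem exists_of_comm {k : (GU 3 F q ⧸ Subgroup.center (GU 3 F q))} (hk : k * y0 two hK hθ = y0 two hK hθ * k) :
    ∃ x : WT two hK, pio two hK hθ x = k := by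
  obtain ⟨h, rfl⟩ := QuotientGroup.mk_surjective k
  have h0 : (h * iota two hK hθ (z0 two hK))⁻¹ * (iota two hK hθ (z0 two hK) * h) ∈ Subgroup.center (GU 3 F q) :=
    QuotientGroup.eq.mp hk
  obtain ⟨c, -, hc⟩ := H17.GUCenter.center_scalar hK h0 (by norm_num)
  set M := Mg two hθ with hM
  set g : GL (Fin 3) F := M⁻¹ * (h : GL (Fin 3) F) * M with hg
  have hform := form_of_mem two hK hθ h.2
  -- t g = c g t
  have e1 : Bg two hK (z0 two hK) * g = g * Bg two hK (z0 two hK) *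
      (M⁻¹ * (((h * iota two hK hθ (z0 two hK))⁻¹ * (iota two hK hθ (z0 two hK) * h) : GU 3 F q) : GL (Fin 3) F) * M) := by
    rw [hg]
    show _ = M⁻¹ * (h : GL (Fin 3) F) * M * Bg two hK (z0 two hK) *
      (M⁻¹ * (((h : GL (Fin 3) F) * (M * Bg two hK (z0 two hK) * M⁻¹))⁻¹ * ((M * Bg two hK (z0 two hK) * M⁻¹) * (h : GL (Fin 3) F))) * M)
    group
  have e2 : bm q (0 : F) 1 1 * (g : Matrix (Fin 3) (Fin 3) F) = (g : Matrix (Fin 3) (Fin 3) F) * bm q (0 : F) 1 1 * diagonal (fun _ => (c : F)) := by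
    have h2 := congrArg (fun X : GL (Fin 3) F => (X : Matrix (Fin 3) (Fin 3) F)) e1
    simp only [Units.val_mul] at h2
    rw [hc] at h2
    have h4 : (((M)⁻¹ : GL (Fin 3) F) : Matrix (Fin 3) (Fin 3) F) * (M : Matrix (Fin 3) (Fin 3) F) = 1 := M.inv_mul
    rw [Matrix.mul_assoc ((M⁻¹ : GL (Fin 3) F) : Matrix (Fin 3) (Fin 3) F), scal_comm, ← Matrix.mul_assoc ((M⁻¹ : GL (Fin 3) F) : Matrix (Fin 3) (Fin 3) F), h4, Matrix.one_mul] at h2
    exact h2
  have hdet : (g : Matrix (Fin 3) (Fin 3) F).det ≠ 0 := by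
    intro h
    have h5 : (g : Matrix (Fin 3) (Fin 3) F) * ((g⁻¹ : GL (Fin 3) F) : Matrix (Fin 3) (Fin 3) F) = 1 := g.mul_inv
    have h6 := congrArg Matrix.det h5
    rw [Matrix.det_mul, h, zero_mul, Matrix.det_one] at h6
    exact zero_ne_one h6
  have hform' : (g : Matrix (Fin 3) (Fin 3) F)ᵀ * J F * bar q (g : Matrix (Fin 3) (Fin 3) F) = J F := hform
  generalize hgm : (g : Matrix (Fin 3) (Fin 3) F) = X at *
  have hc0 : (c : F) ≠ 0 := c.ne_zero
  generalize (c : F) = c' at *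
  have a00 := congrFun (congrFun e2 0) 0
  have a01 := congrFun (congrFun e2 0) 1
  have a02 := congrFun (congrFun e2 0) 2
  have a10 := congrFun (congrFun e2 1) 0
  have a11 := congrFun (congrFun e2 1) 1
  have a12 := congrFun (congrFun e2 1) 2
  have a20 := congrFun (congrFun e2 2) 0
  have a21 := congrFun (congrFun e2 2) 1
  have a22 := congrFun (congrFun e2 2) 2
  simp [bm, Matrix.mul_apply, Fin.sum_univ_three, zero_pow_q hK] at a00 a01 a02 a10 a11 a12 a20 a21 a22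
  have hc1 : c' = 1 := by
    by_contra hne
    have hz : ∀ x : F, x = x * c' → x = 0 := by
      intro x hx
      have : x * (c' - 1) = 0 := by linear_combination -hx
      rcases mul_eq_zero.mp this with h | h
      · exact h
      · exact absurd (sub_eq_zero.mp h) hne
    have z10 := hz _ a10
    have z20 := hz _ a20
    rw [z20, add_zero] at a00
    have z00 := hz _ a00
    apply hdet
    rw [Matrix.det_fin_three, z00, z10, z20]
    ring
  subst hc1
  have z20 : X 2 0 = 0 := by linear_combination a00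
  have z21 : X 2 1 = 0 := by linear_combination a01
  have z22 : X 2 2 = X 0 0 := by linear_combination a02
  have z10 : X 1 0 = 0 := by linear_combination -a12
  have f02 := congrFun (congrFun hform' 0) 2
  have f11 := congrFun (congrFun hform' 1) 1
  have f12 := congrFun (congrFun hform' 1) 2
  have f22 := congrFun (congrFun hform' 2) 2
  simp [J, bar, Matrix.mul_apply, Fin.sum_univ_three, zero_pow_q hK, z20, z21, z22, z10] at f02 f11 f12 f22
  set l := X 0 0 with hl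
  have hl0 : l ≠ 0 := by
    intro h
    rw [h, zero_mul] at f02
    exact zero_ne_one f02
  have hlq : l⁻¹ ^ q = l := by
    rw [inv_pow]
    have : l ^ q ≠ 0 := pow_ne_zero _ hl0
    field_simp
    linear_combination -f02
  have hli : l ^ q = l⁻¹ := by
    field_simp
    linear_combination f02
  let x : WT two hK := ⟨l⁻¹ * X 1 2, l⁻¹ * X 0 2, l⁻¹ * X 1 1, by
      rw [pow_succ, mul_pow, mul_pow, hlq]
      rw [hli] at f22
      have hll : l * l⁻¹ = 1 := mul_inv_cancel₀ hl0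
      linear_combination f22 - X 1 2 ^ q * X 1 2 * hll - X 1 2 ^ q * X 1 2 * two, by
      rw [pow_succ, mul_pow, hlq]
      have hll : l * l⁻¹ = 1 := mul_inv_cancel₀ hl0
      linear_combination f11 + (X 1 1 ^ q * X 1 1) * hll⟩
  refine ⟨x, ?_⟩
  -- `h = l · iota x`
  have hX : X = bm q x.a x.b x.m * diagonal (fun _ => l) := by
    have hll : l⁻¹ * l = 1 := inv_mul_cancel₀ hl0
    ext i j
    fin_cases i <;> fin_cases j <;>
      simp [bm, x, z20, z21, z22, z10, mul_pow, hlq, ← hl]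
    · rw [hli] at f12
      linear_combination l * f12 - X 0 1 * hll - (l * X 1 1 * X 1 2 ^ q) * two - (l * X 1 1 * X 1 2 ^ q) * hll
    · field_simp
    · field_simp
    · field_simp
  apply QuotientGroup.eq.mpr
  apply H17.GUCenter.scalar_mem_center (c := l)
  have e3 : (((iota two hK hθ x)⁻¹ * h : GU 3 F q) : GL (Fin 3) F) = M * ((Bg two hK x)⁻¹ * g) * M⁻¹ := by
    rw [hg]
    show (M * Bg two hK x * M⁻¹)⁻¹ * (h : GL (Fin 3) F) = _
    group
  rw [e3]
  simp only [Units.val_mul]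
  rw [hgm, hX, ← Matrix.mul_assoc ((((Bg two hK) x)⁻¹ : GL (Fin 3) F) : Matrix (Fin 3) (Fin 3) F)]
  have h7 : (((Bg two hK x)⁻¹ : GL (Fin 3) F) : Matrix (Fin 3) (Fin 3) F) * bm q x.a x.b x.m = 1 := (Bg two hK x).inv_mul
  have h8 : (M : Matrix (Fin 3) (Fin 3) F) * (((M)⁻¹ : GL (Fin 3) F) : Matrix (Fin 3) (Fin 3) F) = 1 := M.mul_inv
  rw [h7, Matrix.one_mul, ← scal_comm, Matrix.mul_assoc, h8, Matrix.mul_one]

/-- centraliser of the involution -/
noncomputable def cequiv (hq : 2 < q) : WT two hK ≃* Subgroup.centralizer ({y0 two hK hθ} : Set (GU 3 F q ⧸ Subgroup.center (GU 3 F q))) :=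
  MulEquiv.ofBijective ((pio two hK hθ).codRestrict (Subgroup.centralizer ({y0 two hK hθ} : Set (GU 3 F q ⧸ Subgroup.center (GU 3 F q)))) (fun x => by
    rw [Subgroup.mem_centralizer_singleton_iff, y0, ← map_mul, ← map_mul]
    exact congrArg _ ((WT.locA two hK hq).central _ _ (z0_inv two hK)).symm))
    ⟨fun x y hxy => pio_inj two hK hθ (congrArg Subtype.val hxy), fun k => by
      obtain ⟨x, hx⟩ := exists_of_comm two hK hθ (Subgroup.mem_centralizer_singleton_iff.mp k.2)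
      exact ⟨x, Subtype.ext hx⟩⟩

end H62.PG
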