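import Mathlib
import Cfsg.Agent.Lib.H62.PGU3D
import Cfsg.Agent.Lib.H62.PGU3F
import Cfsg.Agent.Lib.H8.SuzSylow
import Cfsg.Agent.Lib.H24.SzIso
import Cfsg.Agent.Lib.H6.PSUUniq
import Cfsg.Agent.Lib.H64.U34C

/-!
Identification with `PGU₃(q)`.
-/

set_option autoImplicit false
set_option linter.unusedSimpArgs false
set_option linter.unusedVariables false
set_option linter.unusedSectionVars false

namespace H62.PG

open Subgroup
open scoped Pointwise

section excl

variable {G A : Type*} [Group G] [Finite G] [CommGroup A] [Finite A] {n q : ℕ} (c : Ctx G A n q)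
include c

theorem not_all_sq (S : Sylow 2 G) : ¬ ∀ s ∈ S, s * s = 1 := by
  intro hall
  obtain ⟨χ, dS⟩ := exists_data c S
  have h4 := four_le c.hn c.hq
  have h2 := dS.count
  have h3 : Nat.card {x : G // x ∈ (S : Subgroup G) ∧ Inv x} = q ^ 3 - 1 := by
    classical
    have e : {x : G // x ∈ (S : Subgroup G) ∧ Inv x} ≃ {x : (S : Subgroup G) // x ≠ 1} :=
      { toFun := fun x => ⟨⟨x.1, x.2.1⟩, fun h => x.2.2.1 (congrArg Subtype.val h)⟩
        invFun := fun x => ⟨x.1.1, x.1.2, fun h => x.2 (Subtype.ext h), hall _ x.1.2⟩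
        left_inv := fun x => rfl
        right_inv := fun x => rfl }
    rw [Nat.card_congr e]
    have : Fintype (S : Subgroup G) := Fintype.ofFinite _
    rw [Nat.card_eq_fintype_card, Fintype.card_subtype_compl, Fintype.card_subtype_eq, ← Nat.card_eq_fintype_card, dS.cardS]
  rw [h3] at h2
  have h5 : q ^ 3 = q := by
    have : 1 ≤ q ^ 3 := Nat.one_le_pow _ _ (by omega)
    omega
  have h6 : q * 1 < q * (q * q) := Nat.mul_lt_mul_of_pos_left (by nlinarith) (by omega)
  have h7 : q ^ 3 = q * (q * q) := by ring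
  omega

omit c in
/-- 2-elements lie in normal subgroups of odd index -/
theorem mem_of_odd_index {L : Subgroup G} (hL : L.Normal) (hodd : Odd L.index) {x : G} {k : ℕ} (hx : x ^ (2 ^ k) = 1) :
    x ∈ L := by
  rw [← QuotientGroup.eq_one_iff]
  have h1 : orderOf (x : G ⧸ L) ∣ L.index := orderOf_dvd_natCard _
  have h2 : orderOf (x : G ⧸ L) ∣ 2 ^ k := orderOf_dvd_of_pow_eq_one (by rw [← QuotientGroup.mk_pow, hx, QuotientGroup.mk_one])
  have h3 : Nat.Coprime L.index (2 ^ k) := Nat.Coprime.pow_right k hodd.coprime_two_right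
  have h4 := Nat.dvd_gcd h1 h2
  rw [h3] at h4
  exact orderOf_eq_one_iff.mp (Nat.dvd_one.mp h4)

/-- Sylow 2-subgroups of `L` -/
theorem exists_sylow {L : Subgroup G} (hL : L.Normal) (hodd : Odd L.index) (S : Sylow 2 G) :
    ∃ SL : Sylow 2 L, Nat.card SL = q ^ 3 ∧ Nat.card {x : SL // x * x = 1} = q ∧
      ∀ x : L, x ∈ SL ↔ (x : G) ∈ S := by
  have : Fact (Nat.Prime 2) := ⟨Nat.prime_two⟩
  have h4 := four_le c.hn c.hq
  obtain ⟨χ, dS⟩ := exists_data c S
  have hle : (S : Subgroup G) ≤ L := by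
    intro x hx
    obtain ⟨k, hk⟩ := S.isPGroup' ⟨x, hx⟩
    exact mem_of_odd_index hL hodd (k := k) (congrArg Subtype.val hk)
  let SL : Sylow 2 L := S.subtype hle
  have hmem : ∀ x : L, x ∈ SL ↔ (x : G) ∈ S := fun x => Iff.rfl
  have e : SL ≃ (S : Subgroup G) :=
    { toFun := fun x => ⟨x.1.1, x.2⟩
      invFun := fun x => ⟨⟨x.1, hle x.2⟩, x.2⟩
      left_inv := fun x => rfl
      right_inv := fun x => rfl }
  refine ⟨SL, ?_, ?_, hmem⟩
  · rw [Nat.card_congr e, dS.cardS]
  · have h1 : Nat.card {x : SL // x * x = 1} = Nat.card {x : SL // x * x = 1 ∧ x ≠ 1} + 1 := by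
      classical
      have : Fintype SL := Fintype.ofFinite _
      have h2 : (Finset.univ.filter (fun x : SL => x * x = 1)) =
          insert 1 (Finset.univ.filter (fun x : SL => x * x = 1 ∧ x ≠ 1)) := by
        ext x
        simp only [Finset.mem_filter, Finset.mem_univ, true_and, Finset.mem_insert]
        constructor
        · intro h
          by_cases hx : x = 1
          · exact Or.inl hx
          · exact Or.inr ⟨h, hx⟩
        · rintro (h | h)
          · rw [h, one_mul]
          · exact h.1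
      rw [Nat.card_eq_fintype_card, Nat.card_eq_fintype_card, Fintype.card_subtype, Fintype.card_subtype, h2,
        Finset.card_insert_of_notMem (by simp)]
    have h2 : Nat.card {x : SL // x * x = 1 ∧ x ≠ 1} = q - 1 := by
      rw [← dS.count]
      exact Nat.card_congr
        { toFun := fun x => ⟨x.1.1.1, x.1.2, fun h => x.2.2 (Subtype.ext (Subtype.ext h)),
            congrArg (fun y : SL => ((y : L) : G)) x.2.1⟩
          invFun := fun x => ⟨⟨⟨x.1, hle x.2.1⟩, x.2.1⟩, Subtype.ext (Subtype.ext x.2.2.2),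
            fun h => x.2.2.1 (congrArg (fun y : SL => ((y : L) : G)) h)⟩
          left_inv := fun x => rfl
          right_inv := fun x => rfl }
    rw [h1, h2]; omega

omit c in
/-- in characteristic two a 2-element of `PSL₂` is an involution -/
theorem psl_sq {F : Type*} [Field F] [Fintype F] {m : ℕ} (hF : Fintype.card F = 2 ^ m) (hm : 1 ≤ m)
    {x : Matrix.ProjectiveSpecialLinearGroup (Fin 2) F} {k : ℕ} (hx : x ^ (2 ^ k) = 1) : x * x = 1 := by
  have : Fact (Nat.Prime 2) := ⟨Nat.prime_two⟩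
  have hchar : CharP F 2 := charP_of_card_eq_prime_pow hF
  have two : (2 : F) = 0 := CharTwo.two_eq_zero
  obtain ⟨X, rfl⟩ := QuotientGroup.mk_surjective x
  have h1 : X ^ (2 ^ k) ∈ Subgroup.center (Matrix.SpecialLinearGroup (Fin 2) F) := by
    rw [← QuotientGroup.eq_one_iff]; exact hx
  rw [Matrix.SpecialLinearGroup.mem_center_iff] at h1
  obtain ⟨r, hr, hr2⟩ := h1
  have hr1 : r = 1 := by
    have h3 : (r - 1) * (r - 1) = 0 := by
      have h4 : r ^ 2 = 1 := by simpa using hr
      linear_combination h4 + (1 - r) * two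
    exact sub_eq_zero.mp (mul_self_eq_zero.mp h3)
  subst hr1
  have h2 : (X : Matrix (Fin 2) (Fin 2) F) ^ (2 ^ k) = 1 := by
    have h3 : ((X ^ (2 ^ k) : Matrix.SpecialLinearGroup (Fin 2) F) : Matrix (Fin 2) (Fin 2) F) = 1 := by
      rw [← hr2]; simp
    rw [← h3]; exact (Matrix.SpecialLinearGroup.coe_pow X _).symm
  set Y : Matrix (Fin 2) (Fin 2) F := (X : Matrix (Fin 2) (Fin 2) F) with hY
  set N : Matrix (Fin 2) (Fin 2) F := Y - 1 with hN
  have hNil : N ^ (2 ^ k) = 0 := by
    have h4 : N ^ (2 ^ k) = Y ^ (2 ^ k) - 1 ^ (2 ^ k) := by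
      rw [hN]
      exact sub_pow_char_pow_of_commute 2 k (Commute.one_right Y)
    rw [h4, h2, one_pow, sub_self]
  have hdet : N.det = 0 := by
    have := congrArg Matrix.det hNil
    rw [Matrix.det_pow, Matrix.det_zero] at this
    exact pow_eq_zero_iff (by positivity) |>.mp this
  have hch : N * N = N.trace • N := by
    rw [Matrix.det_fin_two] at hdet
    ext i j
    fin_cases i <;> fin_cases j <;>
      simp [Matrix.mul_apply, Fin.sum_univ_two, Matrix.trace]
    · linear_combination -hdet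
    · ring
    · ring
    · linear_combination -hdet
  have hpow : ∀ j : ℕ, N ^ (j + 1) = N.trace ^ j • N := by
    intro j
    induction j with
    | zero => simp
    | succ j ih => rw [pow_succ, ih, Matrix.smul_mul, hch, smul_smul, pow_succ]
  have hNN : N * N = 0 := by
    have h5 : 2 ^ k = (2 ^ k - 1) + 1 := by have : 1 ≤ 2 ^ k := Nat.one_le_two_pow; omega
    rw [h5, hpow] at hNil
    rcases smul_eq_zero.mp hNil with h | h
    · have : N.trace = 0 := eq_zero_of_pow_eq_zero h
      rw [hch, this, zero_smul]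
    · rw [h, Matrix.zero_mul]
  have hYY : Y * Y = 1 := by
    have h6 : Y = 1 + N := by rw [hN]; abel
    rw [h6]
    have h7 : (1 + N) * (1 + N) = 1 + (2 : F) • N + N * N := by
      rw [two_smul]; noncomm_ring
    rw [h7, two, zero_smul, hNN, add_zero, add_zero]
  rw [← QuotientGroup.mk_mul]
  have : X * X = 1 := Matrix.SpecialLinearGroup.ext _ _ (fun i j => congrFun (congrFun hYY i) j)
  rw [this]; rfl

theorem not_psl {L : Subgroup G} (hL : L.Normal) (hodd : Odd L.index) {F : Type*} [Field F] [Fintype F] {m : ℕ}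
    (hF : Fintype.card F = 2 ^ m) (hm : 2 ≤ m) (e : L ≃* Matrix.ProjectiveSpecialLinearGroup (Fin 2) F) : False := by
  have : Fact (Nat.Prime 2) := ⟨Nat.prime_two⟩
  obtain ⟨S⟩ : Nonempty (Sylow 2 G) := inferInstance
  apply not_all_sq c S
  intro s hs
  obtain ⟨k, hk⟩ := S.isPGroup' ⟨s, hs⟩
  have hk' : s ^ (2 ^ k) = 1 := congrArg Subtype.val hk
  have hsL := mem_of_odd_index hL hodd hk'
  have h1 : (e ⟨s, hsL⟩) ^ (2 ^ k) = 1 := by
    rw [← map_pow, ← map_one e]
    congr 1
    exact Subtype.ext hk'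
  have h2 := psl_sq hF (by omega) h1
  rw [← map_mul, ← map_one e] at h2
  exact congrArg Subtype.val (e.injective h2)

theorem not_sz {L : Subgroup G} (hL : L.Normal) (hodd : Odd L.index) {F : Type*} [Field F] [Fintype F] {m : ℕ}
    (hm : 1 ≤ m) (hF : Fintype.card F = 2 ^ (2 * m + 1)) (e : L ≃* Cfsg.Lie.Sz F (2 ^ (m + 1))) : False := by
  have : Fact (Nat.Prime 2) := ⟨Nat.prime_two⟩
  have h4 := four_le c.hn c.hq
  obtain ⟨S⟩ : Nonempty (Sylow 2 G) := inferInstance
  obtain ⟨SL, h1, h2, -⟩ := exists_sylow c hL hodd S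
  let e1 : L ≃* Cfsg.Sz F m := e.trans (H24.SzIso.equiv hF hm).symm
  let P : Sylow 2 (Cfsg.Sz F m) := SL.mapSurjective (f := e1.toMonoidHom) e1.surjective
  have e2 : SL ≃* P := (e1.subgroupMap (SL : Subgroup L))
  have e3 : P ≃* H8.SuzSylow.TT (m := m) hF := (Sylow.equiv (H8.SuzSylow.PT hm hF) P).symm
  let e4 := e2.trans e3
  have h5 : Nat.card SL = (2 ^ (2 * m + 1)) ^ 2 := by rw [Nat.card_congr e4.toEquiv, H8.SuzSylow.card_TT]
  have h6 : Nat.card {x : SL // x * x = 1} = 2 ^ (2 * m + 1) := by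
    have e5 : {x : SL // x * x = 1} ≃ {x : H8.SuzSylow.TT (m := m) hF // x * x = 1} :=
      e4.toEquiv.subtypeEquiv (fun x => by
        constructor
        · intro h; show e4 x * e4 x = 1; rw [← map_mul, h, map_one]
        · intro h; exact e4.injective (by rw [map_mul, map_one]; exact h))
    rw [Nat.card_congr e5, ← hF, ← Nat.card_eq_fintype_card]
    symm
    refine Nat.card_congr (Equiv.ofBijective (fun b : F => (⟨⟨H8.SuzSylow.tG hF 0 b, 0, b, rfl⟩, ?_⟩ : {x : H8.SuzSylow.TT (m := m) hF // x * x = 1})) ⟨?_, ?_⟩)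
    · apply Subtype.ext
      have h7 := H8.SuzSylow.tG_sq (m := m) hF 0 b
      rw [mul_zero, pow_two, H8.SuzSylow.tG_one] at h7
      exact h7
    · intro b d hbd
      have h8 := congrArg (fun y : {x : H8.SuzSylow.TT (m := m) hF // x * x = 1} => ((y : H8.SuzSylow.TT (m := m) hF) : Cfsg.Sz F m)) hbd
      exact (H8.SuzSylow.tG_inj hF h8).2
    · rintro ⟨⟨_, a, b, rfl⟩, h⟩
      have h7 := H8.SuzSylow.tG_sq (m := m) hF a b
      have h8 : (H8.SuzSylow.tG hF a b : Cfsg.Sz F m) * H8.SuzSylow.tG hF a b = 1 := congrArg Subtype.val h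
      rw [pow_two, h8, ← H8.SuzSylow.tG_one hF] at h7
      have h9 := (H8.SuzSylow.tG_inj hF h7).2
      have ha : a = 0 := by
        rcases mul_eq_zero.mp h9.symm with h | h
        · exact H8.SuzField.th_eq_zero.mp h
        · exact h
      subst ha
      exact ⟨b, rfl⟩
  rw [h2] at h6
  rw [h1, ← h6] at h5
  have h7 : q * q < q * q * q := by nlinarith
  have h8 : q ^ 3 = q * q * q := by ring
  have h9 : q ^ 2 = q * q := by ring
  omega

theorem psu_q {L : Subgroup G} (hL : L.Normal) (hodd : Odd L.index) {F : Type*} [Field F] [Fintype F] {m : ℕ}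
    (hm : 2 ≤ m) (hF : Fintype.card F = (2 ^ m) ^ 2) (e : L ≃* Cfsg.PSU 3 F (2 ^ m)) : 2 ^ m = q := by
  have : Fact (Nat.Prime 2) := ⟨Nat.prime_two⟩
  have hchar : CharP F 2 := charP_of_card_eq_prime_pow (f := m * 2) (by rw [hF, ← pow_mul])
  have two : (2 : F) = 0 := CharTwo.two_eq_zero
  obtain ⟨S⟩ : Nonempty (Sylow 2 G) := inferInstance
  obtain ⟨SL, h1, -, -⟩ := exists_sylow c hL hodd S
  let P : Sylow 2 (Cfsg.PSU 3 F (2 ^ m)) := SL.mapSurjective (f := e.toMonoidHom) e.surjective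
  have e2 : SL ≃* P := (e.subgroupMap (SL : Subgroup L))
  obtain ⟨e3⟩ := H24.U3Syl.main two hF hm rfl P
  have h5 : Nat.card SL = (2 ^ m) ^ 3 := by
    rw [Nat.card_congr (e2.trans e3).toEquiv, H24.U3Syl.card_U]
  rw [h1] at h5
  exact (Nat.pow_left_injective (n := 3) (by norm_num) h5).symm

end excl

end H62.PG
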