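import Mathlib
import Cfsg.Agent.Lib.H62.PGU3G

/-!
Identification with `PGU₃(q)` (2).
-/

set_option autoImplicit false
set_option linter.unusedSimpArgs false
set_option linter.unusedVariables false
set_option linter.unusedSectionVars false

namespace H62.PG

open Subgroup H6.PSUBasic H6.PSUUniq Matrix

section trans

variable {F : Type*} [Field F] [Fintype F] {q : ℕ} (two : (2 : F) = 0) (hF : Fintype.card F = q ^ 2)

/-- the matrix `v vᵀ`, `v = (1,1,0)` -/
def NN (F : Type*) [Field F] : Matrix (Fin 3) (Fin 3) F := !![1, 1, 0; 1, 1, 0; 0, 0, 0]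

include two in
theorem NN_sq : NN F * NN F = 0 := by
  ext i j
  fin_cases i <;> fin_cases j <;> simp [NN, Matrix.mul_apply, Fin.sum_univ_three] <;> linear_combination two

include two in
theorem tv_det (b : F) : (1 + b • NN F).det = 1 := by
  simp [NN, Matrix.det_fin_three]
  linear_combination b * two

include two in
theorem tv_trace (b : F) : (1 + b • NN F).trace = 1 := by
  simp [NN, Matrix.trace, Fin.sum_univ_three]
  linear_combination (1 + b) * two

/-- transvection in `SL₃` -/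
def tS (two : (2 : F) = 0) (b : F) : SpecialLinearGroup (Fin 3) F := ⟨1 + b • NN F, tv_det two b⟩

/-- transvection in `SU₃` -/
def tb (two : (2 : F) = 0) (hF : Fintype.card F = q ^ 2) (b : F) (hb : b ^ q = b) : Cfsg.SU 3 F q := ⟨tS two b, by
  rw [H7.UnitSU.mem_SU_iff hF]
  show (1 + b • NN F)ᵀ * H7.UnitSU.bar q (1 + b • NN F) = 1
  have h1 : (1 + b • NN F)ᵀ = 1 + b • NN F := by
    ext i j
    fin_cases i <;> fin_cases j <;> simp [NN]
  have h2 : H7.UnitSU.bar q (1 + b • NN F) = 1 + b • NN F := by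
    ext i j
    fin_cases i <;> fin_cases j <;> simp [NN, H7.UnitSU.bar, H7.QuadExt.add_pow_q hF, hb, H7.QuadExt.zero_pow_q hF]
  rw [h1, h2, Matrix.add_mul, Matrix.mul_add, Matrix.mul_add, Matrix.one_mul, Matrix.mul_one, Matrix.one_mul,
    Matrix.smul_mul, Matrix.mul_smul, NN_sq two, smul_zero, smul_zero, add_zero]
  have h3 : b • NN F + b • NN F = 0 := by
    rw [← two_smul F, smul_smul, two, zero_mul, zero_smul]
  rw [add_assoc, h3, add_zero]⟩

theorem mt_tb (b : F) (hb : b ^ q = b) : mt (tb two hF b hb) = 1 + b • NN F := rfl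

theorem tb_mul (b d : F) (hb : b ^ q = b) (hd : d ^ q = d) :
    tb two hF b hb * tb two hF d hd = tb two hF (b + d) (by rw [H7.QuadExt.add_pow_q hF, hb, hd]) := by
  apply mt_injective
  show (1 + b • NN F) * (1 + d • NN F) = 1 + (b + d) • NN F
  rw [Matrix.add_mul, Matrix.mul_add, Matrix.mul_add, Matrix.one_mul, Matrix.mul_one, Matrix.one_mul,
    Matrix.smul_mul, Matrix.mul_smul, NN_sq two, smul_zero, smul_zero, add_zero, add_smul]
  abel

theorem tb_map (b : F) (hb : b ^ q = b) (τ : F ≃+* F) : (mt (tb two hF b hb)).map τ = 1 + τ b • NN F := by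
  ext i j
  fin_cases i <;> fin_cases j <;> simp [mt_tb, NN]

theorem mk_tb_ne (b : F) (hb : b ^ q = b) (hb0 : b ≠ 0) :
    (QuotientGroup.mk (tb two hF b hb) : Cfsg.PSU 3 F q) ≠ 1 := by
  intro h
  have h1 : (QuotientGroup.mk (1 : Cfsg.SU 3 F q) : Cfsg.PSU 3 F q) = QuotientGroup.mk (tb two hF b hb) := by
    rw [h]; rfl
  rw [mk_eq_mk_iff hF (by norm_num)] at h1
  obtain ⟨c, hc⟩ := h1
  have h2 : (1 + b • NN F) = c • (1 : Matrix (Fin 3) (Fin 3) F) := hc
  have h3 := congrFun (congrFun h2 0) 1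
  simp [NN] at h3
  exact hb0 h3

theorem tb_inv (b : F) (hb : b ^ q = b) (hb0 : b ≠ 0) :
    Inv (QuotientGroup.mk (tb two hF b hb) : Cfsg.PSU 3 F q) := by
  refine ⟨mk_tb_ne two hF b hb hb0, ?_⟩
  rw [← QuotientGroup.mk_mul, tb_mul]
  have h1 : tb two hF (b + b) (by rw [H7.QuadExt.add_pow_q hF, hb]) = 1 := by
    apply mt_injective
    show (1 + (b + b) • NN F) = 1
    have : b + b = 0 := by linear_combination b * two
    rw [this, zero_smul, add_zero]
  rw [h1]; rfl

theorem tb_comm (b d : F) (hb : b ^ q = b) (hd : d ^ q = d) :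
    (QuotientGroup.mk (tb two hF b hb) : Cfsg.PSU 3 F q) * QuotientGroup.mk (tb two hF d hd) =
      QuotientGroup.mk (tb two hF d hd) * QuotientGroup.mk (tb two hF b hb) := by
  rw [← QuotientGroup.mk_mul, ← QuotientGroup.mk_mul, tb_mul, tb_mul]
  congr 1
  apply mt_injective
  show 1 + (b + d) • NN F = 1 + (d + b) • NN F
  rw [add_comm b d]

/-- if `psiSU g τ` fixes all the `T_b`, then `τ` fixes the subfield -/
theorem tau_fix {g : Cfsg.GU 3 F q} {τ : F ≃+* F}
    (h : ∀ b (hb : b ^ q = b), psiSU g τ (QuotientGroup.mk (tb two hF b hb)) = QuotientGroup.mk (tb two hF b hb))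
    (b : F) (hb : b ^ q = b) : τ b = b := by
  have key : ∀ b (hb : b ^ q = b), τ b • (gt g * NN F * gt g⁻¹) = b • NN F := by
    intro b hb
    have h1 := h b hb
    rw [psiSU_mk, eq_comm, mk_eq_mk_iff hF (by norm_num)] at h1
    obtain ⟨z, hz⟩ := h1
    rw [mt_semiSU, tb_map, mt_tb] at hz
    have h2 : gt g * (1 + τ b • NN F) * gt g⁻¹ = 1 + τ b • (gt g * NN F * gt g⁻¹) := by
      rw [Matrix.mul_add, Matrix.mul_one, Matrix.add_mul, gt_mul_inv, Matrix.mul_smul, Matrix.smul_mul]
    have h3 := congrArg Matrix.trace hz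
    have h4 : (gt g * (1 + τ b • NN F) * gt g⁻¹).trace = 1 := by
      rw [Matrix.trace_mul_cycle, gt_inv_mul, Matrix.one_mul, tv_trace two]
    rw [h4, Matrix.trace_smul, tv_trace two, smul_eq_mul, mul_one] at h3
    rw [h2, ← h3, one_smul] at hz
    exact add_left_cancel hz
  have h1 := key 1 (one_pow q)
  rw [map_one, one_smul, one_smul] at h1
  have h2 := key b hb
  rw [h1] at h2
  have h3 := congrFun (congrFun h2 0) 0
  simpa [NN] using h3

include hF in
/-- an automorphism of odd order fixing the subfield is trivial -/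
theorem tau_one {τ : F ≃+* F} (h : ∀ b : F, b ^ q = b → τ b = b) {k : ℕ} (hk : Odd k) (hτ : τ ^ k = 1) : τ = 1 := by
  have h1 : ∀ x : F, τ x = x ∨ τ x = x ^ q := by
    intro x
    have e1 : τ (x + x ^ q) = x + x ^ q := h _ (by
      rw [H7.QuadExt.add_pow_q hF, H7.QuadExt.pow_q_pow_q hF, add_comm])
    have e2 : τ (x ^ (q + 1)) = x ^ (q + 1) := h _ (H7.QuadExt.norm_fixed hF x)
    rw [map_add] at e1
    rw [map_pow, pow_succ, pow_succ] at e2
    rw [map_pow] at e1
    have e3 : (τ x - x) * (τ x - x ^ q) = 0 := by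
      linear_combination τ x * e1 - e2
    rcases mul_eq_zero.mp e3 with h | h
    · exact Or.inl (sub_eq_zero.mp h)
    · exact Or.inr (sub_eq_zero.mp h)
  have h2 : τ ^ 2 = 1 := by
    ext x
    show τ (τ x) = x
    rcases h1 x with hx | hx
    · rw [hx, hx]
    · have := h (x + x ^ q) (by rw [H7.QuadExt.add_pow_q hF, H7.QuadExt.pow_q_pow_q hF, add_comm])
      rw [map_add, hx] at this
      rw [hx]
      linear_combination this
  obtain ⟨j, rfl⟩ := hk
  rw [pow_succ, pow_mul, h2, one_pow, one_mul] at hτ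
  exact hτ

end trans

section ident

variable {G A : Type*} [Group G] [Finite G] [CommGroup A] [Finite A] {n q : ℕ} (c : Ctx G A n q)
variable {F : Type*} [Field F] [Fintype F] (two : (2 : F) = 0) (hF : Fintype.card F = q ^ 2)
variable {L : Subgroup G} [hL : L.Normal] (hodd : Odd L.index) (e : L ≃* Cfsg.PSU 3 F q)

/-- action of `G` on `L` -/
noncomputable def Phi : G →* MulAut (Cfsg.PSU 3 F q) := (MulAut.congr e).toMonoidHom.comp MulAut.conjNormal

theorem Phi_apply (g : G) (l : L) : Phi e g (e l) = e ⟨g * l * g⁻¹, hL.conj_mem l l.2 g⟩ := by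
  show e (MulAut.conjNormal g (e.symm (e l))) = _
  rw [MulEquiv.symm_apply_apply]
  congr 1

theorem Phi_mem (l : L) : Phi e (l : G) = MulAut.conj (e l) := by
  ext x
  obtain ⟨y, rfl⟩ := e.surjective x
  rw [Phi_apply, MulAut.conj_apply, ← map_mul, ← map_inv, ← map_mul]
  rfl

include c

theorem inv_mem_L (hodd : Odd L.index) {t : G} (ht : Inv t) : t ∈ L :=
  mem_of_odd_index hL hodd (k := 1) (by rw [pow_one, pow_two]; exact ht.2)

theorem Phi_inj (hodd : Odd L.index) : Function.Injective (Phi e) := by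
  have : Fact (Nat.Prime 2) := ⟨Nat.prime_two⟩
  rw [← MonoidHom.ker_eq_bot_iff]
  apply odd_normal c (MonoidHom.normal_ker _)
  by_contra h
  rw [Nat.not_odd_iff_even, even_iff_two_dvd] at h
  obtain ⟨d, hd⟩ := exists_prime_orderOf_dvd_card' 2 h
  have h1 : Inv (d : G) := by
    have h2 : orderOf (d : G) = 2 := by rw [Subgroup.orderOf_coe]; exact hd
    exact ⟨fun h => by rw [h, orderOf_one] at h2; omega, H37.Invol.mul_self_of_order_two h2⟩
  obtain ⟨S, hS⟩ := exists_syl h1
  have hker : Phi e (d : G) = 1 := d.2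
  have hcomm : ∀ l : L, (d : G) * l = l * d := by
    intro l
    have h3 := Phi_apply e (d : G) l
    rw [hker] at h3
    have h4 : l = ⟨(d : G) * l * (d : G)⁻¹, hL.conj_mem l l.2 d⟩ := e.injective h3
    have h5 : (l : G) = (d : G) * l * (d : G)⁻¹ := congrArg Subtype.val h4
    calc (d : G) * l = ((d : G) * l * (d : G)⁻¹) * d := by group
      _ = l * d := by rw [← h5]
  apply c.nn S
  have : Subsingleton (Sylow 2 G) := by
    refine ⟨fun U V => ?_⟩
    have key : ∀ U : Sylow 2 G, U = S := by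
      intro U
      obtain ⟨x, hx, hxU⟩ := exists_inv c U
      have h6 : x ∈ L := inv_mem_L c hodd hx
      have h7 : (d : G) * x = x * d := hcomm ⟨x, h6⟩
      exact eq_of_mem c h1 (mem_of_comm c hx h1 h7.symm hxU) hS
    rw [key U, key V]
  exact Sylow.normal_of_subsingleton S

/-- the standard involution of `L` -/
noncomputable def tt : G := (e.symm (QuotientGroup.mk (tb two hF 1 (one_pow q))) : L)

omit c in
theorem inv_coe {b : F} {hb : b ^ q = b} (hb0 : b ≠ 0) :
    Inv ((e.symm (QuotientGroup.mk (tb two hF b hb)) : L) : G) := by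
  have h1 : Inv (e.symm (QuotientGroup.mk (tb two hF b hb)) : L) := (inv_iff e.symm _).mpr (tb_inv two hF b hb hb0)
  exact ⟨fun h => h1.1 (Subtype.ext h), congrArg Subtype.val h1.2⟩

theorem Phi_c (hodd : Odd L.index) (hq32 : ¬ (3 = 3 ∧ q = 2)) {x : G} (hx : x * tt two hF e = tt two hF e * x) :
    ∃ g : Cfsg.GU 3 F q, Phi e x = psiSU g 1 := by
  obtain ⟨g, τ, hg⟩ := aut_psu hF (by norm_num) hq32 (Phi e x)
  have ht : Inv (tt two hF e) := inv_coe two hF e one_ne_zero
  obtain ⟨S, hS⟩ := exists_syl ht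
  obtain ⟨χ, dS⟩ := exists_data c S
  have hxC : x ∈ CI (S : Subgroup G) := by
    rw [← dS.cent _ hS ht, mem_centralizer_singleton_iff]
    exact hx
  have h1 : ∀ b (hb : b ^ q = b), psiSU g τ (QuotientGroup.mk (tb two hF b hb)) = QuotientGroup.mk (tb two hF b hb) := by
    intro b hb
    rw [← hg]
    set l : L := e.symm (QuotientGroup.mk (tb two hF b hb)) with hl
    have hel : e l = QuotientGroup.mk (tb two hF b hb) := by rw [hl, MulEquiv.apply_symm_apply]
    rw [← hel, Phi_apply]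
    congr 1
    apply Subtype.ext
    show x * (l : G) * x⁻¹ = l
    have h2 : x * (l : G) = l * x := by
      by_cases hb0 : b = 0
      · have h3 : tb two hF b hb = 1 := by
          apply mt_injective
          show 1 + b • NN F = 1
          rw [hb0, zero_smul, add_zero]
        have h4 : l = 1 := by rw [hl, h3]; exact map_one e.symm
        rw [h4, Subgroup.coe_one, mul_one, one_mul]
      · have h3 : Inv (l : G) := inv_coe two hF e hb0
        have h4 : tt two hF e * (l : G) = (l : G) * tt two hF e := by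
          rw [tt, hl, ← Subgroup.coe_mul, ← Subgroup.coe_mul, ← map_mul, ← map_mul, tb_comm]
        have h5 : (l : G) ∈ S := mem_of_comm c ht h3 h4 hS
        exact ((mem_centralizer_iff.mp hxC) l ⟨h5, h3⟩).symm
    rw [h2]; group
  have h2 : ∀ b : F, b ^ q = b → τ b = b := fun b hb => tau_fix two hF h1 b hb
  -- order
  obtain ⟨Ψ, hΨ⟩ := exists_fieldPart hF (by norm_num : 3 ≤ 3) hq32
  have h3 : τ ^ L.index = 1 := by
    rw [← hΨ g τ, ← hg, ← map_pow, ← map_pow]
    have h4 : x ^ L.index ∈ L := Subgroup.pow_index_mem L x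
    have h5 := Phi_mem e ⟨x ^ L.index, h4⟩
    have h6 : Phi e (x ^ L.index) = MulAut.conj (e ⟨x ^ L.index, h4⟩) := h5
    rw [h6]
    obtain ⟨s, hs⟩ := QuotientGroup.mk_surjective (e ⟨x ^ L.index, h4⟩)
    rw [← hs, conj_eq_psiSU, hΨ]
  have h4 := tau_one hF h2 hodd h3
  exact ⟨g, by rw [hg, h4]⟩

/-- `L` is transitive on the involutions -/
theorem L_trans (hodd : Odd L.index) {x y : G} (hx : Inv x) (hy : Inv y) : ∃ l ∈ L, l * x * l⁻¹ = y := by
  have key : ∀ {x y : G} {S T : Sylow 2 G}, S ≠ T → Inv x → x ∈ S → Inv y → y ∈ T → ∃ l ∈ L, l * x * l⁻¹ = y := by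
    intro x y S T hST hx hxS hy hyT
    obtain ⟨u, hu, h1, -⟩ := swap c hST hx hxS hy hyT
    exact ⟨u, inv_mem_L c hodd hu, by rw [hu.inv_eq]; exact h1⟩
  obtain ⟨S, hS⟩ := exists_syl hx
  obtain ⟨T, hT⟩ := exists_syl hy
  by_cases hST : S = T
  · subst hST
    obtain ⟨U, hU⟩ : ∃ T : Sylow 2 G, T ≠ S := by
      by_contra h
      push Not at h
      have : Subsingleton (Sylow 2 G) := ⟨fun A B => (h A).trans (h B).symm⟩
      exact c.nn S (Sylow.normal_of_subsingleton S)
    obtain ⟨z, hz, hzU⟩ := exists_inv c U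
    obtain ⟨l, hl, h1⟩ := key (Ne.symm hU) hx hS hz hzU
    obtain ⟨m, hm, h2⟩ := key hU hz hzU hy hT
    refine ⟨m * l, mul_mem hm hl, ?_⟩
    rw [← h2, ← h1]; group
  · exact key hST hx hS hy hT

theorem Phi_range (hodd : Odd L.index) (hq32 : ¬ (3 = 3 ∧ q = 2)) (two : (2 : F) = 0) (hF : Fintype.card F = q ^ 2) (x : G) :
    ∃ g : Cfsg.GU 3 F q, Phi e x = psiSU g 1 := by
  have ht : Inv (tt two hF e) := inv_coe two hF e one_ne_zero
  obtain ⟨l, hl, h1⟩ := L_trans c hodd ht (ht.conj x)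
  have h2 : (l⁻¹ * x) * tt two hF e = tt two hF e * (l⁻¹ * x) := by
    calc (l⁻¹ * x) * tt two hF e = l⁻¹ * (x * tt two hF e * x⁻¹) * x := by group
      _ = l⁻¹ * (l * tt two hF e * l⁻¹) * x := by rw [h1]
      _ = tt two hF e * (l⁻¹ * x) := by group
  obtain ⟨g, hg⟩ := Phi_c c two hF e hodd hq32 h2
  have h3 := Phi_mem e ⟨l, hl⟩
  obtain ⟨s, hs⟩ := QuotientGroup.mk_surjective (e ⟨l, hl⟩)
  rw [← hs, conj_eq_psiSU] at h3
  have h4 : Phi e x = Phi e l * Phi e (l⁻¹ * x) := by rw [← map_mul]; congr 1; group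
  rw [h4, hg]
  have h5 : Phi e l = psiSU ⟨Matrix.SpecialLinearGroup.toGL (s : SpecialLinearGroup (Fin 3) F), s.2⟩ 1 := h3
  rw [h5, psiSU_mul]
  exact ⟨_, by rw [mul_one]⟩

omit c in
/-- conjugation action of `PGU₃` on `PSU₃` -/
noncomputable def Psi0 (F : Type*) [Field F] [Fintype F] (q : ℕ) : Cfsg.GU 3 F q →* MulAut (Cfsg.PSU 3 F q) where
  toFun g := psiSU g 1
  map_one' := psiSU_one
  map_mul' g h := by
    rw [psiSU_mul]
    congr 1

omit c in
theorem Psi0_ker (hF : Fintype.card F = q ^ 2) : (Psi0 F q).ker = Subgroup.center (Cfsg.GU 3 F q) := by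
  ext g
  rw [MonoidHom.mem_ker]
  constructor
  · intro h
    obtain ⟨-, z, hz⟩ := psiSU_eq_one hF (by norm_num) h
    apply H17.GUCenter.scalar_mem_center z
    show gt g = _
    rw [hz]
    ext i j
    simp [Matrix.smul_apply, Matrix.one_apply, Matrix.diagonal_apply]
  · intro h
    obtain ⟨z, -, hz⟩ := H17.GUCenter.center_scalar hF h (by norm_num)
    show psiSU g 1 = 1
    rw [← psiSU_one]
    apply psiSU_eq_of_smul (c := (z : F))
    have h1 : gt (1 : Cfsg.GU 3 F q) = 1 := rfl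
    rw [h1]
    refine Eq.trans hz ?_
    ext i j
    simp [Matrix.smul_apply, Matrix.one_apply, Matrix.diagonal_apply]

omit c in
/-- the induced map -/
noncomputable def Psi (hF : Fintype.card F = q ^ 2) :
    (Cfsg.GU 3 F q ⧸ Subgroup.center (Cfsg.GU 3 F q)) →* MulAut (Cfsg.PSU 3 F q) :=
  QuotientGroup.lift _ (Psi0 F q) (Psi0_ker hF).ge

omit c in
theorem Psi_inj (hF : Fintype.card F = q ^ 2) : Function.Injective (Psi hF) := by
  rw [injective_iff_map_eq_one]
  intro x hx
  obtain ⟨g, rfl⟩ := QuotientGroup.mk_surjective x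
  rw [QuotientGroup.eq_one_iff, ← Psi0_ker hF]
  exact hx

omit c in
theorem Psi_mk (hF : Fintype.card F = q ^ 2) (g : Cfsg.GU 3 F q) : Psi hF (QuotientGroup.mk g) = psiSU g 1 := rfl

omit c in
/-- conjugates of the involution of `PGU₃` come from `SU₃` -/
theorem exists_su (hF : Fintype.card F = q ^ 2) {θ : F} (hθ : θ + θ ^ q = 1)
    (k : (Cfsg.GU 3 F q ⧸ Subgroup.center (Cfsg.GU 3 F q))) :
    ∃ s : Cfsg.PSU 3 F q, Inv s ∧ Psi hF (k * y0 two hF hθ * k⁻¹) = MulAut.conj s := by
  obtain ⟨h, rfl⟩ := QuotientGroup.mk_surjective k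
  set w : Cfsg.GU 3 F q := h * iota two hF hθ (z0 two hF) * h⁻¹ with hw
  have hdet : (gt w).det = 1 := by
    have e1 : gt w = gt h * gt (iota two hF hθ (z0 two hF)) * gt h⁻¹ := rfl
    rw [e1, Matrix.det_mul, Matrix.det_mul, mul_comm, ← mul_assoc, ← Matrix.det_mul, gt_inv_mul, Matrix.det_one, one_mul]
    have e2 : gt (iota two hF hθ (z0 two hF)) =
      (Mg two hθ : Matrix (Fin 3) (Fin 3) F) * bm q (0 : F) 1 1 * (((Mg two hθ)⁻¹ : GL (Fin 3) F) : Matrix (Fin 3) (Fin 3) F) := rfl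
    rw [e2, Matrix.det_mul, Matrix.det_mul, mul_comm, ← mul_assoc, ← Matrix.det_mul]
    have e3 : (((Mg two hθ)⁻¹ : GL (Fin 3) F) : Matrix (Fin 3) (Fin 3) F) * (Mg two hθ : Matrix (Fin 3) (Fin 3) F) = 1 :=
      (Mg two hθ).inv_mul
    rw [e3, Matrix.det_one, one_mul, bm_det]
  let s0 : Cfsg.SU 3 F q := ⟨⟨gt w, hdet⟩, w.2⟩
  have hs0 : (⟨Matrix.SpecialLinearGroup.toGL (s0 : SpecialLinearGroup (Fin 3) F), s0.2⟩ : Cfsg.GU 3 F q) = w := by
    apply Subtype.ext
    apply Units.ext
    rfl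
  have hconj : Psi hF ((QuotientGroup.mk h : (Cfsg.GU 3 F q ⧸ Subgroup.center (Cfsg.GU 3 F q))) * y0 two hF hθ * (QuotientGroup.mk h)⁻¹) =
      MulAut.conj (QuotientGroup.mk s0 : Cfsg.PSU 3 F q) := by
    have e1 : (QuotientGroup.mk h : (Cfsg.GU 3 F q ⧸ Subgroup.center (Cfsg.GU 3 F q))) * y0 two hF hθ * (QuotientGroup.mk h)⁻¹ =
        QuotientGroup.mk w := rfl
    rw [e1, Psi_mk, conj_eq_psiSU, hs0]
  refine ⟨QuotientGroup.mk s0, ⟨?_, ?_⟩, hconj⟩
  · intro h1
    rw [h1, map_one, ← map_one (Psi hF)] at hconj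
    have h2 := Psi_inj hF hconj
    have h3 : y0 two hF hθ = 1 := by
      calc y0 two hF hθ = (QuotientGroup.mk h)⁻¹ * ((QuotientGroup.mk h : (Cfsg.GU 3 F q ⧸ Subgroup.center (Cfsg.GU 3 F q))) * y0 two hF hθ * (QuotientGroup.mk h)⁻¹) * QuotientGroup.mk h := by group
        _ = 1 := by rw [h2]; group
    exact (y0_inv two hF hθ).1 h3
  · rw [← QuotientGroup.mk_mul]
    have h1 : s0 * s0 = 1 := by
      apply mt_injective
      have h2 : w * w = 1 := by
        have h3 : iota two hF hθ (z0 two hF) * iota two hF hθ (z0 two hF) = 1 := by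
          rw [← map_mul, (z0_inv two hF).2, map_one]
        calc w * w = h * (iota two hF hθ (z0 two hF) * iota two hF hθ (z0 two hF)) * h⁻¹ := by rw [hw]; group
          _ = 1 := by rw [h3]; group
      exact congrArg gt h2
    rw [h1]; rfl

include two in
/-- **identification** -/
theorem identify (hodd : Odd L.index) (hF : Fintype.card F = q ^ 2) (e : L ≃* Cfsg.PSU 3 F q) :
    Nonempty (G ≃* (Cfsg.GU 3 F q ⧸ Subgroup.center (Cfsg.GU 3 F q))) := by
  classical
  have h4 := four_le c.hn c.hq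
  have hq32 : ¬ (3 = 3 ∧ q = 2) := by rintro ⟨-, h⟩; omega
  obtain ⟨θ, hθ⟩ := H7.QuadExt.exists_trace_eq hF (c := (1 : F)) (one_pow q)
  have hinj := Phi_inj c e hodd
  -- orders
  set X := (Cfsg.GU 3 F q ⧸ Subgroup.center (Cfsg.GU 3 F q)) with hX
  have : Finite X := by rw [hX]; infer_instance
  have hle : (Phi e).range ≤ (Psi hF).range := by
    rintro _ ⟨x, rfl⟩
    obtain ⟨g, hg⟩ := Phi_range c e hodd hq32 two hF x
    exact ⟨QuotientGroup.mk g, by rw [Psi_mk, hg]⟩
  have ht : Inv (tt two hF e) := inv_coe two hF e one_ne_zero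
  have hG : Nat.card G = Nat.card {x : G | Inv x} * (q ^ 3 * (q + 1)) := by
    obtain ⟨χ, Lc⟩ := c.loc _ ht
    have h1 := card_of_trans (D := (⊤ : Subgroup G)) (C := centralizer ({tt two hF e} : Set G)) (I := {x : G | Inv x})
      (x0 := tt two hF e) ht (fun d _ => ht.conj d) (fun x hx => by
        obtain ⟨d, hd⟩ := c.conj _ x ht hx
        exact ⟨d, trivial, hd⟩) (fun d _ => by
        rw [mem_centralizer_singleton_iff]
        constructor
        · intro h; calc d * tt two hF e = d * tt two hF e * d⁻¹ * d := by group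
            _ = tt two hF e * d := by rw [h]
        · intro h; rw [h]; group)
    rw [top_inf_eq, Lc.card_C, Subgroup.card_top] at h1
    exact h1
  have hXc : Nat.card X = Nat.card {x : X | ∃ k, k * y0 two hF hθ * k⁻¹ = x} * (q ^ 3 * (q + 1)) := by
    have h1 := card_of_trans (D := (⊤ : Subgroup X)) (C := centralizer ({y0 two hF hθ} : Set X))
      (I := {x : X | ∃ k, k * y0 two hF hθ * k⁻¹ = x})
      (x0 := y0 two hF hθ) ⟨1, by group⟩ (fun d _ => ⟨d, rfl⟩) (fun x hx => by
        obtain ⟨d, hd⟩ := hx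
        exact ⟨d, trivial, hd⟩) (fun d _ => by
        rw [mem_centralizer_singleton_iff]
        constructor
        · intro h; calc d * y0 two hF hθ = d * y0 two hF hθ * d⁻¹ * d := by group
            _ = y0 two hF hθ * d := by rw [h]
        · intro h; rw [h]; group)
    have h2 : Nat.card (centralizer ({y0 two hF hθ} : Set X)) = q ^ 3 * (q + 1) := by
      rw [← Nat.card_congr (cequiv two hF hθ (by omega)).toEquiv, (WT.locA two hF (by omega)).card_W]
    rw [top_inf_eq, h2, Subgroup.card_top] at h1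
    exact h1
  have hcard : Nat.card {x : X | ∃ k, k * y0 two hF hθ * k⁻¹ = x} ≤ Nat.card {x : G | Inv x} := by
    have key : ∀ x : {x : X | ∃ k, k * y0 two hF hθ * k⁻¹ = x}, ∃ s : Cfsg.PSU 3 F q, Inv s ∧ Psi hF (x : X) = MulAut.conj s := by
      rintro ⟨_, k, rfl⟩
      exact exists_su two hF hθ k
    choose f hf1 hf2 using key
    apply Nat.card_le_card_of_injective (fun x => (⟨((e.symm (f x) : L) : G), by
      have h1 : Inv (e.symm (f x) : L) := (inv_iff e.symm _).mpr (hf1 x)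
      exact ⟨fun h => h1.1 (Subtype.ext h), congrArg Subtype.val h1.2⟩⟩ : {x : G | Inv x}))
    intro x y hxy
    have h0 : ((e.symm (f x) : L) : G) = ((e.symm (f y) : L) : G) :=
      congrArg (fun z : {x : G | Inv x} => (z : G)) hxy
    have h1 : f x = f y := e.symm.injective (Subtype.ext h0)
    apply Subtype.ext
    apply Psi_inj hF
    rw [hf2, hf2, h1]
  have hXG : Nat.card X ≤ Nat.card G := by
    rw [hG, hXc]
    exact Nat.mul_le_mul_right _ hcard
  have e1 : Nat.card (Phi e).range = Nat.card G := (Nat.card_congr (MonoidHom.ofInjective hinj).toEquiv).symm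
  have e2 : Nat.card (Psi hF).range = Nat.card X := (Nat.card_congr (MonoidHom.ofInjective (Psi_inj hF)).toEquiv).symm
  have heq : (Phi e).range = (Psi hF).range :=
    Subgroup.eq_of_le_of_card_ge hle (by rw [e1, e2]; exact hXG)
  exact ⟨((MonoidHom.ofInjective hinj).trans (MulEquiv.subgroupCongr heq)).trans (MonoidHom.ofInjective (Psi_inj hF)).symm⟩

end ident

end H62.PG
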