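import Mathlib
import Cfsg.Agent.Lib.H54.RA0

set_option autoImplicit false
set_option maxRecDepth 100000

/-! Piece T2f of S3330 (helper54): fusion of `t` in the twisted case. -/

open Equiv Subgroup H54.RA

namespace H62.RT2f

/-- `(1 2)(0 4)` -/
def s0 : Perm (Fin 5) := swap 1 2 * t5

theorem s0_sign : Perm.sign s0 = 1 := by decide +kernel
theorem s0_sq : s0 * s0 = 1 := by decide +kernel
theorem s0_ne : s0 ≠ 1 := by decide +kernel
theorem s0_net : s0 ≠ t5 := by decide +kernel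
theorem t5_ne : t5 ≠ 1 := by decide +kernel
theorem t5_sq : t5 * t5 = 1 := by decide +kernel
theorem t5_s0 : t5 * s0 = s0 * t5 := by decide +kernel
theorem t5_d5 : t5 * d5 = d5 * t5 := by decide +kernel
theorem d5_ne : d5 ≠ 1 := by decide +kernel
theorem d5_cube : d5 ^ 3 = 1 := by decide +kernel
theorem c3_ne : c3 ≠ 1 := by decide +kernel
theorem c3_cube : c3 ^ 3 = 1 := by decide +kernel
theorem inv_odd : ∀ σ : Perm (Fin 5), σ * σ = 1 → Perm.sign σ = -1 →
    ∃ ρ : Perm (Fin 5), Perm.sign ρ = 1 ∧ ρ * σ * ρ⁻¹ = t5 := by decide +kernel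
theorem inv_even : ∀ σ : Perm (Fin 5), σ * σ = 1 → Perm.sign σ = 1 →
    σ = 1 ∨ ∃ ρ : Perm (Fin 5), Perm.sign ρ = 1 ∧ ρ * σ * ρ⁻¹ = s0 := by decide +kernel
theorem W4 : ∀ α : Perm (Fin 5), α * t5 = t5 * α → α * s0 = s0 * α →
    α = 1 ∨ α = t5 ∨ α = swap 1 2 ∨ α = s0 := by decide +kernel
theorem c12 : Nat.card {α : Perm (Fin 5) // α * t5 = t5 * α} = 12 := by
  rw [Nat.card_eq_fintype_card]; decide +kernel
theorem c6 : Nat.card {α : Perm (Fin 5) // α * t5 = t5 * α ∧ Perm.sign α = 1} = 6 := by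
  rw [Nat.card_eq_fintype_card]; decide +kernel
theorem c4 : Nat.card {α : Perm (Fin 5) // α * t5 = t5 * α ∧ α * s0 = s0 * α} = 4 := by
  rw [Nat.card_eq_fintype_card]; decide +kernel
theorem c2 : Nat.card {α : Perm (Fin 5) // (α * t5 = t5 * α ∧ α * s0 = s0 * α) ∧ Perm.sign α = 1} = 2 := by
  rw [Nat.card_eq_fintype_card]; decide +kernel
theorem c8 : Nat.card {α : Perm (Fin 5) // α * s0 = s0 * α} = 8 := by
  rw [Nat.card_eq_fintype_card]; decide +kernel
theorem c3c : Nat.card {α : Perm (Fin 3) // α * c3 = c3 * α} = 3 := by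
  rw [Nat.card_eq_fintype_card]; decide +kernel
theorem W4_mul : ∀ α β : Perm (Fin 5), (α = 1 ∨ α = t5 ∨ α = swap 1 2 ∨ α = s0) →
    (β = 1 ∨ β = t5 ∨ β = swap 1 2 ∨ β = s0) → Perm.sign α = Perm.sign β →
    (α * β = 1 ∧ β * α = 1) ∨ (α * β = s0 ∧ β * α = s0) := by
  rintro α β (rfl | rfl | rfl | rfl) (rfl | rfl | rfl | rfl) h <;> revert h <;> decide +kernel
theorem W4_sq : ∀ α : Perm (Fin 5), (α = 1 ∨ α = t5 ∨ α = swap 1 2 ∨ α = s0) → α * α = 1 := by
  rintro α (rfl | rfl | rfl | rfl) <;> decide +kernel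

theorem mkE_mul (a b c d : Perm (Fin 5)) (h : Perm.sign a = Perm.sign b) (h' : Perm.sign c = Perm.sign d) :
    mkE a b h * mkE c d h' = mkE (a * c) (b * d) (by rw [map_mul, map_mul, h, h']) := rfl

theorem mkE_inv (a b : Perm (Fin 5)) (h : Perm.sign a = Perm.sign b) :
    (mkE a b h)⁻¹ = mkE a⁻¹ b⁻¹ (by rw [Perm.sign_inv, Perm.sign_inv, h]) := rfl

theorem mkE_inj {a b c d : Perm (Fin 5)} {h : Perm.sign a = Perm.sign b} {h' : Perm.sign c = Perm.sign d}
    (he : mkE a b h = mkE c d h') : a = c ∧ b = d := by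
  have h1 := congrArg Subtype.val he
  exact Prod.mk.inj h1

theorem mkE_congr {a b c d : Perm (Fin 5)} (h : Perm.sign a = Perm.sign b) (h' : Perm.sign c = Perm.sign d)
    (h1 : a = c) (h2 : b = d) : mkE a b h = mkE c d h' := by
  subst h1; subst h2; rfl

theorem mkE_one (h : Perm.sign (1 : Perm (Fin 5)) = Perm.sign (1 : Perm (Fin 5))) : mkE 1 1 h = 1 := rfl

/-- counting pairs of the same sign -/
theorem card_pairs (p : Perm (Fin 5) → Prop) (h1 : ∀ a b, p a → p b → p (b * a⁻¹)) (h2 : ∀ a b, p a → p b → p (b * a)) :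
    Nat.card {e : EE // p (e : Perm (Fin 5) × Perm (Fin 5)).1 ∧ p (e : Perm (Fin 5) × Perm (Fin 5)).2} =
      Nat.card {a // p a} * Nat.card {a // p a ∧ Perm.sign a = 1} := by
  rw [← Nat.card_prod]
  refine Nat.card_congr
    { toFun := fun e => (⟨_, e.2.1⟩, ⟨(e.1 : Perm (Fin 5) × Perm (Fin 5)).2 * ((e.1 : Perm (Fin 5) × Perm (Fin 5)).1)⁻¹,
        h1 _ _ e.2.1 e.2.2, by
          have h3 : Perm.sign (e.1 : Perm (Fin 5) × Perm (Fin 5)).1 = Perm.sign (e.1 : Perm (Fin 5) × Perm (Fin 5)).2 := e.1.2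
          rw [map_mul, Perm.sign_inv, ← h3, Int.units_mul_self]⟩)
      invFun := fun q => ⟨mkE q.1.1 (q.2.1 * q.1.1) (by rw [map_mul, q.2.2.2, one_mul]),
        q.1.2, h2 _ _ q.1.2 q.2.2.1⟩
      left_inv := fun e => by
        obtain ⟨⟨⟨a, b⟩, h⟩, h3⟩ := e
        apply Subtype.ext
        apply Subtype.ext
        refine Prod.ext rfl ?_
        show b * a⁻¹ * a = b
        group
      right_inv := fun q => by
        obtain ⟨⟨a, ha⟩, ⟨b, hb, hb'⟩⟩ := q
        refine Prod.ext rfl (Subtype.ext ?_)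
        show b * a * a⁻¹ = b
        group }

variable {G : Type*} [Group G]

/-- subgroups of `M` containing `n` -/
theorem card_L {Φ : EE →* G} {n : G} (hi : Function.Injective Φ) (hnn : n * n = 1) (hn : n ∉ Φ.range) (L : Subgroup G)
    (hnL : n ∈ L) (hL : ∀ g ∈ L, g ∈ Φ.range ∨ g * n ∈ Φ.range) :
    Nat.card L = 2 * Nat.card {e : EE // Φ e ∈ L} := by
  have h1 : Function.Bijective (fun q : Bool × {e : EE // Φ e ∈ L} =>
      (⟨Φ q.2.1 * (if q.1 then n else 1), L.mul_mem q.2.2 (by split_ifs; exacts [hnL, L.one_mem])⟩ : L)) := by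
    constructor
    · rintro ⟨b, e⟩ ⟨b', e'⟩ h
      have h2 : Φ e.1 * (if b then n else 1) = Φ e'.1 * (if b' then n else 1) := congrArg Subtype.val h
      cases b <;> cases b'
      · simp only [Bool.false_eq_true, if_false, mul_one] at h2
        rw [Subtype.ext (hi h2)]
      · exfalso
        simp only [Bool.false_eq_true, if_false, if_true, mul_one] at h2
        apply hn
        refine ⟨e'.1⁻¹ * e.1, ?_⟩
        rw [map_mul, map_inv, h2]; group
      · exfalso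
        simp only [Bool.false_eq_true, if_false, if_true, mul_one] at h2
        apply hn
        refine ⟨e.1⁻¹ * e'.1, ?_⟩
        rw [map_mul, map_inv, ← h2]; group
      · simp only [if_true] at h2
        rw [Subtype.ext (hi (mul_right_cancel h2))]
    · rintro ⟨g, hg⟩
      rcases hL g hg with ⟨e, he⟩ | ⟨e, he⟩
      · refine ⟨(false, ⟨e, by rw [he]; exact hg⟩), Subtype.ext ?_⟩
        simp [he]
      · refine ⟨(true, ⟨e, by rw [he]; exact L.mul_mem hg hnL⟩), Subtype.ext ?_⟩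
        show Φ e * (if true = true then n else 1) = g
        rw [if_pos rfl, he, mul_assoc, hnn, mul_one]
  rw [← Nat.card_congr (Equiv.ofBijective _ h1), Nat.card_prod]
  simp

theorem cr {g s x : G} (h : g * s * g⁻¹ = x) : g⁻¹ * x * g⁻¹⁻¹ = s := by subst h; group

/-- the case of `Φ (s0, 1)` -/
theorem b1core [Finite G] {ψ : PP →* G} {n : G} (h : TD ψ n)
    (h36 : ∀ {s x g : G}, g * s * g⁻¹ = ψ (1, t5) → x ^ 3 = 1 → x ≠ 1 → x * s = s * x →
      Nat.card (centralizer ({x} : Set G) ⊓ centralizer ({s} : Set G) : Subgroup G) = 36)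
    {g : G} (hg : g * ψ (1, t5) * g⁻¹ = ψ (1, s0)) : False := by
  have h1 := h36 (s := ψ (1, s0)) (x := ψ (c3, 1)) (g := g⁻¹) (cr hg)
    (by rw [← map_pow]; rw [show ((c3, 1) : PP) ^ 3 = 1 from Prod.ext c3_cube (one_pow 3), map_one])
    (fun h2 => c3_ne (congrArg Prod.fst (h.inj (h2.trans (map_one ψ).symm))))
    (by rw [← map_mul, ← map_mul]; congr 1)
  have h2 : Function.Bijective (fun q : {α : Perm (Fin 3) // α * c3 = c3 * α} × {α : Perm (Fin 5) // α * s0 = s0 * α} =>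
      (⟨ψ (q.1.1, q.2.1), by
        constructor
        · refine Subgroup.mem_centralizer_singleton_iff.mpr ?_
          rw [← map_mul, ← map_mul]; congr 1
          exact Prod.ext q.1.2 ((mul_one _).trans (one_mul _).symm)
        · refine Subgroup.mem_centralizer_singleton_iff.mpr ?_
          rw [← map_mul, ← map_mul]; congr 1
          exact Prod.ext ((mul_one _).trans (one_mul _).symm) q.2.2⟩ :
        (centralizer ({ψ (c3, 1)} : Set G) ⊓ centralizer ({ψ (1, s0)} : Set G) : Subgroup G))) := by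
    constructor
    · rintro ⟨a, b⟩ ⟨a', b'⟩ h3
      have h4 := h.inj (congrArg Subtype.val h3)
      exact Prod.ext (Subtype.ext (congrArg Prod.fst h4)) (Subtype.ext (congrArg Prod.snd h4))
    · rintro ⟨y, hy1, hy2⟩
      have hy1' : y * ψ (c3, 1) = ψ (c3, 1) * y := Subgroup.mem_centralizer_singleton_iff.mp hy1
      have hy2' : y * ψ (1, s0) = ψ (1, s0) * y := Subgroup.mem_centralizer_singleton_iff.mp hy2
      have hy3 : y ∈ normalizer (zpowers (ψ (c3, 1)) : Set G) := by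
        rw [Subgroup.mem_normalizer_iff]
        intro u
        have h5 : ∀ u ∈ zpowers (ψ (c3, 1)), y * u * y⁻¹ = u := by
          rintro u ⟨m, rfl⟩
          have h6 : Commute y (ψ (c3, 1)) := hy1'
          have h7 := (h6.zpow_right m).eq
          show y * ψ (c3, 1) ^ m * y⁻¹ = ψ (c3, 1) ^ m
          rw [h7, mul_inv_cancel_right]
        constructor
        · intro hu; rw [h5 u hu]; exact hu
        · intro hu
          have h6 : Commute y (ψ (c3, 1)) := hy1'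
          obtain ⟨m, hm⟩ := hu
          have hm' : ψ (c3, 1) ^ m = y * u * y⁻¹ := hm
          have h7 : u = ψ (c3, 1) ^ m := by
            have h8 := (h6.zpow_right m).eq
            have h9 : u = y⁻¹ * (y * u * y⁻¹) * y := by group
            rw [h9, ← hm', mul_assoc, ← h8, inv_mul_cancel_left]
          exact ⟨m, h7.symm⟩
      obtain ⟨⟨a, b⟩, rfl⟩ := h.rng y hy3
      rw [← map_mul, ← map_mul] at hy1' hy2'
      exact ⟨(⟨a, congrArg Prod.fst (h.inj hy1')⟩, ⟨b, congrArg Prod.snd (h.inj hy2')⟩), rfl⟩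
  rw [← Nat.card_congr (Equiv.ofBijective _ h2), Nat.card_prod, c3c, c8] at h1
  norm_num at h1

/-- elements interchanging `z` and `w` -/
theorem ccore [Finite G] {ψ : PP →* G} {n : G} (h : TD ψ n)
    (h36 : ∀ {s x g : G}, g * s * g⁻¹ = ψ (1, t5) → x ^ 3 = 1 → x ≠ 1 → x * s = s * x →
      Nat.card (centralizer ({x} : Set G) ⊓ centralizer ({s} : Set G) : Subgroup G) = 36)
    {g s : G} (hg : g * ψ (1, t5) * g⁻¹ = s) (hz : s * ψ (c3, 1) * s⁻¹ = ψ (1, d5))
    (hw : s * ψ (1, d5) * s⁻¹ = ψ (c3, 1)) : False := by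
  have hzw : ψ (c3, d5) = ψ (c3, 1) * ψ (1, d5) := by
    rw [← map_mul]; rfl
  have hzw' : ψ (c3, d5) = ψ (1, d5) * ψ (c3, 1) := by
    rw [← map_mul]; rfl
  have hcomm : ψ (c3, d5) * s = s * ψ (c3, d5) := by
    have h1 : s * ψ (c3, d5) * s⁻¹ = ψ (c3, d5) := by
      calc s * ψ (c3, d5) * s⁻¹ = (s * ψ (c3, 1) * s⁻¹) * (s * ψ (1, d5) * s⁻¹) := by rw [hzw]; group
        _ = ψ (1, d5) * ψ (c3, 1) := by rw [hz, hw]
        _ = _ := hzw'.symm
    rw [mul_inv_eq_iff_eq_mul] at h1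
    exact h1.symm
  have h1 := h36 (s := s) (x := ψ (c3, d5)) (g := g⁻¹) (cr hg)
    (by rw [← map_pow]; rw [show ((c3, d5) : PP) ^ 3 = 1 from Prod.ext c3_cube d5_cube, map_one])
    (fun h2 => c3_ne (congrArg Prod.fst (h.inj (h2.trans (map_one ψ).symm)))) hcomm
  have h2 : centralizer ({ψ (c3, d5)} : Set G) ⊓ centralizer ({s} : Set G) = centralizer ({ψ (c3, d5)} : Set G) :=
    Subgroup.eq_of_le_of_card_ge inf_le_left (by rw [h1, h.cy])
  have h3 : ψ (c3, 1) ∈ centralizer ({ψ (c3, d5)} : Set G) := by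
    rw [Subgroup.mem_centralizer_singleton_iff, ← map_mul, ← map_mul]
    congr 1
  rw [← h2] at h3
  have h4 : ψ (c3, 1) * s = s * ψ (c3, 1) := Subgroup.mem_centralizer_singleton_iff.mp h3.2
  rw [← h4, mul_inv_cancel_right] at hz
  exact c3_ne (congrArg Prod.fst (h.inj hz))

/-- `(s0, s0)` -/
def iE : EE := mkE s0 s0 rfl

theorem comm_iff (e : EE) (a : Perm (Fin 5)) (h : Perm.sign a = Perm.sign a) :
    e * mkE a a h = mkE a a h * e ↔ (e : Perm (Fin 5) × Perm (Fin 5)).1 * a = a * (e : Perm (Fin 5) × Perm (Fin 5)).1 ∧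
      (e : Perm (Fin 5) × Perm (Fin 5)).2 * a = a * (e : Perm (Fin 5) × Perm (Fin 5)).2 := by
  constructor
  · intro h1
    have h2 := congrArg Subtype.val h1
    exact Prod.mk.inj h2
  · rintro ⟨h1, h2⟩
    exact Subtype.ext (Prod.ext h1 h2)

/-- `t` is not conjugate to `(s0, s0)` -/
theorem b3core [Finite G] {Φ : EE →* G} {n : G} (hi : Function.Injective Φ) (hnn : n * n = 1) (hn : n ∉ Φ.range)
    (hnc : ∀ (a b : Perm (Fin 5)) (h : Perm.sign a = Perm.sign b), n * Φ (mkE a b h) * n⁻¹ = Φ (mkE b a h.symm))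
    (hct : ∀ g : G, g * Φ tE = Φ tE * g → g ∈ Φ.range ∨ g * n ∈ Φ.range)
    {g : G} (hg : g * Φ tE * g⁻¹ = Φ iE) : False := by
  have hnt : n * Φ tE = Φ tE * n := by
    have h1 := hnc t5 t5 rfl
    rw [mul_inv_eq_iff_eq_mul] at h1
    exact h1
  have hni : n * Φ iE = Φ iE * n := by
    have h1 := hnc s0 s0 rfl
    rw [mul_inv_eq_iff_eq_mul] at h1
    exact h1
  -- orders
  have hCt : Nat.card (centralizer ({Φ tE} : Set G)) = 144 := by
    rw [card_L hi hnn hn (centralizer ({Φ tE} : Set G)) (Subgroup.mem_centralizer_singleton_iff.mpr hnt)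
      (fun y hy => hct y (Subgroup.mem_centralizer_singleton_iff.mp hy))]
    have h1 : Nat.card {e : EE // Φ e ∈ centralizer ({Φ tE} : Set G)} = 12 * 6 := by
      rw [← c12, ← c6, ← card_pairs (fun α => α * t5 = t5 * α)
        (fun a b ha hb => by
          have h1 : Commute b t5 := hb
          have h2 : Commute a t5 := ha
          exact (h1.mul_left h2.inv_left).eq)
        (fun a b ha hb => by
          have h1 : Commute b t5 := hb
          have h2 : Commute a t5 := ha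
          exact (h1.mul_left h2).eq)]
      refine Nat.card_congr (Equiv.subtypeEquivRight fun e => ?_)
      rw [Subgroup.mem_centralizer_singleton_iff, ← map_mul, ← map_mul, hi.eq_iff]
      exact comm_iff e t5 rfl
    rw [h1]
  have hT : Nat.card (centralizer ({Φ tE} : Set G) ⊓ centralizer ({Φ iE} : Set G) : Subgroup G) = 16 := by
    rw [card_L hi hnn hn (centralizer ({Φ tE} : Set G) ⊓ centralizer ({Φ iE} : Set G))
      ⟨Subgroup.mem_centralizer_singleton_iff.mpr hnt, Subgroup.mem_centralizer_singleton_iff.mpr hni⟩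
      (fun y hy => hct y (Subgroup.mem_centralizer_singleton_iff.mp hy.1))]
    have h1 : Nat.card {e : EE // Φ e ∈ (centralizer ({Φ tE} : Set G) ⊓ centralizer ({Φ iE} : Set G) : Subgroup G)} = 4 * 2 := by
      rw [← c4, ← c2, ← card_pairs (fun α => α * t5 = t5 * α ∧ α * s0 = s0 * α)
        (fun a b ha hb => by
          have h1 : Commute b t5 := hb.1
          have h2 : Commute a t5 := ha.1
          have h3 : Commute b s0 := hb.2
          have h4 : Commute a s0 := ha.2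
          exact ⟨(h1.mul_left h2.inv_left).eq, (h3.mul_left h4.inv_left).eq⟩)
        (fun a b ha hb => by
          have h1 : Commute b t5 := hb.1
          have h2 : Commute a t5 := ha.1
          have h3 : Commute b s0 := hb.2
          have h4 : Commute a s0 := ha.2
          exact ⟨(h1.mul_left h2).eq, (h3.mul_left h4).eq⟩)]
      refine Nat.card_congr (Equiv.subtypeEquivRight fun e => ?_)
      rw [Subgroup.mem_inf, Subgroup.mem_centralizer_singleton_iff, Subgroup.mem_centralizer_singleton_iff,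
        ← map_mul, ← map_mul, ← map_mul, ← map_mul, hi.eq_iff, hi.eq_iff]
      have h2 := comm_iff e t5 rfl
      have h3 := comm_iff e s0 rfl
      constructor
      · rintro ⟨h4, h5⟩
        exact ⟨⟨(h2.mp h4).1, (h3.mp h5).1⟩, ⟨(h2.mp h4).2, (h3.mp h5).2⟩⟩
      · rintro ⟨⟨h4, h5⟩, ⟨h6, h7⟩⟩
        exact ⟨h2.mpr ⟨h4, h6⟩, h3.mpr ⟨h5, h7⟩⟩
    rw [h1]
  have hCi : Nat.card (centralizer ({Φ iE} : Set G)) = 144 := by
    rw [← hCt]
    have h1 : centralizer ({Φ iE} : Set G) = (centralizer ({Φ tE} : Set G)).map (MulAut.conj g).toMonoidHom := by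
      ext y
      rw [Subgroup.mem_map]
      constructor
      · intro hy
        refine ⟨g⁻¹ * y * g, ?_, ?_⟩
        · rw [Subgroup.mem_centralizer_singleton_iff] at hy ⊢
          rw [← hg] at hy
          calc g⁻¹ * y * g * Φ tE = g⁻¹ * (y * (g * Φ tE * g⁻¹)) * g := by group
            _ = g⁻¹ * (g * Φ tE * g⁻¹ * y) * g := by rw [hy]
            _ = _ := by group
        · show g * (g⁻¹ * y * g) * g⁻¹ = y
          group
      · rintro ⟨x, hx, rfl⟩
        have hx := Subgroup.mem_centralizer_singleton_iff.mp hx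
        rw [Subgroup.mem_centralizer_singleton_iff, ← hg]
        show g * x * g⁻¹ * (g * Φ tE * g⁻¹) = g * Φ tE * g⁻¹ * (g * x * g⁻¹)
        calc g * x * g⁻¹ * (g * Φ tE * g⁻¹) = g * (x * Φ tE) * g⁻¹ := by group
          _ = g * (Φ tE * x) * g⁻¹ := by rw [hx]
          _ = _ := by group
    rw [h1, Subgroup.card_map_of_injective (MulAut.conj g).injective]
  -- squares in `T`
  have hii : Φ iE * Φ iE = 1 := by
    rw [← map_mul, ← map_one Φ]
    exact congrArg Φ (Subtype.ext (Prod.ext s0_sq s0_sq))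
  have hswap : ∀ a b : Perm (Fin 5), ∀ hab : Perm.sign a = Perm.sign b,
      (Φ (mkE a b hab) * n) * (Φ (mkE a b hab) * n) = Φ (mkE (a * b) (b * a) (by rw [map_mul, map_mul, mul_comm])) := by
    intro a b hab
    have h1 : (Φ (mkE a b hab) * n) * (Φ (mkE a b hab) * n) = Φ (mkE a b hab) * (n * Φ (mkE a b hab) * n⁻¹) * (n * n) := by
      group
    rw [h1, hnc, hnn, mul_one, ← map_mul, mkE_mul]
  have hsq : ∀ y ∈ (centralizer ({Φ tE} : Set G) ⊓ centralizer ({Φ iE} : Set G) : Subgroup G), y * y = 1 ∨ y * y = Φ iE := by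
    intro y hy
    have hy1 := Subgroup.mem_centralizer_singleton_iff.mp hy.1
    have hy2 := Subgroup.mem_centralizer_singleton_iff.mp hy.2
    rcases hct y hy1 with ⟨⟨⟨a, b⟩, hab'⟩, he⟩ | ⟨⟨⟨a, b⟩, hab'⟩, he⟩
    · left
      have hab : Perm.sign a = Perm.sign b := hab'
      have he' : Φ (mkE a b hab) = y := he
      have h1 := (comm_iff (mkE a b hab) t5 rfl).mp (hi (by rw [map_mul, map_mul, he']; exact hy1))
      have h2 := (comm_iff (mkE a b hab) s0 rfl).mp (hi (by rw [map_mul, map_mul, he']; exact hy2))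
      have ha := W4_sq a (W4 a h1.1 h2.1)
      have hb := W4_sq b (W4 b h1.2 h2.2)
      rw [← he', ← map_mul, mkE_mul, ← map_one Φ]
      exact congrArg Φ (Subtype.ext (Prod.ext ha hb))
    · have hab : Perm.sign a = Perm.sign b := hab'
      have he' : Φ (mkE a b hab) = y * n := he
      have hy : y = Φ (mkE a b hab) * n := by rw [he', mul_assoc, hnn, mul_one]
      have hyn1 : (y * n) * Φ tE = Φ tE * (y * n) := by
        rw [mul_assoc, hnt, ← mul_assoc, hy1, mul_assoc]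
      have hyn2 : (y * n) * Φ iE = Φ iE * (y * n) := by
        rw [mul_assoc, hni, ← mul_assoc, hy2, mul_assoc]
      have h1 := (comm_iff (mkE a b hab) t5 rfl).mp (hi (by rw [map_mul, map_mul, he']; exact hyn1))
      have h2 := (comm_iff (mkE a b hab) s0 rfl).mp (hi (by rw [map_mul, map_mul, he']; exact hyn2))
      rw [hy, hswap]
      rcases W4_mul a b (W4 a h1.1 h2.1) (W4 b h1.2 h2.2) hab with ⟨h3, h4⟩ | ⟨h3, h4⟩
      · left
        rw [← map_one Φ]
        exact congrArg Φ (Subtype.ext (Prod.ext h3 h4))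
      · right
        exact congrArg Φ (Subtype.ext (Prod.ext h3 h4))
  -- the element `u` of order 4
  set u : G := Φ (mkE s0 1 (s0_sign.trans (map_one _).symm)) * n with hu
  have huu : u * u = Φ iE := by
    rw [hu, hswap]
    exact congrArg Φ (Subtype.ext (Prod.ext (mul_one _) (one_mul _)))
  have hut : u * Φ tE = Φ tE * u := by
    have h1 : Φ (mkE s0 1 (s0_sign.trans (map_one _).symm)) * Φ tE = Φ tE * Φ (mkE s0 1 (s0_sign.trans (map_one _).symm)) := by
      rw [← map_mul, ← map_mul]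
      exact congrArg Φ (Subtype.ext (Prod.ext t5_s0.symm ((one_mul _).trans (mul_one _).symm)))
    rw [hu, mul_assoc, hnt, ← mul_assoc, h1, mul_assoc]
  -- Sylow argument in `C(i)`
  set C := centralizer ({Φ iE} : Set G) with hC
  have hu1 : g * u * g⁻¹ ∈ C := by
    rw [hC, Subgroup.mem_centralizer_singleton_iff, ← hg]
    calc g * u * g⁻¹ * (g * Φ tE * g⁻¹) = g * (u * Φ tE) * g⁻¹ := by group
      _ = g * (Φ tE * u) * g⁻¹ := by rw [hut]
      _ = _ := by group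
  set y0 : C := ⟨g * u * g⁻¹, hu1⟩ with hy0
  have hu4 : u ^ 4 = 1 := by
    calc u ^ 4 = (u * u) * (u * u) := by rw [pow_succ, pow_succ, pow_two]; simp only [mul_assoc]
      _ = 1 := by rw [huu, hii]
  have hy4 : y0 ^ 4 = 1 := by
    apply Subtype.ext
    show (g * u * g⁻¹) ^ 4 = 1
    rw [conj_pow, hu4]; group
  have hp1 : IsPGroup 2 (zpowers y0) := by
    intro z
    refine ⟨2, ?_⟩
    obtain ⟨z, m, rfl⟩ := z
    apply Subtype.ext
    show (y0 ^ m) ^ 2 ^ 2 = 1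
    rw [← zpow_natCast, ← zpow_mul, mul_comm, zpow_mul]
    have : y0 ^ (((2 ^ 2 : ℕ) : ℤ)) = 1 := by
      rw [zpow_natCast]; exact hy4
    rw [this, one_zpow]
  set T := (centralizer ({Φ tE} : Set G) ⊓ C).subgroupOf C with hTdef
  have hTcard : Nat.card T = 16 := by
    rw [hTdef, ← hT]
    exact Nat.card_congr (Subgroup.subgroupOfEquivOfLe inf_le_right).toEquiv
  have hTp : IsPGroup 2 T := IsPGroup.of_card (n := 4) (by rw [hTcard]; norm_num)
  obtain ⟨Q, hQ⟩ := hTp.exists_le_sylow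
  obtain ⟨Q', hQ'⟩ := hp1.exists_le_sylow
  have hQT : (Q : Subgroup C) = T := by
    symm
    apply Subgroup.eq_of_le_of_card_ge hQ
    obtain ⟨k, hk⟩ := IsPGroup.iff_card.mp Q.isPGroup'
    have h1 : 2 ^ k ∣ 144 := by
      rw [← hk, ← hCi]; exact Subgroup.card_subgroup_dvd_card _
    have h2 : k ≤ 4 := by
      by_contra hcon
      have h3 : 2 ^ 5 ∣ 144 := (pow_dvd_pow 2 (by omega)).trans h1
      norm_num at h3
    rw [hk, hTcard]
    calc 2 ^ k ≤ 2 ^ 4 := Nat.pow_le_pow_right (by norm_num) h2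
      _ = 16 := by norm_num
  obtain ⟨c, hc⟩ := MulAction.exists_smul_eq C Q' Q
  have h1 : c * y0 * c⁻¹ ∈ T := by
    rw [← hQT, ← hc]
    have h2 : y0 ∈ (Q' : Subgroup C) := hQ' (mem_zpowers y0)
    rw [Sylow.coe_subgroup_smul, Subgroup.mem_pointwise_smul_iff_inv_smul_mem]
    have h3 : (MulAut.conj c)⁻¹ • (c * y0 * c⁻¹) = y0 := by
      rw [← map_inv, MulAut.smul_def, MulAut.conj_apply]; group
    rw [h3]; exact h2
  have h2 := hsq _ (Subgroup.mem_subgroupOf.mp h1)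
  have h3 : ((c * y0 * c⁻¹ : C) : G) * ((c * y0 * c⁻¹ : C) : G) = (c : G) * (g * Φ iE * g⁻¹) * (c : G)⁻¹ := by
    show (c : G) * (g * u * g⁻¹) * (c : G)⁻¹ * ((c : G) * (g * u * g⁻¹) * (c : G)⁻¹) = _
    rw [← huu]; group
  rw [h3] at h2
  rcases h2 with h2 | h2
  · have h4 : Φ iE = 1 := by
      calc Φ iE = g⁻¹ * ((c : G)⁻¹ * ((c : G) * (g * Φ iE * g⁻¹) * (c : G)⁻¹) * c) * g := by group
        _ = 1 := by rw [h2]; group
    have h5 := mkE_inj (hi (h4.trans (map_one Φ).symm) : mkE s0 s0 rfl = mkE 1 1 rfl)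
    exact s0_ne h5.1
  · have hc' : (c : G) * Φ iE = Φ iE * c := Subgroup.mem_centralizer_singleton_iff.mp c.2
    have h4 : g * Φ iE * g⁻¹ = Φ iE := by
      calc g * Φ iE * g⁻¹ = (c : G)⁻¹ * ((c : G) * (g * Φ iE * g⁻¹) * (c : G)⁻¹) * c := by group
        _ = (c : G)⁻¹ * (Φ iE * c) := by rw [h2]; group
        _ = Φ iE := by rw [← hc']; group
    have h5 : Φ iE = Φ tE := by
      have h6 : g * Φ iE * g⁻¹ = g * Φ tE * g⁻¹ := h4.trans hg.symm
      exact mul_left_cancel (mul_right_cancel h6)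
    have h7 := mkE_inj (hi h5 : mkE s0 s0 rfl = mkE t5 t5 rfl)
    exact s0_net h7.1

/-- moving `g` inside `M` -/
theorem move {Φ : EE →* G} {n g r : G} (hr : r ∈ Φ.range) (h : r * g ∈ Φ.range ∨ r * g * n ∈ Φ.range) :
    g ∈ Φ.range ∨ g * n ∈ Φ.range := by
  rcases h with h | h
  · left
    have := Φ.range.mul_mem (Φ.range.inv_mem hr) h
    rwa [inv_mul_cancel_left] at this
  · right
    have := Φ.range.mul_mem (Φ.range.inv_mem hr) h
    rwa [mul_assoc, inv_mul_cancel_left] at this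

theorem t2f {G : Type*} [Group G] [Finite G] {ψ : PP →* G} {n : G} (h : TD ψ n)
    (h36 : ∀ {s x g : G}, g * s * g⁻¹ = ψ (1, t5) → x ^ 3 = 1 → x ≠ 1 → x * s = s * x →
      Nat.card (centralizer ({x} : Set G) ⊓ centralizer ({s} : Set G) : Subgroup G) = 36)
    (hN : ∀ g : G, g * ψ (1, t5) = ψ (1, t5) * g → g ∈ normalizer (DD ψ : Set G))
    {Φ : EE →* G} (hi : Function.Injective Φ) (hn : n ∉ Φ.range)
    (hnc : ∀ (a b : Perm (Fin 5)) (h : Perm.sign a = Perm.sign b), n * Φ (mkE a b h) * n⁻¹ = Φ (mkE b a h.symm))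
    (hψ : ∀ (a : Perm (Fin 5)) (ha : Perm.sign a = Perm.sign (1 : Perm (Fin 5))), Φ (mkE a 1 ha) = ψ (1, a))
    (htE : Φ tE = ψ (1, t5)) (hct : ∀ g : G, g * Φ tE = Φ tE * g → g ∈ Φ.range ∨ g * n ∈ Φ.range) (g : G)
    (hg : g * Φ tE * g⁻¹ ∈ Φ.range ∨ g * Φ tE * g⁻¹ * n ∈ Φ.range) : g ∈ Φ.range ∨ g * n ∈ Φ.range := by
  have htt : Φ tE * Φ tE = 1 := by
    rw [← map_mul, ← map_one Φ]
    exact congrArg Φ (Subtype.ext (Prod.ext t5_sq t5_sq))
  have hxx : (g * Φ tE * g⁻¹) * (g * Φ tE * g⁻¹) = 1 := by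
    calc (g * Φ tE * g⁻¹) * (g * Φ tE * g⁻¹) = g * (Φ tE * Φ tE) * g⁻¹ := by group
      _ = 1 := by rw [htt]; group
  have hx1 : g * Φ tE * g⁻¹ ≠ 1 := by
    intro h1
    have h2 : Φ tE = 1 := by
      calc Φ tE = g⁻¹ * (g * Φ tE * g⁻¹) * g := by group
        _ = 1 := by rw [h1]; group
    exact t5_ne (mkE_inj (hi (h2.trans (map_one Φ).symm) : mkE t5 t5 rfl = mkE 1 1 rfl)).1
  -- the cases `(σ, 1)`
  have hb1 : ∀ (g : G) (σ ρ : Perm (Fin 5)) (hs : Perm.sign σ = Perm.sign (1 : Perm (Fin 5))), Perm.sign ρ = 1 →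
      ρ * σ * ρ⁻¹ = s0 → g * Φ tE * g⁻¹ = Φ (mkE σ 1 hs) → False := by
    intro g σ ρ hs hρ hρσ hx
    apply b1core h h36 (g := Φ (mkE ρ 1 (hρ.trans (map_one _).symm)) * g)
    rw [← htE, ← hψ s0 (s0_sign.trans (map_one _).symm)]
    calc Φ (mkE ρ 1 (hρ.trans (map_one _).symm)) * g * Φ tE * (Φ (mkE ρ 1 (hρ.trans (map_one _).symm)) * g)⁻¹
        = Φ (mkE ρ 1 (hρ.trans (map_one _).symm)) * (g * Φ tE * g⁻¹) * (Φ (mkE ρ 1 (hρ.trans (map_one _).symm)))⁻¹ := by group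
      _ = _ := by
        rw [hx, ← map_inv, ← map_mul, ← map_mul]
        exact congrArg Φ (Subtype.ext (Prod.ext hρσ (by show (1 : Perm (Fin 5)) * 1 * 1⁻¹ = 1; group)))
  rcases hg with ⟨⟨⟨σ, τ⟩, hst0⟩, he⟩ | ⟨⟨⟨σ, τ⟩, hst0⟩, he⟩
  · have hst : Perm.sign σ = Perm.sign τ := hst0
    have he' : Φ (mkE σ τ hst) = g * Φ tE * g⁻¹ := he
    have h1 : mkE σ τ hst * mkE σ τ hst = mkE 1 1 rfl := hi (by rw [map_mul, he', hxx]; exact (map_one Φ).symm)
    rw [mkE_mul] at h1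
    obtain ⟨hσ2, hτ2⟩ := mkE_inj h1
    have hst' : Perm.sign σ = Perm.sign τ := hst
    rcases Int.units_eq_one_or (Perm.sign σ) with hs | hs
    · exfalso
      have hsτ : Perm.sign τ = 1 := by rw [← hst', hs]
      rcases inv_even σ hσ2 hs with hσ | ⟨ρ, hρ, hρσ⟩
      · rcases inv_even τ hτ2 hsτ with hτ | ⟨ρ, hρ, hρτ⟩
        · apply hx1
          rw [← he', ← map_one Φ]
          exact congrArg Φ (Subtype.ext (Prod.ext hσ hτ))
        · -- `(1, τ)`
          subst hσ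
          apply hb1 (n * g) τ ρ (hsτ.trans (map_one _).symm) hρ hρτ
          calc n * g * Φ tE * (n * g)⁻¹ = n * (g * Φ tE * g⁻¹) * n⁻¹ := by group
            _ = _ := by rw [← he', hnc]
      · rcases inv_even τ hτ2 hsτ with hτ | ⟨ρ', hρ', hρτ⟩
        · subst hτ
          exact hb1 g σ ρ (hs.trans (map_one _).symm) hρ hρσ he'.symm
        · apply b3core hi h.nn hn hnc hct (g := Φ (mkE ρ ρ' (hρ.trans hρ'.symm)) * g)
          calc Φ (mkE ρ ρ' (hρ.trans hρ'.symm)) * g * Φ tE * (Φ (mkE ρ ρ' (hρ.trans hρ'.symm)) * g)⁻¹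
              = Φ (mkE ρ ρ' (hρ.trans hρ'.symm)) * (g * Φ tE * g⁻¹) * (Φ (mkE ρ ρ' (hρ.trans hρ'.symm)))⁻¹ := by group
            _ = _ := by
              rw [← he', ← map_inv, ← map_mul, ← map_mul]
              exact congrArg Φ (Subtype.ext (Prod.ext hρσ hρτ))
    · have hsτ : Perm.sign τ = -1 := by rw [← hst', hs]
      obtain ⟨ρ, hρ, hρσ⟩ := inv_odd σ hσ2 hs
      obtain ⟨ρ', hρ', hρτ⟩ := inv_odd τ hτ2 hsτ
      refine move (r := Φ (mkE ρ ρ' (hρ.trans hρ'.symm))) ⟨_, rfl⟩ (hct _ ?_)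
      have h2 : Φ (mkE ρ ρ' (hρ.trans hρ'.symm)) * g * Φ tE * (Φ (mkE ρ ρ' (hρ.trans hρ'.symm)) * g)⁻¹ = Φ tE := by
        calc Φ (mkE ρ ρ' (hρ.trans hρ'.symm)) * g * Φ tE * (Φ (mkE ρ ρ' (hρ.trans hρ'.symm)) * g)⁻¹
            = Φ (mkE ρ ρ' (hρ.trans hρ'.symm)) * (g * Φ tE * g⁻¹) * (Φ (mkE ρ ρ' (hρ.trans hρ'.symm)))⁻¹ := by group
          _ = _ := by
            rw [← he', ← map_inv, ← map_mul, ← map_mul]
            exact congrArg Φ (Subtype.ext (Prod.ext hρσ hρτ))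
      rwa [mul_inv_eq_iff_eq_mul] at h2
  · exfalso
    have hst : Perm.sign σ = Perm.sign τ := hst0
    have he' : Φ (mkE σ τ hst) = g * Φ tE * g⁻¹ * n := he
    have hx : g * Φ tE * g⁻¹ = Φ (mkE σ τ hst) * n := by
      rw [he', mul_assoc (g * Φ tE * g⁻¹) n n, h.nn, mul_one]
    have h1 : mkE (σ * τ) (τ * σ) (by rw [map_mul, map_mul, mul_comm]) = mkE 1 1 rfl := by
      apply hi
      have h2 : (Φ (mkE σ τ hst) * n) * (Φ (mkE σ τ hst) * n) =
          Φ (mkE σ τ hst) * (n * Φ (mkE σ τ hst) * n⁻¹) * (n * n) := by group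
      rw [hx, h2, hnc, h.nn, mul_one, ← map_mul, mkE_mul] at hxx
      rw [hxx]; exact (map_one Φ).symm
    have hτ : τ = σ⁻¹ := by
      have h2 := (mkE_inj h1).1
      exact (inv_eq_of_mul_eq_one_right h2).symm
    subst hτ
    have hnz : n * ψ (c3, 1) * n⁻¹ = ψ (1, d5) := h.n1
    have hnw : n * ψ (1, d5) * n⁻¹ = ψ (c3, 1) := h.n2
    rcases Int.units_eq_one_or (Perm.sign σ) with hs | hs
    · have hs' : Perm.sign σ⁻¹ = Perm.sign (1 : Perm (Fin 5)) := by rw [Perm.sign_inv, hs, map_one]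
      refine ccore h h36 (g := Φ (mkE σ⁻¹ 1 hs') * g) (s := n) ?_ hnz hnw
      rw [← htE]
      calc Φ (mkE σ⁻¹ 1 hs') * g * Φ tE * (Φ (mkE σ⁻¹ 1 hs') * g)⁻¹
          = Φ (mkE σ⁻¹ 1 hs') * (g * Φ tE * g⁻¹) * (Φ (mkE σ⁻¹ 1 hs'))⁻¹ := by group
        _ = Φ (mkE σ⁻¹ 1 hs') * Φ (mkE σ σ⁻¹ hst) * (n * (Φ (mkE σ⁻¹ 1 hs'))⁻¹ * n⁻¹) * n := by rw [hx]; group
        _ = n := by
          rw [← map_inv, mkE_inv, hnc, ← map_mul, ← map_mul]
          have h3 : Φ (mkE σ⁻¹ 1 hs' * mkE σ σ⁻¹ hst * mkE 1⁻¹ σ⁻¹⁻¹ (by rw [Perm.sign_inv, Perm.sign_inv]; exact hs'.symm)) = 1 := by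
            rw [← map_one Φ]
            refine congrArg Φ (Subtype.ext (Prod.ext ?_ ?_))
            · show σ⁻¹ * σ * 1⁻¹ = 1
              group
            · show 1 * σ⁻¹ * σ⁻¹⁻¹ = 1
              group
          rw [h3, one_mul]
    · have hs' : Perm.sign (t5 * σ⁻¹) = Perm.sign (1 : Perm (Fin 5)) := by
        rw [map_mul, Perm.sign_inv, hs, map_one]; decide +kernel
      have hwt : ψ (1, t5) * ψ (1, d5) * (ψ (1, t5))⁻¹ = ψ (1, d5) := by
        rw [mul_inv_eq_iff_eq_mul, ← map_mul, ← map_mul]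
        exact congrArg ψ (Prod.ext rfl t5_d5)
      have hzt : ψ (1, t5) * ψ (c3, 1) * (ψ (1, t5))⁻¹ = ψ (c3, 1) := by
        rw [mul_inv_eq_iff_eq_mul, ← map_mul, ← map_mul]
        congr 1
      refine ccore h h36 (g := Φ (mkE (t5 * σ⁻¹) 1 hs') * g) (s := ψ (1, t5) * n) ?_ ?_ ?_
      · rw [← htE]
        calc Φ (mkE (t5 * σ⁻¹) 1 hs') * g * Φ tE * (Φ (mkE (t5 * σ⁻¹) 1 hs') * g)⁻¹
            = Φ (mkE (t5 * σ⁻¹) 1 hs') * (g * Φ tE * g⁻¹) * (Φ (mkE (t5 * σ⁻¹) 1 hs'))⁻¹ := by group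
          _ = Φ (mkE (t5 * σ⁻¹) 1 hs') * Φ (mkE σ σ⁻¹ hst) * (n * (Φ (mkE (t5 * σ⁻¹) 1 hs'))⁻¹ * n⁻¹) * n := by rw [hx]; group
          _ = Φ tE * n := by
            rw [← map_inv, mkE_inv, hnc, ← map_mul, ← map_mul]
            have h3 : mkE (t5 * σ⁻¹) 1 hs' * mkE σ σ⁻¹ hst * mkE 1⁻¹ (t5 * σ⁻¹)⁻¹ (by rw [Perm.sign_inv, Perm.sign_inv]; exact hs'.symm) = tE := by
              refine Subtype.ext (Prod.ext ?_ ?_)
              · show t5 * σ⁻¹ * σ * 1⁻¹ = t5
                group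
              · show 1 * σ⁻¹ * (t5 * σ⁻¹)⁻¹ = t5
                have h4 : (t5)⁻¹ = t5 := inv_eq_of_mul_eq_one_right t5_sq
                rw [_root_.mul_inv_rev, inv_inv, h4]
                group
            rw [h3]
      · calc ψ (1, t5) * n * ψ (c3, 1) * (ψ (1, t5) * n)⁻¹ = ψ (1, t5) * (n * ψ (c3, 1) * n⁻¹) * (ψ (1, t5))⁻¹ := by group
          _ = _ := by rw [hnz, hwt]
      · calc ψ (1, t5) * n * ψ (1, d5) * (ψ (1, t5) * n)⁻¹ = ψ (1, t5) * (n * ψ (1, d5) * n⁻¹) * (ψ (1, t5))⁻¹ := by group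
          _ = _ := by rw [hnw, hzt]

end H62.RT2f
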